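import Cfsg.Agent.X9O.Sy
import Cfsg.Agent.Chev.LaceSt

/-!
# Large extraspecial subgroups of order `2⁹` with four commuting `SL₂(3)`: definitions
-/

set_option autoImplicit false

universe u

namespace Cfsg.Lib.X9P

open Subgroup Cfsg.Lib.Local Cfsg.Lib.Solv Module Cfsg.Lib.Spor Cfsg.Lib.LX Equiv
open scoped Pointwise commutatorElement

variable {G : Type u} [Group G]

/-- The subgroup of `C(d)` generated by `Q_d` and all `Q_t ∩ C(d)`. -/
def LL (d : G) : Subgroup G := qOf d ⊔ ⨆ t : {t // NW d t}, BB d t.1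

/-- `Q_s ∩ C(z)` covers a Sylow subgroup of `LL z / Q_z`. -/
structure Tk {z : G} {V : Type*} [AddCommGroup V] [Module (ZMod 2) V] (S : Sh (qOf z) z V)
    (s : G) : Prop where
  nw : NW z s
  dim : finrank (ZMod 2) V = 8
  t1 : T1 S s
  sy : Block.IsSylowIn 2 (BB z s ⊔ qOf z) (LL z)
  orb : ∀ x, NW z x → ∃ c ∈ centralizer ({z} : Set G), c * s * c⁻¹ = x

/-- The model: four orthogonal anisotropic planes. -/
abbrev V4 := Fin 4 → W2

def q2 (u : W2) : ZMod 2 := u.1 + u.2 + u.1 * u.2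
def q4 (v : V4) : ZMod 2 := q2 (v 0) + q2 (v 1) + q2 (v 2) + q2 (v 3)
def b4 (u v : V4) : ZMod 2 := om2 (u 0) (v 0) + om2 (u 1) (v 1) + om2 (u 2) (v 2) + om2 (u 3) (v 3)
def p4 : V4 := fun _ => (1, 0)

/-- Monomial maps. -/
def mo (τ : Perm (Fin 4)) (k : Fin 4 → Perm (Fin 3)) (v : V4) : V4 :=
  fun i => act3 (k i) (v (τ⁻¹ i))

/-- Sign changes. -/
def sg (c : Fin 4 → Bool) : Fin 4 → Perm (Fin 3) := fun i => cond (c i) τ3 1

/-- The Klein four group. -/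
def kl (i j : Bool) : Perm (Fin 4) :=
  cond i (swap 0 1 * swap 2 3) 1 * cond j (swap 0 2 * swap 1 3) 1

/-- The image of `Q_z ∩ Q_s`. -/
def InE4 (v : V4) : Prop :=
  (v 1).2 = (v 0).2 ∧ (v 2).2 = (v 0).2 ∧ (v 3).2 = (v 0).2 ∧ (v 0).1 + (v 1).1 + (v 2).1 + (v 3).1 = 0

instance : DecidablePred InE4 := fun v => by unfold InE4; infer_instance

/-- The interface: the points have weight four, `C(z)` induces `3⁴ : 2³`. -/
structure P3 (z s : G) (S : Sh (qOf z) z V4) : Prop where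
  nw : NW z s
  πs : S.π s = p4
  q : ∀ v, S.q v = q4 v
  pt : ∀ x, NW z x → ∀ i, S.π x i ≠ 0
  rot : ∀ i, ∃ x ∈ centralizer ({z} : Set G), ∀ v, S.ρ x v = mo 1 (Pi.mulSingle i r3) v
  sσ : ∃ a ∈ BB z s, ∀ v, S.ρ a v = mo 1 (fun _ => τ3) v
  s1 : ∃ a ∈ BB z s, ∀ v, S.ρ a v = mo (kl true false) 1 v
  s2 : ∃ a ∈ BB z s, ∀ v, S.ρ a v = mo (kl false true) 1 v

/-- Root elements: elements of order three of the four normal `SL₂(3)` at `d`. -/
def Rt (d x : G) : Prop := x * d = d * x ∧ x ^ 3 = 1 ∧ x ≠ 1 ∧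
  ∀ q ∈ qOf d, ⁅x, q⁆ * ⁅x, q⁆ = 1 → ⁅x, q⁆ = 1 ∨ ⁅x, q⁆ = d

/-- The four group `⟨u, v⟩` plays the role of the torus. -/
structure Tr (u v : G) : Prop where
  cv : IsConj u v
  cw : IsConj u (u * v)
  cm : u * v = v * u
  out : v ∉ qOf u

/-- The eight root groups at `u`. -/
structure Fr0 (u v : G) (a A : Fin 4 → G) : Prop where
  ra : ∀ i, Rt u (a i)
  rA : ∀ i, Rt u (A i)
  ia : ∀ i, v * a i * v⁻¹ = (a i)⁻¹
  iA : ∀ i, v * A i * v⁻¹ = (A i)⁻¹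
  sq : ∀ i, a i * A i * (a i * A i) = u
  aa : ∀ i j, i ≠ j → Commute (a i) (a j)
  aA : ∀ i j, i ≠ j → Commute (a i) (A j)
  AA : ∀ i j, i ≠ j → Commute (A i) (A j)
  un : ∀ x, Rt u x → v * x * v⁻¹ = x⁻¹ → ∃ i, x = a i ∨ x = (a i)⁻¹ ∨ x = A i ∨ x = (A i)⁻¹
  gen : ∀ x, Rt u x → x ∈ closure (Set.range a ∪ Set.range A)

/-- The root groups in the model. -/
structure F0 {z : G} (S : Sh (qOf z) z V4) (v : G) (a A : Fin 4 → G) : Prop
    extends Fr0 z v a A where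
  ρa : ∀ i w, S.ρ (a i) w = mo 1 (Pi.mulSingle i r3) w
  ρA : ∀ i w, S.ρ (A i) w = mo 1 (Pi.mulSingle i r3⁻¹) w
  le : qOf z ≤ closure (Set.range a ∪ Set.range A)

/-- The eight root groups at `u` and their products. -/
structure Fr (u v : G) (a A : Fin 4 → G) : Prop extends Fr0 u v a A where
  odd : ∀ R ≤ centralizer ({u} : Set G), Odd (Nat.card R) → (∀ r ∈ R, v * r * v⁻¹ = r⁻¹) →
    Nat.card R ∣ 81 ∧ (Nat.card R = 81 → ∀ i, a i ∈ R ∨ A i ∈ R)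
  cj : ∀ c ∈ centralizer ({u} : Set G), ∃ k ∈ closure (Set.range a ∪ Set.range A),
    k * v * k⁻¹ = c * v * c⁻¹

/-- Elements of an extraspecial group `2^{1+6}`. -/
structure Es (z f g f' g' n : G) : Prop where
  ff : f * f = 1
  ff' : f' * f' = 1
  gf : g * f * g⁻¹ = z * f
  gf' : g' * f' * g'⁻¹ = z * f'
  c1 : f * f' = f' * f
  c2 : f * g' = g' * f
  c3 : f * n = n * f
  c4 : f' * n = n * f'
  nn : n * n = z

/-- The local facts that do not mention the model. -/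
structure Lc (z : G) : Prop where
  pre : PreLX (qOf z) z
  tr : ∃ v, Tr z v
  fr : ∀ v, Tr z v → ∃ a A, Fr z v a A
  iso : ∀ x d, Rt z x → IsConj z d → d * z = z * d → d * x = x * d → d = z
  esp : ∀ x, Rt z x → ∃ f g f' g' n, Es z f g f' g' n ∧
    ∀ y ∈ [f, g, f', g', n], y ∈ qOf z ∧ y * x = x * y
  cen : ∀ x o, Rt z x → o * z = z * o → o * x = x * o → Odd (orderOf o) →
    (∀ y ∈ qOf z, y * x = x * y → o * y = y * o) → o ∈ zpowers x
  nle : ∀ x, Rt z x → ∃ c, c * x = x * c ∧ c * z ≠ z * c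
  com : ∀ d, IsConj z d → d * z = z * d → d ∉ qOf z → ∃ w, NW z w ∧ NW d w
  orb : ∀ w w', NW z w → NW z w' → ∃ c ∈ centralizer ({z} : Set G), c * w * c⁻¹ = w'
  two : ¬ 2 ^ 17 ∣ Nat.card G

/-- The local facts at all conjugates. -/
def La (z : G) : Prop := ∀ u, IsConj z u → Lc u

/-- The subgroup generated by the twelve `SL₂(3)`. -/
def GS (u v : G) : Subgroup G := closure {x | Rt u x ∨ Rt v x ∨ Rt (u * v) x}

/-- One parameter groups. -/
def pw (a : G) (t : ZMod 3) : G := a ^ t.val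

/-- The two `SL₂(3)` generated by `a, A` and by `b, B` form a standard pair in an `SL₃(3)`. -/
def Ed (a A b B : G) : Prop := ∃ e : Fin 3 → Fin 3 → ZMod 3 → G,
  Chev.StA e ∧ e 0 1 = pw a ∧ e 1 0 = pw A ∧ e 1 2 = pw b ∧ e 2 1 = pw B

/-- The conclusion. -/
def IsO83 (G : Type u) [Group G] : Prop := Nonempty (G ≃* POmega (ZMod 3) (quadFormPlus 4 (ZMod 3)))

theorem LL_eq_1' : type_of% @LL.eq_1 := @LL.eq_1
theorem q2_eq_1' : type_of% @q2.eq_1 := @q2.eq_1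
theorem q4_eq_1' : type_of% @q4.eq_1 := @q4.eq_1
theorem b4_eq_1' : type_of% @b4.eq_1 := @b4.eq_1
theorem p4_eq_1' : type_of% @p4.eq_1 := @p4.eq_1
theorem mo_eq_1' : type_of% @mo.eq_1 := @mo.eq_1
theorem sg_eq_1' : type_of% @sg.eq_1 := @sg.eq_1
theorem kl_eq_1' : type_of% @kl.eq_1 := @kl.eq_1
theorem InE4_eq_1' : type_of% @InE4.eq_1 := @InE4.eq_1
theorem Rt_eq_1' : type_of% @Rt.eq_1 := @Rt.eq_1
theorem La_eq_1' : type_of% @La.eq_1 := @La.eq_1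
theorem GS_eq_1' : type_of% @GS.eq_1 := @GS.eq_1
theorem pw_eq_1' : type_of% @pw.eq_1 := @pw.eq_1
theorem Ed_eq_1' : type_of% @Ed.eq_1 := @Ed.eq_1
theorem IsO83_eq_1' : type_of% @IsO83.eq_1 := @IsO83.eq_1

variable {z s d t u v x : G}

theorem Q_le_LL (d : G) : qOf d ≤ LL d := le_sup_left

theorem BB_le_LL (h : NW d t) : BB d t ≤ LL d :=
  le_sup_of_le_right (le_iSup (fun t : {t // NW d t} => BB d t.1) ⟨t, h⟩)

theorem LL_le (d : G) : LL d ≤ centralizer ({d} : Set G) :=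
  sup_le (qOf_le d) (iSup_le fun _ => inf_le_right)

theorem LL_le_of {K : Subgroup G} (h1 : qOf d ≤ K) (h2 : ∀ t, NW d t → BB d t ≤ K) : LL d ≤ K :=
  sup_le h1 (iSup_le fun t => h2 t.1 t.2)

theorem conj_mem_LL (g : G) (h : x ∈ LL d) : g * x * g⁻¹ ∈ LL (g * d * g⁻¹) :=
  LL_le_of (K := (LL (g * d * g⁻¹)).comap (MulAut.conj g).toMonoidHom)
    (fun _ k => Q_le_LL _ (mem_qOf_conj k))
    (fun _ n _ k => BB_le_LL (n.conj g) ⟨mem_qOf_conj k.1,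
      (mem_C_cj g).2 (by simpa [mul_assoc] using k.2)⟩) h

theorem mem_LL_cj (g : G) : x ∈ LL (g * d * g⁻¹) ↔ g⁻¹ * x * g ∈ LL d :=
  ⟨fun h => by simpa [mul_assoc] using conj_mem_LL g⁻¹ h,
    fun h => by simpa [mul_assoc] using conj_mem_LL g h⟩

theorem conj_mem_LL' {c : G} (hc : c ∈ centralizer ({d} : Set G)) (h : x ∈ LL d) :
    c * x * c⁻¹ ∈ LL d := by
  simpa [mem_C.1 hc] using conj_mem_LL c h

theorem Rt.cj (h : Rt d x) (g : G) : Rt (g * d * g⁻¹) (g * x * g⁻¹) := by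
  obtain ⟨a, b, c, e⟩ := h
  refine ⟨by rw [conj_mul, conj_mul, a], by rw [conj_pow, b]; simp, fun k => c (by simpa using k),
    fun q hq k => ?_⟩
  have f : ⁅g * x * g⁻¹, q⁆ = g * ⁅x, g⁻¹ * q * g⁆ * g⁻¹ := by
    simp only [commutatorElement_def]; group
  rw [f] at k ⊢
  rw [conj_mul] at k
  exact (e _ ((mem_Q_cj g).1 hq) (by simpa using k)).imp (fun r => by simp [r]) fun r => by rw [r]

theorem Tr.vv (p : PreLX (qOf u) u) (h : Tr u v) : v * v = 1 :=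
  (p.qOf_of_conj (isConj_iff.1 h.cv)).mul_self

theorem Tr.mul (p : PreLX (qOf u) u) (h : Tr u v) : Tr u (u * v) :=
  ⟨h.cw, by rw [← mul_assoc, p.mul_self, one_mul]; exact h.cv, by rw [mul_assoc, ← h.cm],
    fun k => h.out ((mul_mem_cancel_left p.mem).1 k)⟩

theorem Tr.symm [Finite G] (p : PreLX (qOf u) u) (h : Tr u v) : Tr v u :=
  ⟨h.cv.symm, h.cm ▸ h.cv.symm.trans h.cw, h.cm.symm, fun k => h.out (NW.zs
    ⟨p.qOf_of_conj (isConj_iff.1 h.cv), h.cv.symm, k, fun e => h.out (e ▸ p.mem)⟩)⟩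

theorem La.at (h : La z) (c : IsConj z u) : La u := fun _ k => h _ (c.trans k)

theorem La.self (h : La z) : Lc z := h z (IsConj.refl z)

theorem P3.cj {S : Sh (qOf z) z V4} (h : P3 z s S) (g : G) :
    P3 (g * z * g⁻¹) (g * s * g⁻¹) (S.cj g) := by
  have r : ∀ a v, (S.cj g).ρ (g * a * g⁻¹) v = S.ρ a v := fun a v => by simp [Sh.cj, mul_assoc]
  have c : ∀ {a}, a ∈ centralizer ({z} : Set G) →
      g * a * g⁻¹ ∈ centralizer ({g * z * g⁻¹} : Set G) := fun k =>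
    (mem_C_cj g).2 (by simpa [mul_assoc] using k)
  have b : ∀ {f : V4 → V4}, (∃ a ∈ BB z s, ∀ v, S.ρ a v = f v) →
      ∃ a ∈ BB (g * z * g⁻¹) (g * s * g⁻¹), ∀ v, (S.cj g).ρ a v = f v := fun ⟨a, k, e⟩ =>
    ⟨_, ⟨mem_qOf_conj k.1, c k.2⟩, fun v => (r a v).trans (e v)⟩
  refine ⟨h.nw.conj g, by simpa [Sh.cj, mul_assoc] using h.πs, h.q,
    fun x n => h.pt _ (X9O.nw_cj n), fun i => ?_, b h.sσ, b h.s1, b h.s2⟩
  obtain ⟨a, k, e⟩ := h.rot i
  exact ⟨_, c k, fun v => (r a v).trans (e v)⟩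

end Cfsg.Lib.X9P
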