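import Cfsg.Agent.X9P.M1

/-! # Consequences of the Sylow hypothesis in `LL z` -/

set_option autoImplicit false
set_option linter.unusedSectionVars false

universe u

namespace Cfsg.Lib.X9P

open Subgroup Cfsg.Lib.Local Cfsg.Lib.Solv Module Cfsg.Lib.Spor Cfsg.Lib.LX Equiv
open scoped Pointwise commutatorElement

variable {G : Type u} [Group G] [Finite G]
variable {z s : G} {V : Type*} [AddCommGroup V] [Module (ZMod 2) V] [Finite V] {S : Sh (qOf z) z V}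

theorem Tk.cj (h : Tk S s) (g : G) : Tk (S.cj g) (g * s * g⁻¹) where
  nw := h.nw.conj g
  dim := h.dim
  t1 := X9O.t1_cj h.t1 g
  sy := by
    have := h.sy.map_conj g
    rw [Subgroup.map_sup] at this
    have e : ∀ x, (qOf x).map (MulAut.conj g).toMonoidHom = qOf (g * x * g⁻¹) := fun x => by
      ext y; rw [Block.mem_map_conj_iff, mem_Q_cj]
    have f : (BB z s).map (MulAut.conj g).toMonoidHom = BB (g * z * g⁻¹) (g * s * g⁻¹) := by
      ext y; rw [Block.mem_map_conj_iff, mem_inf, mem_inf, mem_Q_cj, mem_C_cj]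
    have l : (LL z).map (MulAut.conj g).toMonoidHom = LL (g * z * g⁻¹) := by
      ext y; rw [Block.mem_map_conj_iff, mem_LL_cj]
    rwa [e, f, l] at this
  orb x n := by
    obtain ⟨c, hc, e⟩ := h.orb _ (X9O.nw_cj n)
    refine ⟨g * c * g⁻¹, (mem_C_cj g).2 (by simpa [mul_assoc] using hc), ?_⟩
    rw [show x = g * (g⁻¹ * x * g) * g⁻¹ by group, ← e]; group

theorem Tk.at (h : Tk S s) {d : G} (c : IsConj z d) : ∃ t, ∃ S' : Sh (qOf d) d V, Tk S' t := by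
  obtain ⟨g, rfl⟩ := isConj_iff.1 c
  exact ⟨_, _, h.cj g⟩

theorem Tk.swap (h : Tk S s) : ∃ S' : Sh (qOf s) s V, Tk S' z := by
  obtain ⟨g, h1, h2⟩ := nw_swap h.nw
  have : ∃ S' : Sh (qOf (g * z * g⁻¹)) (g * z * g⁻¹) V, Tk S' (g * s * g⁻¹) := ⟨_, h.cj g⟩
  rwa [h1, h2] at this

theorem Tk.exists_conj (h : Tk S s) {d : G} (hd : d ∈ LL z) (h2 : d * d = 1) :
    ∃ c ∈ centralizer ({z} : Set G), ∃ a ∈ BB z s, ∃ y ∈ qOf z, a * y = c * d * c⁻¹ := by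
  obtain ⟨c, hc, k⟩ := h.sy.exists_conj_le (X9O.pg2 h2) (zpowers_le.2 hd)
  exact ⟨c, LL_le z hc, X9O.split S (k ⟨d, mem_zpowers d, rfl⟩)⟩

theorem Tk.freeB (h : Tk S s) {a : G} (ha : a ∈ BB z s) (hQ : a ∉ qOf z) {v : V}
    (hv : S.N a v = 0) : ∃ u, S.N a u = v := by
  have e := LinearMap.finrank_range_add_finrank_ker (S.N a)
  rw [h.dim, h.t1.dimK a ha hQ] at e
  have : v ∈ LinearMap.range (S.N a) := by
    rw [Submodule.eq_of_le_of_finrank_le (S.range_le_ker ha.2 (h.nw.sq_mem ha))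
      (by rw [h.t1.dimK a ha hQ]; omega)]
    exact hv
  exact this

theorem Tk.free (h : Tk S s) {d : G} (hd : d ∈ LL z) (h2 : d * d = 1) (hQ : d ∉ qOf z) {v : V}
    (hv : S.N d v = 0) : ∃ u, S.N d u = v := by
  obtain ⟨c, hc, a, ha, y, hy, e⟩ := h.exists_conj hd h2
  have n : ∀ v, S.N a (S.ρ c v) = S.ρ c (S.N d v) := fun v => by
    rw [← S.N_mul_mem ha.2 hy, e, S.N_conj hc (LL_le z hd)]
  obtain ⟨u, f⟩ := h.freeB ha (X9O.not_mem_conj S hc hy e hQ) (v := S.ρ c v)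
    (by rw [n, hv, map_zero])
  exact ⟨S.ρ c⁻¹ u, S.ρ_inj hc (by rw [← n, S.ρ_ρ_inv hc, f])⟩

theorem inverts_of {d x : G} (S : Sh (qOf z) z V) (hd : d ∈ centralizer ({z} : Set G))
    (h2 : d * d = 1) (hx : x ∈ qOf z) (hv : ∃ u, S.N d u = S.π x) : d * x * d⁻¹ = x⁻¹ := by
  obtain ⟨u, e⟩ := hv
  obtain ⟨y, hy, rfl⟩ := S.π_surj u
  rw [S.N_π hd hy, S.π_eq_iff (S.comm_mem hd hy) hx] at e
  have i : d⁻¹ = d := inv_eq_of_mul_eq_one_right h2
  have k : d * ⁅d, y⁆ * d⁻¹ = ⁅d, y⁆⁻¹ := by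
    simp only [commutatorElement_def, mul_inv_rev, inv_inv, i, ← mul_assoc, h2, one_mul]
  rcases e with rfl | rfl
  · exact k
  · rw [← mul_assoc, mul_assoc, ← mem_C.1 (inv_mem hd), ← mul_assoc, k, mul_inv_rev, S.pre.inv_eq,
      S.pre.central _ (inv_mem (S.comm_mem hd hy))]

theorem Tk.invol (h : Tk S s) {a : G} (ha : a ∈ BB z s) (hQ : a ∉ qOf z) :
    ∃ e ∈ qOf z, a * e ∈ BB z s ∧ a * e * (a * e) = 1 := by
  by_cases h2 : a * a = 1
  · exact ⟨1, one_mem _, by rwa [mul_one], by rwa [mul_one]⟩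
  obtain ⟨S', h'⟩ := h.swap
  have := mt (h'.nw.mem_E_of_perp S' h'.dim h'.t1.dimE (v := S'.π a))
    fun k => hQ ((h'.nw.mem_E S' ha.1).1 k)
  push Not at this
  obtain ⟨u, hu, k⟩ := this
  obtain ⟨e, he, rfl⟩ := S'.π_surj u
  have he' := (h'.nw.mem_E S' he).1 hu
  refine ⟨e, he', mul_mem ha ⟨he, qOf_le z he'⟩, (S'.q_π _ (mul_mem ha.1 he)).1 ?_⟩
  rw [S'.π_mul a ha.1 e he, S'.q_add, h'.nw.q_E S' hu, S'.b_comm, z2_ne_zero.1 k,
    z2_ne_zero.1 (mt (S'.q_π a ha.1).1 h2)]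
  decide

theorem Tk.common (h : Tk S s) {d : G} (hd : d ∈ LL z) (h2 : d * d = 1) (hQ : d ∉ qOf z) :
    ∃ t, NW z t ∧ d ∈ qOf t := by
  obtain ⟨c, hc, a, ha, y, hy, e⟩ := h.exists_conj hd h2
  have nQ := X9O.not_mem_conj S hc hy e hQ
  obtain ⟨f, hf, ha0, a2⟩ := h.invol ha nQ
  replace nQ : a * f ∉ qOf z := by rwa [mul_mem_cancel_right hf]
  replace e : a * f * (f⁻¹ * y) = c * d * c⁻¹ := by rw [← e]; group
  replace hy := mul_mem (inv_mem hf) hy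
  generalize a * f = a at *
  generalize f⁻¹ * y = y at *
  have i : a⁻¹ = a := inv_eq_of_mul_eq_one_right a2
  have h3 : a * y * a⁻¹ = y⁻¹ := by
    rw [i, ← mul_eq_one_iff_eq_inv, mul_assoc, e, conj_mul, h2, mul_one, mul_inv_cancel]
  obtain ⟨u, k⟩ := h.freeB ha0 nQ (v := S.π y) (by
    rw [S.N_eq_zero, S.ρ_π a ha0.2 y hy, h3, S.π_inv hy])
  obtain ⟨x, hx, rfl⟩ := S.π_surj u
  rw [S.N_π ha0.2 hx, S.π_eq_iff (S.comm_mem ha0.2 hx) hy] at k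
  have h4 : a * ⁅a, x⁆ = x * a * x⁻¹ := by
    simp only [commutatorElement_def, i, ← mul_assoc, a2, one_mul]
  have n := h.nw.conj' (qOf_le z hx)
  refine ⟨_, n.conj' (inv_mem hc), (mem_Q_cj _).2 ?_⟩
  rw [inv_inv, ← e]
  rcases k with rfl | rfl
  · exact h4 ▸ mem_qOf_conj ha0.1
  · rw [← mul_assoc, h4]
    exact mul_mem (mem_qOf_conj ha0.1) n.zs

theorem Tk.stab (h : Tk S s) {k x : G} (hk : k ∈ LL z) (h2 : k * k = 1) (n : NW z x)
    (c : k * x = x * k) : k ∈ LL x := by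
  obtain ⟨g, hg, rfl⟩ := h.orb x n
  rw [mem_LL_cj]
  replace hk := conj_mem_LL' (inv_mem hg) hk
  replace h2 : g⁻¹ * k * g * (g⁻¹ * k * g) = 1 := by
    rw [show g⁻¹ * k * g * (g⁻¹ * k * g) = g⁻¹ * (k * k) * g by group, h2]; group
  replace c : g⁻¹ * k * g ∈ centralizer ({s} : Set G) :=
    (mem_C_cj g).1 (mem_C.2 c)
  rw [inv_inv] at hk
  generalize g⁻¹ * k * g = k at *
  have h3 := h.sy.eq_of_le (h.sy.isPGroup.to_sup_of_normal_left' (X9O.pg2 h2) (zpowers_le.2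
    (le_normalizer_sup (A := zpowers k) (zpowers_le.2 (mem_normalizer_of_conj_mem fun _ =>
      NW.B_conj' (LL_le z hk) c)) (zpowers_le.2 (S.pre.norm (LL_le z hk))) (mem_zpowers k))))
    le_sup_left (sup_le h.sy.le (zpowers_le.2 hk))
  obtain ⟨a, ha, y, hy, rfl⟩ := X9O.split S (h3.le (mem_sup_right (mem_zpowers k)))
  exact mul_mem (Q_le_LL s ha.1)
    (BB_le_LL h.nw.symm ⟨hy, (mul_mem_cancel_left (h.nw.B_le ha)).1 c⟩)

theorem Tk.sym (h : Tk S s) {w : G} (c : IsConj z w) (hw : w ∈ LL z) : z ∈ LL w := by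
  by_cases e : w = z
  · exact e ▸ hw
  by_cases hQ : w ∈ qOf z
  · exact Q_le_LL w (NW.zs ⟨S.pre, c, hQ, e⟩)
  obtain ⟨t, n, k⟩ := h.common hw (S.pre.qOf_of_conj (isConj_iff.1 c)).mul_self hQ
  exact BB_le_LL (NW.symm ⟨n.ps, n.cj.symm.trans c, k, fun e => hQ (e ▸ n.mem)⟩)
    ⟨n.zs, mem_C.2 (mem_C.1 (LL_le z hw)).symm⟩

theorem Tk.out (h : Tk S s) {w d : G} (cw : IsConj z w) (nw : w ∉ LL z) (cd : IsConj z d)
    (hd : d ∈ qOf z) (hw : w * z = z * w) (c : d * w = w * d) : d ∉ LL w := fun k => by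
  have _ := c
  obtain ⟨t, S', h'⟩ := h.at cw
  have k' := h'.sym (cw.symm.trans cd) k
  by_cases e : d = z
  · exact nw (e ▸ k')
  obtain ⟨t', S'', h''⟩ := h.at cd
  exact nw (h''.stab k' S'.pre.mul_self (NW.symm ⟨S.pre, cd, hd, e⟩) hw)

end Cfsg.Lib.X9P
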