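import Cfsg.Agent.X9P.Defs

/-! # The model: basic facts -/

set_option autoImplicit false
set_option linter.unusedSectionVars false

universe u

namespace Cfsg.Lib.X9P

open Subgroup Cfsg.Lib.Local Cfsg.Lib.Solv Module Cfsg.Lib.Spor Cfsg.Lib.LX Equiv
open scoped Pointwise commutatorElement

variable {G : Type u} [Group G] [Finite G]

theorem mo_mul (τ τ' : Perm (Fin 4)) (k k' : Fin 4 → Perm (Fin 3)) (v : V4) :
    mo τ k (mo τ' k' v) = mo (τ * τ') (fun i => k i * k' (τ⁻¹ i)) v :=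
  funext fun _ => (act3_mul _ _ _).symm

theorem mo_one (v : V4) : mo 1 1 v = v := funext fun _ => act3_one _

theorem act3_zero : ∀ g : Perm (Fin 3), act3 g (0 : W2) = 0 := by decide

theorem act3_inj : ∀ g k : Perm (Fin 3), (∀ u : W2, act3 g u = act3 k u) → g = k := by decide

theorem act3_ne : ∀ (g : Perm (Fin 3)) (u : W2), act3 g u = 0 → u = 0 := by decide

theorem mo_single (τ : Perm (Fin 4)) (k : Fin 4 → Perm (Fin 3)) (i : Fin 4) (u : W2) :
    mo τ k (Pi.single i u) = Pi.single (τ i) (act3 (k (τ i)) u) := by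
  funext j
  by_cases e : j = τ i
  · subst e; simp [mo]
  · rw [mo, Pi.single_eq_of_ne e, Pi.single_eq_of_ne fun e' => e (by rw [← e']; simp), act3_zero]

theorem mo_inj {τ τ' : Perm (Fin 4)} {k k' : Fin 4 → Perm (Fin 3)}
    (h : ∀ v, mo τ k v = mo τ' k' v) : τ = τ' ∧ k = k' := by
  obtain rfl : τ = τ' := Equiv.ext fun i => by_contra fun n => by
    have := congrFun (h (Pi.single i (1, 0))) (τ i)
    rw [mo_single, mo_single, Pi.single_eq_same, Pi.single_eq_of_ne n] at this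
    exact absurd (act3_ne _ _ this) (by decide)
  exact ⟨rfl, funext fun i => act3_inj _ _ fun u => congrFun (h fun _ => u) i⟩

theorem mo_add (τ : Perm (Fin 4)) (k : Fin 4 → Perm (Fin 3)) (u v : V4) :
    mo τ k (u + v) = mo τ k u + mo τ k v := funext fun _ => act3_add _ _ _

variable {z s : G} {S : Sh (qOf z) z V4}

section act
variable {a b : G} {τ τ' : Perm (Fin 4)} {k k' : Fin 4 → Perm (Fin 3)}

theorem act_mul (ha : a ∈ centralizer ({z} : Set G)) (hb : b ∈ centralizer ({z} : Set G))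
    (ea : ∀ v, S.ρ a v = mo τ k v) (eb : ∀ v, S.ρ b v = mo τ' k' v) (v : V4) :
    S.ρ (a * b) v = mo (τ * τ') (fun i => k i * k' (τ⁻¹ i)) v := by
  rw [S.ρ_mul ha hb, ea, eb, mo_mul]

theorem act_inv (ha : a ∈ centralizer ({z} : Set G)) (ea : ∀ v, S.ρ a v = mo τ k v) (v : V4) :
    S.ρ a⁻¹ v = mo τ⁻¹ (fun i => (k (τ i))⁻¹) v := S.ρ_inj ha (by
  rw [S.ρ_ρ_inv ha, ea, mo_mul]
  exact (mo_one v).symm.trans (by congr 1 <;> simp [funext_iff]))

theorem act_one (v : V4) : S.ρ 1 v = mo 1 1 v := by rw [S.ρ_one, mo_one]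

theorem act_mem (ha : a ∈ centralizer ({z} : Set G)) (ea : ∀ v, S.ρ a v = mo τ k v) :
    a ∈ qOf z ↔ τ = 1 ∧ k = 1 :=
  ⟨fun h => mo_inj fun v => by rw [← ea, S.ρ_of_mem h, mo_one],
    fun h => S.mem_of_ρ ha fun v => by rw [ea, h.1, h.2, mo_one]⟩

end act

theorem P3.dim : finrank (ZMod 2) V4 = 8 := by simp [Module.finrank_pi_fintype]

theorem P3.b (h : P3 z s S) (u v : V4) : S.b u v = b4 u v := by
  have := S.q_add u v
  rw [h.q, h.q, h.q] at this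
  rw [← add_right_inj, ← this]
  simp only [q4, q2, b4, om2, Pi.add_apply, Prod.fst_add, Prod.snd_add]
  ring

theorem P3.t1 (h : P3 z s S) : T1 S s := by
  refine (h.nw.dichotomy S P3.dim).resolve_left fun k => ?_
  obtain ⟨a, ha, e⟩ := h.sσ
  have := k a ha ![(0, 1), (0, 1), 0, 0] (by rw [h.b, h.πs]; decide)
  rw [S.N_apply, e, h.πs] at this
  revert this
  decide

/-- Members of `BB z s` with prescribed action. -/
def Wd (S : Sh (qOf z) z V4) (s a : G) (i j e : Bool) : Prop :=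
  a ∈ BB z s ∧ ∀ v, S.ρ a v = mo (kl i j) (sg fun _ => e) v

theorem Wd.mul {a b : G} {i j e i' j' e' : Bool} (ha : Wd S s a i j e) (hb : Wd S s b i' j' e') :
    Wd S s (a * b) (i ^^ i') (j ^^ j') (e ^^ e') := ⟨mul_mem ha.1 hb.1, fun v => by
  rw [act_mul ha.1.2 hb.1.2 ha.2 hb.2]
  congr 1
  · clear ha hb; revert i j i' j'; decide
  · funext l; clear ha hb; revert e e'; simp only [sg]; decide⟩

theorem Wd.one : Wd S s 1 false false false := ⟨one_mem _, act_one⟩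

theorem Wd.mem {a : G} {i j e : Bool} (ha : Wd S s a i j e) (h : a ∈ qOf z) :
    i = false ∧ j = false ∧ e = false := by
  have := (act_mem ha.1.2 ha.2).1 h
  clear ha
  revert i j e
  decide

theorem Wd.of_mul {a d : G} {i j e : Bool} (ha : Wd S s a i j e) (hd : d ∈ BB z s)
    (h : a * d ∈ qOf z) : ∃ i j e, ∀ v, S.ρ d v = mo (kl i j) (sg fun _ => e) v :=
  ⟨i, j, e, fun v => S.ρ_inj ha.1.2 (by
    rw [← S.ρ_mul ha.1.2 hd.2, S.ρ_of_mem h, ← ha.2, ← S.ρ_mul ha.1.2 ha.1.2, (ha.mul ha).2]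
    simp only [Bool.xor_self]
    exact (mo_one v).symm)⟩

theorem P3.hB' (h : P3 z s S) (i j e : Bool) :
    ∃ a ∈ BB z s, ∀ v, S.ρ a v = mo (kl i j) (sg fun _ => e) v := by
  obtain ⟨a, ha⟩ : ∃ a, Wd S s a i false false := by
    cases i
    exacts [⟨1, Wd.one⟩, h.s1]
  obtain ⟨b, hb⟩ : ∃ a, Wd S s a false j false := by
    cases j
    exacts [⟨1, Wd.one⟩, h.s2]
  obtain ⟨c, hc⟩ : ∃ a, Wd S s a false false e := by
    cases e
    exacts [⟨1, Wd.one⟩, h.sσ]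
  exact ⟨_, show Wd S s _ i j e by simpa using (ha.mul hb).mul hc⟩

theorem P3.hB (h : P3 z s S) {a : G} (ha : a ∈ BB z s) :
    ∃ i j e, ∀ v, S.ρ a v = mo (kl i j) (sg fun _ => e) v := by
  obtain ⟨x, hx⟩ : ∃ a, Wd S s a true false false := h.s1
  obtain ⟨y, hy⟩ : ∃ a, Wd S s a false true false := h.s2
  obtain ⟨w, hw⟩ : ∃ a, Wd S s a false false true := h.sσ
  rcases h.t1.eight x hx.1 y hy.1 w hw.1 (fun e => by simpa using hx.mem e)
    (fun e => by simpa using hy.mem e) (fun e => by simpa using (hx.mul hy).mem e) a ha with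
    e | e | e | e | e | e | e | e | e | e | e | e
  · simpa using hw.mem e
  · simpa using (hx.mul hw).mem e
  · simpa using (hy.mul hw).mem e
  · simpa using ((hx.mul hy).mul hw).mem e
  · exact Wd.one.of_mul ha (by rwa [one_mul])
  · exact hx.of_mul ha e
  · exact hy.of_mul ha e
  · exact (hx.mul hy).of_mul ha e
  · exact hw.of_mul ha e
  · exact (hx.mul hw).of_mul ha (by rwa [mul_assoc])
  · exact (hy.mul hw).of_mul ha (by rwa [mul_assoc])
  · exact ((hx.mul hy).mul hw).of_mul ha (by rwa [mul_assoc])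

/-- Products of rotations are induced inside `LL z`. -/
theorem P3.rots (h : P3 z s S) (k : Fin 4 → Perm (Fin 3)) (hk : ∀ i, Perm.sign (k i) = 1) :
    ∃ x ∈ LL z, ∀ v, S.ρ x v = mo 1 k v := by
  have m : ∀ {k k' : Fin 4 → Perm (Fin 3)}, (∃ x ∈ LL z, ∀ v, S.ρ x v = mo 1 k v) →
      (∃ x ∈ LL z, ∀ v, S.ρ x v = mo 1 k' v) → ∃ x ∈ LL z, ∀ v, S.ρ x v = mo 1 (k * k') v :=
    fun ⟨a, ha, ea⟩ ⟨b, hb, eb⟩ => ⟨_, mul_mem ha hb, act_mul (LL_le z ha) (LL_le z hb) ea eb⟩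
  have r : ∀ i, ∃ x ∈ LL z, ∀ v, S.ρ x v = mo 1 (Pi.mulSingle i (r3 * r3)) v := fun i => by
    obtain ⟨x, hx, ex⟩ := h.rot i
    obtain ⟨a, ha, ea⟩ := h.sσ
    refine ⟨x * a * x⁻¹ * a, mul_mem (BB_le_LL (h.nw.conj' hx) (NW.B_conj hx ha))
      (BB_le_LL h.nw ha), fun v => ?_⟩
    rw [act_mul (mul_mem (mul_mem hx ha.2) (inv_mem hx)) ha.2 (act_mul (mul_mem hx ha.2)
      (inv_mem hx) (act_mul hx ha.2 ex ea) (act_inv hx ex)) ea]
    congr 1
    clear ex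
    revert i
    decide
  have r' : ∀ i, ∃ x ∈ LL z, ∀ v, S.ρ x v = mo 1 (Pi.mulSingle i (k i)) v := fun i => by
    have : ∀ g : Perm (Fin 3), Perm.sign g = 1 → g = 1 ∨ g = r3 * r3 ∨ g = r3 * r3 * (r3 * r3) := by
      decide
    rcases this _ (hk i) with e | e | e <;> rw [e]
    · exact ⟨1, one_mem _, by simpa using act_one⟩
    · exact r i
    · rw [Pi.mulSingle_mul]; exact m (r i) (r i)
  convert m (m (r' 0) (r' 1)) (m (r' 2) (r' 3)) using 6
  funext i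
  fin_cases i <;> simp

theorem P3.exists_c (h : P3 z s S) {x : G} (hx : x ∈ qOf z) (w : ∀ i, S.π x i ≠ 0) :
    ∃ c ∈ LL z, c * s * c⁻¹ = x ∧ ∃ k, (∀ i, Perm.sign (k i) = 1) ∧ ∀ v, S.ρ c v = mo 1 k v := by
  have : ∀ u : W2, u ≠ 0 → ∃ g : Perm (Fin 3), Perm.sign g = 1 ∧ act3 g (1, 0) = u := by decide
  choose k hk ek using fun i => this _ (w i)
  obtain ⟨c, hc', ec⟩ := h.rots k hk
  have hc := LL_le z hc'
  have e : S.π x = S.π (c * s * c⁻¹) := by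
    rw [← S.ρ_π c hc s h.nw.mem, ec, h.πs]
    exact funext fun i => (ek i).symm
  rw [S.π_eq_iff hx (S.conj_mem hc h.nw.mem)] at e
  refine e.elim (fun e => ⟨c, hc', e, k, hk, ec⟩) fun e => ?_
  obtain ⟨y, hy, f⟩ := h.nw.exists_x
  refine ⟨c * y, mul_mem hc' (Q_le_LL z hy), ?_, k, hk, fun v => by
    rw [X9O.ρ_mul_mem S hc hy, ec]⟩
  rw [show c * y * s * (c * y)⁻¹ = c * (y * s * y⁻¹) * c⁻¹ by group, f, ← mul_assoc, mem_C.1 hc,
    mul_assoc, mul_assoc, ← mul_assoc c, e, S.pre.central x hx, ← mul_assoc, S.pre.mul_self, one_mul]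

theorem P3.nw_of (h : P3 z s S) {x : G} (hx : x ∈ qOf z) (w : ∀ i, S.π x i ≠ 0) : NW z x := by
  obtain ⟨c, hc, rfl, -⟩ := h.exists_c hx w
  exact h.nw.conj' (LL_le z hc)

theorem P3.mem_E (h : P3 z s S) {x : G} (hx : x ∈ qOf z) : x ∈ qOf s ↔ InE4 (S.π x) := by
  obtain ⟨a, ha, ea⟩ := h.s1
  obtain ⟨b, hb, eb⟩ := h.s2
  obtain ⟨c, hc, ec⟩ := h.sσ
  have k₁ := h.nw.NN_mem S hc ha ![(0, 1), 0, 0, 0]
  have k₂ := h.nw.NN_mem S hc hb ![(0, 1), 0, 0, 0]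
  have k₃ := h.nw.NN_mem S ha hb ![(0, 1), 0, 0, 0]
  have k₄ := h.nw.s_mem_E S
  simp only [S.N_apply, ea, eb, ec, h.πs] at k₁ k₂ k₃ k₄
  replace k₁ : ![(1, 0), (1, 0), 0, 0] ∈ S.E s := by convert k₁ using 1; decide +kernel
  replace k₂ : ![(1, 0), 0, (1, 0), 0] ∈ S.E s := by convert k₂ using 1; decide +kernel
  replace k₃ : (fun _ => (0, 1)) ∈ S.E s := by convert k₃ using 1; decide +kernel
  rw [← h.nw.mem_E S hx]
  refine ⟨fun e => ?_, fun e => ?_⟩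
  · have : ∀ v, b4 ![(1, 0), (1, 0), 0, 0] v = 0 → b4 ![(1, 0), 0, (1, 0), 0] v = 0 →
        b4 (fun _ => (0, 1)) v = 0 → b4 p4 v = 0 → InE4 v := by decide +kernel
    simp only [← h.b] at this
    exact this _ (h.nw.b_E S k₁ e) (h.nw.b_E S k₂ e) (h.nw.b_E S k₃ e) (h.nw.b_E S k₄ e)
  · have : ∀ v : V4, InE4 v → v = ((v 1).1 + (v 3).1) • ![(1, 0), (1, 0), 0, 0] +
        ((v 2).1 + (v 3).1) • ![(1, 0), 0, (1, 0), 0] + (v 0).2 • (fun _ => (0, 1)) +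
        (v 3).1 • p4 := by decide +kernel
    rw [this _ e]
    exact add_mem (add_mem (add_mem (Submodule.smul_mem _ _ k₁) (Submodule.smul_mem _ _ k₂))
      (Submodule.smul_mem _ _ k₃)) (Submodule.smul_mem _ _ k₄)

theorem nw_swap (h : NW z s) : ∃ g : G, g * z * g⁻¹ = s ∧ g * s * g⁻¹ = z := by
  obtain ⟨x, hx, ex⟩ := h.exists_x
  obtain ⟨y, hy, ey⟩ := h.symm.exists_x
  have fx : x * z * x⁻¹ = z := by rw [h.pre.central x hx, mul_inv_cancel_right]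
  have fy : y * s * y⁻¹ = s := by rw [h.ps.central y hy, mul_inv_cancel_right]
  have c : ∀ a b c : G, a * (b * c) * a⁻¹ = a * b * a⁻¹ * (a * c * a⁻¹) := fun a b c => by group
  have c' : ∀ w, x * y * x * w * (x * y * x)⁻¹ = x * (y * (x * w * x⁻¹) * y⁻¹) * x⁻¹ :=
    fun w => by group
  exact ⟨x * y * x,
    by rw [c', fx, ey, c, ex, fx, mul_assoc, h.comm, ← mul_assoc, h.pre.mul_self, one_mul],
    by rw [c', ex, c y z, ey, fy, h.comm, mul_assoc z, h.ss, mul_one, fx]⟩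

theorem P3.swap (h : P3 z s S) : ∃ S' : Sh (qOf s) s V4, P3 s z S' := by
  obtain ⟨g, h1, h2⟩ := nw_swap h.nw
  have : ∃ S' : Sh (qOf (g * z * g⁻¹)) (g * z * g⁻¹) V4, P3 (g * z * g⁻¹) (g * s * g⁻¹) S' :=
    ⟨_, h.cj g⟩
  rwa [h1, h2] at this

theorem P3.at (h : P3 z s S) {d : G} (c : IsConj z d) :
    ∃ t, ∃ S' : Sh (qOf d) d V4, P3 d t S' := by
  obtain ⟨g, rfl⟩ := isConj_iff.1 c
  exact ⟨_, _, h.cj g⟩

end Cfsg.Lib.X9P
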