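import Cfsg.Agent.X9P.M1

/-! # The model: the centraliser acts monomially -/

set_option autoImplicit false
set_option linter.unusedSectionVars false

universe u

namespace Cfsg.Lib.X9P

open Subgroup Cfsg.Lib.Local Cfsg.Lib.Solv Module Cfsg.Lib.Spor Cfsg.Lib.LX Equiv
open scoped Pointwise commutatorElement

variable {G : Type u} [Group G] [Finite G] {z s : G} {S : Sh (qOf z) z V4}

theorem P3.wt (h : P3 z s S) {g : G} (hg : g ∈ centralizer ({z} : Set G)) {v : V4}
    (w : ∀ i, v i ≠ 0) : ∀ i, S.ρ g v i ≠ 0 := by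
  obtain ⟨x, hx, rfl⟩ := S.π_surj v
  rw [S.ρ_π g hg x hx]
  exact h.pt _ ((h.nw_of hx w).conj' hg)

theorem P3.wt1 (h : P3 z s S) {g : G} (hg : g ∈ centralizer ({z} : Set G)) (i : Fin 4) {u : W2}
    (hu : u ≠ 0) : ∃ j u', S.ρ g (Pi.single i u) = Pi.single j u' := by
  have k1 : ∀ v : V4, q4 v = 1 → (∃ j, v = Pi.single j (v j)) ∨ ∃ (j : Fin 4) (u : W2),
      u ≠ 0 ∧ q4 (v + fun l => if l = j then u else if v l = 0 then (1, 0) else v l) = 0 ∧
        ¬ ∀ l, (v + fun l => if l = j then u else if v l = 0 then (1, 0) else v l) l ≠ 0 := by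
    decide +kernel
  have k2 : ∀ (i : Fin 4) (u : W2) (y : V4), (∀ l, y l ≠ 0) → q4 (Pi.single i u + y) = 0 →
      ∀ l, (Pi.single i u + y : V4) l ≠ 0 := by decide +kernel
  have k3 : ∀ (i : Fin 4) (u : W2), u ≠ 0 → q4 (Pi.single i u) = 1 := by decide
  rcases k1 (S.ρ g (Pi.single i u)) (by rw [← h.q, S.q_ρ hg, h.q, k3 i u hu]) with
    ⟨j, e⟩ | ⟨j, u', h1, h2, h3⟩
  · exact ⟨j, _, e⟩
  · refine absurd ?_ h3
    have h4 := h.wt (inv_mem hg) (v := fun l => if l = j then u' else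
      if S.ρ g (Pi.single i u) l = 0 then (1, 0) else S.ρ g (Pi.single i u) l) fun l => by
        split_ifs with a b
        exacts [h1, by decide, b]
    rw [← S.ρ_ρ_inv hg (fun l => _), ← map_add] at h2 ⊢
    exact h.wt hg (k2 i u _ h4 (by rwa [← h.q, S.q_ρ hg, h.q] at h2))

theorem P3.mono (h : P3 z s S) {g : G} (hg : g ∈ centralizer ({z} : Set G)) :
    ∃ τ k, ∀ v, S.ρ g v = mo τ k v := by
  have k1 : ∀ i : Fin 4, ∃ (j : Fin 4) (k : Perm (Fin 3)), ∀ u : W2, S.ρ g (Pi.single i u) =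
      Pi.single j (act3 k u) := fun i => by
    obtain ⟨j, a, ea⟩ := h.wt1 hg i (u := (1, 0)) (by decide)
    obtain ⟨j', b, eb⟩ := h.wt1 hg i (u := (0, 1)) (by decide)
    have k2 : ∀ (j j' : Fin 4) (a b : W2), b4 (Pi.single j a) (Pi.single j' b) = 1 →
      j' = j ∧ ∃ k, ∀ u : W2, act3 k u = u.1 • a + u.2 • b := by decide +kernel
    obtain ⟨rfl, k, hk⟩ := k2 j j' a b (by
      rw [← ea, ← eb, ← h.b, S.b_ρ hg, h.b]; clear ea eb; revert i; decide)
    refine ⟨j', k, fun u => ?_⟩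
    rw [hk, Pi.single_add, Pi.single_smul, Pi.single_smul, ← ea, ← eb, ← map_smul, ← map_smul,
      ← map_add, ← Pi.single_smul, ← Pi.single_smul, ← Pi.single_add]
    simp
  choose τ k e using k1
  have k2 : Function.Injective τ := fun i j eij => by_contra fun n => by
    have := congrFun (S.ρ_inj hg (show S.ρ g (Pi.single i (1, 0)) =
      S.ρ g (Pi.single j (act3 ((k j)⁻¹ * k i) (1, 0))) by
        rw [e, e, eij, ← act3_mul, mul_inv_cancel_left])) i
    rw [Pi.single_eq_same, Pi.single_eq_of_ne n] at this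
    exact absurd this (by decide)
  refine ⟨Equiv.ofBijective τ k2.bijective_of_finite,
    fun j => k ((Equiv.ofBijective τ k2.bijective_of_finite).symm j), fun v => ?_⟩
  rw [show v = Pi.single 0 (v 0) + Pi.single 1 (v 1) + Pi.single 2 (v 2) + Pi.single 3 (v 3) by
    funext i; fin_cases i <;> simp]
  simp only [map_add, mo_add, mo_single, e, Equiv.ofBijective_apply,
    Equiv.ofBijective_symm_apply_apply]

theorem P3.stab (h : P3 z s S) {g : G} (hg : g ∈ centralizer ({z} : Set G)) (e : S.ρ g p4 = p4) :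
    ∃ τ c, (c 0 ^^ c 1 ^^ c 2 ^^ c 3) = false ∧ ∀ v, S.ρ g v = mo τ (sg c) v := by
  obtain ⟨τ, k, ek⟩ := h.mono hg
  have k1 : ∀ k : Perm (Fin 3), act3 k ((1, 0) : W2) = (1, 0) → ∃ c, k = cond c τ3 1 := by decide
  choose c hc using fun i => k1 (k i) (congrFun ((ek p4).symm.trans e) i)
  obtain rfl : k = sg c := funext hc
  refine ⟨τ, c, ?_, ek⟩
  obtain ⟨y, hy, hs⟩ := h.nw.exists_cent S hg (by rw [S.N_eq_zero, h.πs, e])
  have hy' := mul_mem hg (qOf_le z hy)
  have ey : ∀ v, S.ρ (g * y) v = mo τ (sg c) v := fun v => by rw [X9O.ρ_mul_mem S hg hy, ek]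
  obtain ⟨a, ha, ea⟩ := h.s1
  have hb := NW.B_conj' hy' hs ha
  obtain ⟨i, j, l, eb⟩ := h.hB hb
  obtain ⟨h1, h2⟩ := mo_inj fun v => (act_mul hb.2 hy' eb ey v).symm.trans
    ((congrArg (S.ρ · v) (inv_mul_cancel_right _ _)).trans (act_mul hy' ha.2 ey ea v))
  have k2 : ∀ (i j l : Bool) (c : Fin 4 → Bool), kl i j ≠ 1 →
      ((fun m => sg (fun _ => l) m * sg c ((kl i j)⁻¹ m)) = fun m => sg c m * 1) →
      (c 0 ^^ c 1 ^^ c 2 ^^ c 3) = false := by decide +kernel
  exact k2 i j l c (fun n => by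
    rw [n, one_mul, left_eq_mul] at h1
    exact absurd h1 (by decide)) h2

theorem P3.even (h : P3 z s S) {g : G} (hg : g ∈ centralizer ({z} : Set G)) {τ : Perm (Fin 4)}
    {k : Fin 4 → Perm (Fin 3)} (e : ∀ v, S.ρ g v = mo τ k v) : ∏ i, Perm.sign (k i) = 1 := by
  have k1 : ∀ k : Perm (Fin 3), ∃ l : Perm (Fin 3), Perm.sign l = 1 ∧
      act3 (l * k) ((1, 0) : W2) = (1, 0) := by decide
  choose l hl el using fun i => k1 (k i)
  obtain ⟨x, hx, ex⟩ := h.rots l hl
  have e' := act_mul (LL_le z hx) hg ex e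
  obtain ⟨τ', c, hc, ec⟩ := h.stab (mul_mem (LL_le z hx) hg) ((e' _).trans (funext el))
  have k2 : ∀ c : Fin 4 → Bool, (c 0 ^^ c 1 ^^ c 2 ^^ c 3) = false →
      ∏ i, Perm.sign (sg c i) = 1 := by decide +kernel
  rw [← k2 c hc, ← (mo_inj fun v => (e' v).symm.trans (ec v)).2]
  simp [hl]

theorem P3.two (h : P3 z s S) : ¬ 2 ^ 17 ∣ Nat.card G := fun d => by
  choose τ k e using fun g : centralizer ({z} : Set G) => h.mono g.2
  have m := fun a b : centralizer ({z} : Set G) => mo_inj fun v =>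
    (e (a * b) v).symm.trans (act_mul a.2 b.2 (e a) (e b) v)
  let φ : centralizer ({z} : Set G) →* Perm (Fin 4) := MonoidHom.mk' τ fun a b => (m a b).1
  let ψ : φ.ker →* (Fin 4 → Perm (Fin 3)) := MonoidHom.mk' (fun g => k g) fun a b => by
    rw [coe_mul, (m a b).2, show τ a = 1 from a.2]; rfl
  have h1 : Nat.card ψ.ker ∣ Nat.card (qOf z) := card_dvd_of_injective
    (((centralizer {z}).subtype.comp (φ.ker.subtype.comp ψ.ker.subtype)).codRestrict (qOf z)
      fun g => (act_mem g.1.1.2 (e _)).2 ⟨g.1.2, g.2⟩) fun a b e =>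
        Subtype.ext (Subtype.ext (Subtype.ext (congrArg Subtype.val e :)))
  have h2 := ψ.range.card_subgroup_dvd_card
  have h3 := φ.range.card_subgroup_dvd_card
  rw [← index_ker] at h2 h3
  have h4 := mul_dvd_mul (mul_dvd_mul h1 h2) h3
  rw [card_mul_index, card_mul_index, X9O.card_Q S P3.dim] at h4
  have := (two_dvd_card S.pre d).trans h4
  simp [Fintype.card_perm, Nat.factorial] at this

end Cfsg.Lib.X9P
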