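import Cfsg.Agent.X9P.M2

/-! # The model: the subgroup `LL z` -/

set_option autoImplicit false
set_option linter.unusedSectionVars false

universe u

namespace Cfsg.Lib.X9P

open Subgroup Cfsg.Lib.Local Cfsg.Lib.Solv Module Cfsg.Lib.Spor Cfsg.Lib.LX Equiv
open scoped Pointwise commutatorElement

variable {G : Type u} [Group G] [Finite G] {z s : G} {S : Sh (qOf z) z V4}

theorem same_act {V : Type*} [AddCommGroup V] [Module (ZMod 2) V] (S : Sh (qOf z) z V) {a g : G}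
    (ha : a ∈ centralizer ({z} : Set G)) (hg : g ∈ centralizer ({z} : Set G))
    (e : ∀ v, S.ρ a v = S.ρ g v) : a⁻¹ * g ∈ qOf z :=
  S.mem_of_ρ (mul_mem (inv_mem ha) hg) fun v => by
    rw [S.ρ_mul (inv_mem ha) hg, ← e, S.ρ_inv_ρ ha]

theorem kl_mul : ∀ i j i' j', kl i j * kl i' j' = kl (i ^^ i') (j ^^ j') := by decide

theorem kl_inv : ∀ i j, (kl i j)⁻¹ = kl i j := by decide

theorem P3.mem_LL (h : P3 z s S) {g : G} (hg : g ∈ centralizer ({z} : Set G)) {τ : Perm (Fin 4)}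
    {k : Fin 4 → Perm (Fin 3)} (e : ∀ v, S.ρ g v = mo τ k v) :
    g ∈ LL z ↔ (∃ i j, τ = kl i j) ∧ ∀ i j, Perm.sign (k i) = Perm.sign (k j) := by
  constructor
  · let K : Subgroup G :=
      { carrier := {g | g ∈ centralizer ({z} : Set G) ∧ ∃ i j k, (∀ a b, Perm.sign (k a) =
          Perm.sign (k b)) ∧ ∀ v, S.ρ g v = mo (kl i j) k v}
        one_mem' := ⟨one_mem _, false, false, 1, fun _ _ => rfl, act_one⟩
        mul_mem' := fun ⟨ha, i, j, k, sa, ea⟩ ⟨hb, i', j', k', sb, eb⟩ =>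
          ⟨mul_mem ha hb, _, _, _, fun a b => by rw [map_mul, map_mul, sa a b, sb],
            fun v => kl_mul i j i' j' ▸ act_mul ha hb ea eb v⟩
        inv_mem' := fun ⟨ha, i, j, k, sa, ea⟩ => ⟨inv_mem ha, i, j, _,
          fun a b => by rw [map_inv, map_inv, sa], fun v => kl_inv i j ▸ act_inv ha ea v⟩ }
    intro hL
    obtain ⟨-, i, j, k', sk, ek⟩ := LL_le_of (K := K) (fun y hy => ⟨qOf_le z hy, false, false, 1,
      fun _ _ => rfl, fun v => (S.ρ_of_mem hy v).trans (mo_one v).symm⟩) (fun t n a ha => by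
        obtain ⟨c, hc, rfl, k, sk, ek⟩ := h.exists_c n.mem (h.pt t n)
        have h1 : c ∈ K := ⟨LL_le z hc, false, false, k, fun a b => by rw [sk, sk], ek⟩
        have h2 : c⁻¹ * a * c ∈ BB z s := by
          simpa [mul_assoc] using NW.B_conj (inv_mem (LL_le z hc)) ha
        obtain ⟨i, j, l, e⟩ := h.hB h2
        simpa [mul_assoc] using mul_mem (mul_mem h1 (show _ ∈ K from
          ⟨h2.2, i, j, _, fun _ _ => rfl, e⟩)) (inv_mem h1)) hL
    obtain ⟨rfl, rfl⟩ := mo_inj fun v => (e v).symm.trans (ek v)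
    exact ⟨⟨i, j, rfl⟩, sk⟩
  · rintro ⟨⟨i, j, rfl⟩, sk⟩
    obtain ⟨l, hl⟩ : ∃ l, Perm.sign (cond l τ3 1) = Perm.sign (k 0) :=
      (by decide : ∀ k : Perm (Fin 3), ∃ l, Perm.sign (cond l τ3 1) = Perm.sign k) _
    obtain ⟨a, ha, ea⟩ := h.hB' i j l
    obtain ⟨x, hx, ex⟩ := h.rots (fun m => k m * (cond l τ3 1)⁻¹) fun m => by
      rw [map_mul, map_inv, hl, sk m 0, mul_inv_cancel]
    refine (mul_mem_cancel_left (inv_mem (mul_mem hx (BB_le_LL h.nw ha)))).1 (Q_le_LL z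
      (same_act S (mul_mem (LL_le z hx) ha.2) hg fun v => ?_))
    rw [act_mul (LL_le z hx) ha.2 ex ea, e]
    simp [sg]

theorem P3.tk (h : P3 z s S) : Tk S s where
  nw := h.nw
  dim := P3.dim
  t1 := h.t1
  orb x n := (h.exists_c n.mem (h.pt x n)).imp fun c k => ⟨LL_le z k.1, k.2.1⟩
  sy := by
    refine Block.isSylowIn_of_maximal (h.nw.ps.isPGroup.to_inf_left.to_sup_of_normal_right'
      S.pre.isPGroup (inf_le_right.trans S.pre.norm)) (sup_le (BB_le_LL h.nw) (Q_le_LL z))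
      fun T hT le le' => le_antisymm (fun g hg => ?_) le
    let : MulAction T V4 :=
      { smul g v := S.ρ g v
        one_smul := S.ρ_one
        mul_smul a b := S.ρ_mul (LL_le z (le' a.2)) (LL_le z (le' b.2)) }
    obtain ⟨v, hv, n⟩ := hT.exists_fixed_point_of_prime_dvd_card_of_fixed_point V4 (by simp)
      (a := 0) fun g => map_zero (S.ρ g)
    rw [(h.t1.three v fun a ha => S.N_eq_zero.2 (hv ⟨a, le (mem_sup_left ha)⟩)).resolve_left
      n.symm, h.πs] at hv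
    have hc := LL_le z (le' hg)
    obtain ⟨τ, c, -, e⟩ := h.stab hc (hv ⟨g, hg⟩)
    obtain ⟨⟨i, j, rfl⟩, sk⟩ := (h.mem_LL hc e).1 (le' hg)
    obtain ⟨a, ha, ea⟩ := h.hB' i j (c 0)
    refine (mul_mem_cancel_left (mem_sup_left (inv_mem ha))).1 (mem_sup_right
      (same_act S ha.2 hc fun v => ?_))
    rw [ea, e]
    congr 2
    exact funext fun m => (by decide : ∀ a b : Bool, Perm.sign (cond a τ3 1) =
      Perm.sign (cond b τ3 1) → a = b) _ _ (sk 0 m)

/-- Representatives of the four classes of even sign vectors. -/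
def rp4 : Fin 4 → Fin 4 → ℤˣ := ![![1, 1, 1, 1], ![1, 1, -1, -1], ![1, -1, 1, -1], ![1, -1, -1, 1]]
/-- The class of an even sign vector. -/
def cl4 (η : Fin 4 → ℤˣ) : Fin 4 :=
  if η 0 = η 1 then (if η 0 = η 2 then 0 else 1) else (if η 0 = η 2 then 2 else 3)
/-- The action on the classes. -/
def x4 (τ : Perm (Fin 4)) (ε : Fin 4 → ℤˣ) (m : Fin 4) : Fin 4 := cl4 fun i => ε i * rp4 m (τ⁻¹ i)

theorem x4_mul (τ τ' : Perm (Fin 4)) (ε ε' : Fin 4 → ℤˣ) (h : ∏ i, ε' i = 1) (m : Fin 4) :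
    x4 (τ * τ') (fun i => ε i * ε' (τ⁻¹ i)) m = x4 τ ε (x4 τ' ε' m) := by
  have k1 : ∀ (τ : Perm (Fin 4)) (ε : Fin 4 → ℤˣ) (m : Fin 4), ∏ i, ε i = 1 →
      ∃ b, ∀ i, rp4 (x4 τ ε m) i = ε i * rp4 m (τ⁻¹ i) * b := by decide +kernel
  have k2 : ∀ (η : Fin 4 → ℤˣ) (b : ℤˣ), cl4 (fun i => η i * b) = cl4 η := by decide +kernel
  obtain ⟨b, hb⟩ := k1 τ' ε' m h
  rw [x4, x4, ← k2 _ b]
  simp only [hb, mul_assoc, mul_inv_rev, Perm.mul_apply]

theorem P3.chi (h : P3 z s S) : ∃ χ : centralizer ({z} : Set G) →* Perm (Fin 4),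
    (∀ g, χ g = 1 ↔ (g : G) ∈ LL z) ∧
      ∀ (g : centralizer ({z} : Set G)) τ k, (∀ v, S.ρ g v = mo τ k v) →
        Perm.sign (χ g) = Perm.sign τ := by
  choose τ k e using fun g : centralizer ({z} : Set G) => h.mono g.2
  have ev := fun g : centralizer ({z} : Set G) => h.even g.2 (e g)
  let : MulAction (centralizer ({z} : Set G)) (Fin 4) :=
    { smul g m := x4 (τ g) (fun i => Perm.sign (k g i)) m
      one_smul m := by
        obtain ⟨h1, h2⟩ := (act_mem (one_mem _) (e 1)).1 (one_mem _)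
        change x4 (τ 1) (fun i => Perm.sign (k 1 i)) m = m
        rw [h1, h2]
        revert m
        decide
      mul_smul a b m := by
        obtain ⟨h1, h2⟩ := mo_inj fun v =>
          (e (a * b) v).symm.trans (act_mul a.2 b.2 (e a) (e b) v)
        refine .trans ?_ (x4_mul _ _ _ _ (ev b) m)
        change x4 (τ (a * b)) (fun i => Perm.sign (k (a * b) i)) m = _
        simp only [h1, h2, map_mul] }
  refine ⟨MulAction.toPermHom _ _, fun g => ?_, fun g τ' k' e' => ?_⟩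
  · have k1 : ∀ (τ : Perm (Fin 4)) (ε : Fin 4 → ℤˣ), ∏ i, ε i = 1 → ((∀ m, x4 τ ε m = m) ↔
        (∃ i j, τ = kl i j) ∧ ∀ i j, ε i = ε j) := by decide +kernel
    rw [h.mem_LL g.2 (e g), ← k1 _ _ (ev g), Equiv.ext_iff]
    rfl
  · have k1 : ∀ (τ : Perm (Fin 4)) (ε : Fin 4 → ℤˣ), ∏ i, ε i = 1 → ∀ σ : Perm (Fin 4),
        (∀ m, σ m = x4 τ ε m) → Perm.sign σ = Perm.sign τ := by decide +kernel
    rw [← (mo_inj fun v => (e g v).symm.trans (e' v)).1]
    exact k1 _ _ (ev g) _ fun _ => rfl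

end Cfsg.Lib.X9P
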