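import Cfsg.Agent.X9P.M3
import Cfsg.Agent.X9P.K1

/-! # The model: conjugates of `z` in `C(z)` lie in `LL z` -/

set_option autoImplicit false
set_option linter.unusedSectionVars false

universe u

namespace Cfsg.Lib.X9P

open Subgroup Cfsg.Lib.Local Cfsg.Lib.Solv Module Cfsg.Lib.Spor Cfsg.Lib.LX Equiv
open scoped Pointwise commutatorElement

variable {G : Type u} [Group G] [Finite G] {z s : G} {S : Sh (qOf z) z V4}

/-- Binary code of a coordinate. -/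
def en2 (u : W2) : ℕ := u.1.val + 2 * u.2.val
/-- Weight two, on codes. -/
def wt2 (a b c d : ℕ) : Bool := (a + 3) / 4 + (b + 3) / 4 + (c + 3) / 4 + (d + 3) / 4 == 2
/-- Quantification over the codes of weight two. -/
def all4 (p : ℕ → ℕ → ℕ → ℕ → Bool) : Bool :=
  (List.range 4).all fun a => (List.range 4).all fun b => (List.range 4).all fun c =>
    (List.range 4).all fun d => !wt2 a b c d || p a b c d
/-- Weight two. -/
def Wt2 (v : V4) : Prop := wt2 (en2 (v 0)) (en2 (v 1)) (en2 (v 2)) (en2 (v 3))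

theorem all4_spec {p : ℕ → ℕ → ℕ → ℕ → Bool} (h : all4 p) {v : V4} (hv : Wt2 v) :
    p (en2 (v 0)) (en2 (v 1)) (en2 (v 2)) (en2 (v 3)) := by
  have k : ∀ u : W2, en2 u ∈ List.range 4 := by decide
  simp only [all4, List.all_eq_true] at h
  simpa [show wt2 _ _ _ _ = true from hv] using
    h _ (k (v 0)) _ (k (v 1)) _ (k (v 2)) _ (k (v 3))

theorem no_three {u v w : V4} (h1 : Wt2 u) (h2 : Wt2 v) (h3 : Wt2 w) (h4 : Wt2 (u + v))
    (h5 : Wt2 (u + w)) (h6 : Wt2 (v + w)) : ¬ Wt2 (u + v + w) := by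
  have k : all4 fun a b c d => all4 fun e f g h => !wt2 (a ^^^ e) (b ^^^ f) (c ^^^ g) (d ^^^ h) ||
      all4 fun i j k l => !wt2 (a ^^^ i) (b ^^^ j) (c ^^^ k) (d ^^^ l) ||
        (!wt2 (e ^^^ i) (f ^^^ j) (g ^^^ k) (h ^^^ l) ||
          !wt2 (a ^^^ e ^^^ i) (b ^^^ f ^^^ j) (c ^^^ g ^^^ k) (d ^^^ h ^^^ l)) := by
    decide +kernel
  have e : ∀ a b : W2, en2 (a + b) = en2 a ^^^ en2 b := by decide
  simp only [Wt2, Pi.add_apply, e] at h4 h5 h6 ⊢
  have k' := all4_spec (all4_spec k h1) h2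
  rw [h4, Bool.not_true, Bool.false_or] at k'
  simpa [h5, h6] using all4_spec k' h3

theorem card_four_of {H : Type*} [Group H] {A : Subgroup H} (h : ∀ a ∈ A, a ≠ 1 → ∀ b ∈ A, b ≠ 1 →
    b ≠ a → ∀ c ∈ A, c = 1 ∨ c = a ∨ c = b ∨ c = a * b) : Nat.card A ≤ 4 := by
  obtain ⟨a, b, k⟩ : ∃ a b, ∀ c ∈ A, c = 1 ∨ c = a ∨ c = b ∨ c = a * b := by
    by_contra n
    push Not at n
    obtain ⟨a, ha, a1, -⟩ := n 1 1
    obtain ⟨b, hb, b1, ba, -⟩ := n a 1
    obtain ⟨c, hc, k⟩ := n a b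
    have := h a ha a1 b hb b1 ba c hc
    tauto
  exact (Set.ncard_le_ncard (t := {1, a, b, a * b}) k).trans ((Set.ncard_insert_le _ _).trans
    (Nat.succ_le_succ ((Set.ncard_insert_le _ _).trans (Nat.succ_le_succ
      ((Set.ncard_insert_le _ _).trans (by simp))))))

/-- A subgroup of `Q` without conjugates of `z` has order at most four. -/
theorem P3.card_four (h : P3 z s S) {A : Subgroup G} (le : A ≤ qOf z)
    (n : ∀ d ∈ A, ¬ IsConj z d) : Nat.card A ≤ 4 := by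
  have n1 : z ∉ A := fun k => n z k (IsConj.refl z)
  have sq : ∀ a ∈ A, a * a = 1 := fun a ha => (S.pre.mem_iff.1 (S.pre.sq_mem a (le ha))).resolve_right
    fun e => n1 (e ▸ mul_mem ha ha)
  have W : ∀ {a}, a ∈ A → a ≠ 1 → Wt2 (S.π a) := fun {a} ha a1 =>
    (by unfold Wt2; decide +kernel : ∀ v : V4, q4 v = 0 → ¬ (∀ i, v i ≠ 0) → v ≠ 0 → Wt2 v) _
      (h.q _ ▸ (S.q_π a (le ha)).2 (sq a ha)) (fun k => n a ha (h.nw_of (le ha) k).cj)
      fun k => ((S.π_eq_zero' (le ha)).1 k).elim a1 fun e => n1 (e ▸ ha)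
  have i : ∀ {a b}, a ∈ A → b ≠ a → a * b ≠ 1 := fun {a b} ha k e =>
    k (mul_left_cancel (e.trans (sq a ha).symm))
  refine card_four_of fun a ha a1 b hb b1 ba c hc => by_contra fun k => ?_
  push Not at k
  have k4 := W (mul_mem ha hb) (i ha ba)
  have k5 := W (mul_mem ha hc) (i ha k.2.1)
  have k6 := W (mul_mem hb hc) (i hb k.2.2.1)
  have k7 := W (mul_mem (mul_mem ha hb) hc) (i (mul_mem ha hb) k.2.2.2)
  rw [S.π_mul _ (le (mul_mem ha hb)) _ (le hc)] at k7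
  rw [S.π_mul _ (le ha) _ (le hb)] at k4 k7
  rw [S.π_mul _ (le ha) _ (le hc)] at k5
  rw [S.π_mul _ (le hb) _ (le hc)] at k6
  exact no_three (W ha a1) (W hb b1) (W hc k.1) k4 k5 k6 k7

theorem P3.card_C (h : P3 z s S) {w : G} (c : IsConj z w) (hw : w ∈ centralizer ({z} : Set G))
    (n : w ∉ LL z) : Nat.card ↥(centralizer ({w} : Set G) ⊓ qOf z) ≤ 32 ∧
      ((∀ x ∈ centralizer ({w} : Set G) ⊓ qOf z, x * x = 1) →
        Nat.card ↥(centralizer ({w} : Set G) ⊓ qOf z) ≤ 16) := by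
  obtain ⟨t, S', h'⟩ := h.at c
  obtain ⟨χ, k, -⟩ := h'.chi
  let ψ := χ.comp (inclusion (inf_le_left : centralizer ({w} : Set G) ⊓ qOf z ≤ _))
  have h1 : Nat.card ψ.ker ≤ 4 := by
    rw [← card_subtype]
    refine h.card_four ((map_subtype_le _).trans inf_le_right) ?_
    rintro - ⟨d, hd, rfl⟩ cd
    exact h.tk.out c n cd d.2.2 (mem_C.1 hw) (mem_C.1 d.2.1) ((k _).1 hd)
  have h2 := ψ.ker.card_mul_index
  rw [index_ker] at h2
  rw [← h2]
  refine ⟨Nat.mul_le_mul h1 (show _ ≤ 8 from ?_), fun e => Nat.mul_le_mul h1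
    (card_four_of (A := ψ.range) ?_)⟩
  · obtain ⟨m, hm⟩ := (S.pre.isPGroup.to_inf_right.of_surjective _
      ψ.rangeRestrict_surjective).exists_card_eq
    have := ψ.range.card_subgroup_dvd_card
    rw [hm] at this ⊢
    refine Nat.pow_le_pow_right (by decide) (show m ≤ 3 from by_contra fun a => ?_)
    simpa [Fintype.card_perm, Nat.factorial] using
      (Nat.pow_dvd_pow 2 (show 4 ≤ m by omega)).trans this
  · have f : ∀ a ∈ ψ.range, a * a = 1 := by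
      rintro - ⟨a, rfl⟩
      rw [← map_mul, show a * a = 1 from Subtype.ext (e _ a.2), map_one]
    have k1 : ∀ a : Perm (Fin 4), a * a = 1 → a ≠ 1 → ∀ b : Perm (Fin 4), b * b = 1 →
        a * b * (a * b) = 1 → b ≠ 1 → b ≠ a → ∀ c : Perm (Fin 4), c * c = 1 → a * c * (a * c) = 1 →
        b * c * (b * c) = 1 → c = 1 ∨ c = a ∨ c = b ∨ c = a * b := by
      set_option synthInstance.maxSize 2000 in decide +kernel
    exact fun a ha a1 b hb b1 ba c hc => k1 a (f a ha) a1 b (f b hb) (f _ (mul_mem ha hb)) b1 ba c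
      (f c hc) (f _ (mul_mem ha hc)) (f _ (mul_mem hb hc))

theorem card_pre' (S : Sh (qOf z) z V4) (K : Submodule (ZMod 2) V4) :
    Nat.card (S.pre' K) = 2 * Nat.card K := by
  rw [S.card_of_mem (fun _ k => (S.mem_pre'.1 k).1) (S.z_mem_pre' K), S.img_pre', card_eq_pow,
    pow_succ']

theorem card_ker_le (S : Sh (qOf z) z V4) {w : G} (hw : w ∈ centralizer ({z} : Set G)) :
    Nat.card (LinearMap.ker (S.N w)) ≤ Nat.card ↥(centralizer ({w} : Set G) ⊓ qOf z) := by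
  have i := idxLeTwo_centralizer (T := S.pre' (LinearMap.ker (S.N w))) (e := w) S.pre.mul_self
    (fun t k => S.pre.central t (S.mem_pre'.1 k).1) fun t k => by
      obtain ⟨k, e⟩ := S.mem_pre'.1 k
      rw [LinearMap.mem_ker, S.N_π hw k, ← S.π_inv (S.comm_mem hw k),
        S.π_eq_zero' (inv_mem (S.comm_mem hw k)), commutatorElement_inv, commutatorElement_def,
        mul_inv_eq_one, mul_inv_eq_iff_eq_mul (b := w)] at e
      exact e
  have h1 := PG.relIndex_mul_card_inf (centralizer ({w} : Set G)) (S.pre' (LinearMap.ker (S.N w)))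
  have h2 := card_le_of_le (inf_le_inf_left (centralizer ({w} : Set G))
    (fun _ k => (S.mem_pre'.1 k).1 : S.pre' (LinearMap.ker (S.N w)) ≤ qOf z))
  rw [card_pre'] at h1
  by_cases hle : S.pre' (LinearMap.ker (S.N w)) ≤ centralizer ({w} : Set G)
  · rw [relIndex_eq_one.2 hle] at h1
    omega
  · obtain ⟨a, haT, haM⟩ := SetLike.not_le_iff_exists.1 hle
    rw [show relIndex _ _ = 2 from index_eq_two_iff.2 ⟨⟨a, haT⟩, fun b => by
      have := i.mul_mem_iff b.2 haT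
      simp only [mem_subgroupOf, coe_mul, this, haM, Xor]
      tauto⟩] at h1
    omega

theorem P3.odd_of_fix (h : P3 z s S) {w : G} (c : IsConj z w) (hw : w ∈ centralizer ({z} : Set G))
    (n : w ∉ LL z) (e : S.ρ w p4 = p4) :
    (∃ τ k, Perm.sign τ = -1 ∧ ∀ v, S.ρ w v = mo τ k v) ∧ s * w = w * s := by
  have w2 := (S.pre.qOf_of_conj (isConj_iff.1 c)).mul_self
  have wQ : w * w ∈ qOf z := w2 ▸ one_mem _
  obtain ⟨τ, l, ev, ew⟩ := h.stab hw e
  obtain ⟨h1, h2⟩ := (act_mem (mul_mem hw hw) (act_mul hw hw ew ew)).1 wQ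
  obtain ⟨b1, b2⟩ := h.card_C c hw n
  have b3 := card_ker_le S hw
  have b4 : Nat.card (LinearMap.ker (S.N w)) = Fintype.card {v : V4 // mo τ (sg l) v + v = 0} := by
    rw [← Nat.card_eq_fintype_card]
    exact Nat.card_congr (Equiv.subtypeEquivRight fun v => by
      rw [LinearMap.mem_ker, S.N_apply, ew])
  have k1 : ∀ τ : Perm (Fin 4), τ * τ = 1 → ∀ c : Fin 4 → Bool, (c 0 ^^ c 1 ^^ c 2 ^^ c 3) = false →
      (fun i => sg c i * sg c (τ⁻¹ i)) = 1 →
      ¬ ((∃ i j, τ = kl i j) ∧ ∀ i j, Perm.sign (sg c i) = Perm.sign (sg c j)) →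
      (Perm.sign τ = -1 ∧ ∃ u, mo τ (sg c) u + u = p4) ∨
        64 ≤ Fintype.card {v : V4 // mo τ (sg c) v + v = 0} ∨
        (16 ≤ Fintype.card {v : V4 // mo τ (sg c) v + v = 0} ∧
          ∀ v, mo τ (sg c) v + v = 0 → q4 v = 0) := by
    set_option synthInstance.maxSize 2000 in decide +kernel
  rcases k1 τ h1 l ev h2 (mt (h.mem_LL hw ew).2 n) with ⟨k, u, f⟩ | k | ⟨k, f⟩
  · refine ⟨⟨τ, _, k, ew⟩, ?_⟩
    have := inverts_of S hw w2 h.nw.mem ⟨u, by rw [S.N_apply, ew, f, h.πs]⟩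
    rw [inv_eq_of_mul_eq_one_right h.nw.ss] at this
    exact (mul_inv_eq_iff_eq_mul.1 this).symm
  · omega
  · replace f : ∀ v, S.N w v = 0 → S.q v = 0 := fun v k => by
      rw [h.q]; exact f v (by rwa [S.N_apply, ew] at k)
    have b5 := card_le_of_le (show S.pre' (LinearMap.ker (S.N w)) ≤
        centralizer ({w} : Set G) ⊓ qOf z from fun x k => by
      obtain ⟨k, e⟩ := S.mem_pre'.1 k
      have := inverts_of S hw w2 k (S.exists_N_eq hw wQ fun u a => by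
        have := S.q_add u (S.π x)
        rwa [f _ (by rw [map_add, a, zero_add]; exact e), f u a, f _ e, zero_add, zero_add,
          eq_comm] at this)
      rw [inv_eq_of_mul_eq_one_right ((S.q_π x k).1 (f _ e))] at this
      exact ⟨mem_C.2 (mul_inv_eq_iff_eq_mul.1 this).symm, k⟩)
    have := b2 fun x k => (S.q_π x k.2).1 (f _ (S.N_π_of_comm hw k.2 (mem_C.1 k.1).symm))
    rw [card_pre'] at b5
    omega

theorem P3.odd_of_out (h : P3 z s S) {w : G} (c : IsConj z w) (hw : w ∈ centralizer ({z} : Set G))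
    (n : w ∉ LL z) : (∃ τ k, Perm.sign τ = -1 ∧ ∀ v, S.ρ w v = mo τ k v) ∧
      ∃ t, NW z t ∧ t * w = w * t := by
  have w2 := (S.pre.qOf_of_conj (isConj_iff.1 c)).mul_self
  have i : Function.Involutive fun v : {v : V4 // ∀ i, v i ≠ 0} =>
      (⟨S.ρ w v, h.wt hw v.2⟩ : {v : V4 // ∀ i, v i ≠ 0}) := fun v =>
    Subtype.ext (by change S.ρ w (S.ρ w v) = v; rw [← S.ρ_mul hw hw, w2, S.ρ_one])
  obtain ⟨⟨p, hp⟩, e⟩ := Perm.exists_fixed_point_of_prime (p := 2) (n := 1) (by decide +kernel)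
    (σ := i.toPerm) (Equiv.ext i)
  obtain ⟨x, hx, rfl⟩ := S.π_surj p
  obtain ⟨g, hg, rfl, l, -, eg⟩ := h.exists_c hx hp
  have hc := LL_le z hg
  replace e : S.ρ w (S.ρ g p4) = S.ρ g p4 := by
    rw [← h.πs, S.ρ_π g hc s h.nw.mem]; exact congrArg Subtype.val e
  have hw' := mul_mem (mul_mem (inv_mem hc) hw) hc
  obtain ⟨⟨τ, k, a, b⟩, f⟩ := h.odd_of_fix (w := g⁻¹ * w * g) (c.trans (isConj_iff.2 ⟨g⁻¹, by simp⟩))
    hw' (fun k => n (by simpa [mul_assoc] using mul_mem (mul_mem hg k) (inv_mem hg)))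
    (by rw [S.ρ_mul (mul_mem (inv_mem hc) hw) hc, S.ρ_mul (inv_mem hc) hw, e, S.ρ_inv_ρ hc])
  refine ⟨⟨_, _, ?_, fun v => (congrArg (S.ρ · v) (by group)).trans
    (act_mul (mul_mem hc hw') (inv_mem hc) (act_mul hc hw' eg b) (act_inv hc eg) v)⟩,
    _, h.nw.conj' hc, ?_⟩
  · simpa using a
  · rw [show g * s * g⁻¹ * w = g * (s * (g⁻¹ * w * g)) * g⁻¹ by group, f]; group

theorem P3.D_le (h : P3 z s S) {d : G} (c : IsConj z d) (hd : d ∈ centralizer ({z} : Set G)) :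
    d ∈ LL z := by_contra fun n => by
  obtain ⟨-, t, nt, ct⟩ := h.odd_of_out c hd n
  obtain ⟨t', S', h'⟩ := h.at c
  have k : ∀ {x}, IsConj z x → x ∈ qOf z → x * d = d * x →
      ∃ τ k, Perm.sign τ = -1 ∧ ∀ v, S'.ρ x v = mo τ k v := fun cx hx e =>
    (h'.odd_of_out (c.symm.trans cx) (mem_C.2 e) (h.tk.out c n cx hx (mem_C.1 hd) e)).1
  have cz := (mem_C.1 hd).symm
  obtain ⟨τ₁, k₁, a₁, e₁⟩ := k (IsConj.refl z) S.pre.mem cz
  obtain ⟨τ₂, k₂, a₂, e₂⟩ := k nt.cj nt.mem ct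
  obtain ⟨τ₃, k₃, a₃, e₃⟩ := k nt.mul.cj nt.mul.mem (Commute.mul_left cz ct)
  rw [(mo_inj fun v => (e₃ v).symm.trans (act_mul (mem_C.2 cz) (mem_C.2 ct) e₁ e₂ v)).1, map_mul,
    a₁, a₂] at a₃
  exact absurd a₃ (by decide)

theorem P3.com (h : P3 z s S) (d : G) (c : IsConj z d) (hd : d * z = z * d) (n : d ∉ qOf z) :
    ∃ w, NW z w ∧ NW d w := by
  obtain ⟨t, nt, k⟩ := h.tk.common (h.D_le c (mem_C.2 hd))
    (S.pre.qOf_of_conj (isConj_iff.1 c)).mul_self n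
  exact ⟨t, nt, NW.symm ⟨nt.ps, nt.cj.symm.trans c, k, fun e => n (e ▸ nt.mem)⟩⟩

end Cfsg.Lib.X9P
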