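import Cfsg.Agent.X9P.M3

/-! # The model: root elements -/

set_option autoImplicit false
set_option linter.unusedSectionVars false

universe u

namespace Cfsg.Lib.X9P

open Subgroup Cfsg.Lib.Local Cfsg.Lib.Solv Module Cfsg.Lib.Spor Cfsg.Lib.LX Equiv
open scoped Pointwise commutatorElement

variable {G : Type u} [Group G] [Finite G] {z s : G}

section gen
variable {V : Type*} [AddCommGroup V] [Module (ZMod 2) V] (S : Sh (qOf z) z V)
include S

theorem rt_sing {x : G} (hx : x ∈ centralizer ({z} : Set G)) :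
    (∀ q ∈ qOf z, ⁅x, q⁆ * ⁅x, q⁆ = 1 → ⁅x, q⁆ = 1 ∨ ⁅x, q⁆ = z) ↔
      ∀ v, S.q (S.N x v) = 0 → S.N x v = 0 := by
  refine ⟨fun h v => ?_, fun h q hq => ?_⟩
  · obtain ⟨q, hq, rfl⟩ := S.π_surj v
    rw [S.N_π hx hq, S.q_π _ (S.comm_mem hx hq), S.π_eq_zero' (S.comm_mem hx hq)]
    exact h q hq
  · rw [← S.q_π _ (S.comm_mem hx hq), ← S.π_eq_zero' (S.comm_mem hx hq), ← S.N_π hx hq]
    exact h _

theorem pow_four_Q {y : G} (hy : y ∈ qOf z) : y ^ 4 = 1 := by
  rw [show y ^ 4 = y * y * (y * y) by simp [pow_succ, mul_assoc]]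
  rcases (S.π_eq_zero' (mul_mem hy hy)).1 (by rw [S.π_mul y hy y hy, add_self']) with e | e <;>
    rw [e]
  exacts [one_mul 1, S.pre.mul_self]

theorem eq_one_of_cube {y : G} (hy : y ∈ qOf z) (y3 : y ^ 3 = 1) : y = 1 := by
  rw [← pow_four_Q S hy, pow_succ, y3, one_mul]

theorem not_cube {a b : G} (ha : a ∈ centralizer ({z} : Set G)) (a3 : a ^ 3 = 1) (b3 : b ^ 3 = 1) :
    b ≠ a * z := fun e => by
  rw [e, Commute.mul_pow (mem_C.1 ha), a3, one_mul, pow_succ, sq, S.pre.mul_self, one_mul] at b3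
  exact S.pre.ne_one b3

theorem comm_of_odd {x y : G}
    (hx : x ∈ centralizer ({z} : Set G)) (o : Odd (orderOf x)) (hy : y ∈ qOf z)
    (e : S.ρ x (S.π y) = S.π y) : x * y = y * x := by
  rw [S.ρ_π x hx y hy, eq_comm, S.π_eq_iff hy (S.conj_mem hx hy)] at e
  refine e.elim mul_inv_eq_iff_eq_mul.1 fun e => ?_
  have f : x * y * x⁻¹ * y⁻¹ = z := by rw [e, S.pre.central y hy, mul_inv_cancel_right]
  exact Coprime.commute_of_commute_commutator (f ▸ mem_C.1 hx)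
    (by rw [f, S.pre.ord]; exact Nat.coprime_two_right.2 o)

end gen

variable {S : Sh (qOf z) z V4}

theorem odd_of_cube {x : G} (h : x ^ 3 = 1) : Odd (orderOf x) :=
  Odd.of_dvd_nat (by decide) (orderOf_dvd_of_pow_eq_one h)

theorem mo_fix {i : Fin 4} (r : Perm (Fin 3)) {v : V4} (h : v i = 0) :
    mo 1 (Pi.mulSingle i r) v = v := funext fun l => by
  by_cases e : l = i
  · subst e
    exact (congrArg _ h).trans ((act3_zero _).trans h.symm)
  · rw [mo, Pi.mulSingle_eq_of_ne e]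
    exact act3_one _

theorem comm_off {x y : G} (hx : x ∈ centralizer ({z} : Set G)) (x3 : x ^ 3 = 1) {i : Fin 4}
    {r : Perm (Fin 3)} (ex : ∀ v, S.ρ x v = mo 1 (Pi.mulSingle i r) v) (hy : y ∈ qOf z)
    (e : S.π y i = 0) : x * y = y * x :=
  comm_of_odd S hx (odd_of_cube x3) hy (by rw [ex, mo_fix r e])

theorem P3.rt_iff (h : P3 z s S) {x : G} : Rt z x ↔ x ∈ centralizer ({z} : Set G) ∧ x ^ 3 = 1 ∧
    ∃ i r, (r = r3 ∨ r = r3⁻¹) ∧ ∀ v, S.ρ x v = mo 1 (Pi.mulSingle i r) v := by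
  constructor
  · rintro ⟨c, x3, n, k⟩
    have hx := mem_C.2 c
    refine ⟨hx, x3, ?_⟩
    rw [rt_sing S hx] at k
    obtain ⟨τ, l, e⟩ := h.mono hx
    simp only [S.N_apply, e, h.q] at k
    obtain rfl : τ = 1 := Equiv.ext fun i => by
      have k1 : ∀ (i j : Fin 4) (g : Perm (Fin 3)), (q4 (Pi.single j (act3 g (1, 0)) +
          Pi.single i (1, 0)) = 0 → (Pi.single j (act3 g (1, 0)) + Pi.single i (1, 0) : V4) = 0) →
          j = i := by decide +kernel
      exact k1 i _ _ (mo_single τ l i _ ▸ k _)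
    have l3 := congrFun ((act_mem (mul_mem (mul_mem hx hx) hx) (act_mul (mul_mem hx hx) hx
      (act_mul hx hx e e) e)).1 (by rw [← pow_three', x3]; exact one_mem _)).2
    obtain ⟨i, hi⟩ := Function.ne_iff.1 fun f : l = 1 =>
      n (eq_one_of_cube S ((act_mem hx e).2 ⟨rfl, f⟩) x3)
    have k1 : ∀ a : Perm (Fin 3), a * a * a = 1 → a ≠ 1 → (a = r3 ∨ a = r3⁻¹) := by decide
    refine ⟨i, l i, k1 _ (l3 i) hi, fun v => ?_⟩
    rw [e]
    congr 1
    refine funext fun j => (eq_or_ne j i).elim (fun f => by rw [f, Pi.mulSingle_eq_same]) fun f => ?_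
    rw [Pi.mulSingle_eq_of_ne f]
    by_contra n
    have := k (Pi.single i (1, 0) + Pi.single j (1, 0))
    rw [mo_add, mo_single, mo_single, Perm.one_apply, Perm.one_apply] at this
    rcases k1 _ (l3 i) hi with a | a <;> rcases k1 _ (l3 j) n with b | b <;> rw [a, b] at this <;>
      clear a b n hi <;> revert i j <;> decide +kernel
  · rintro ⟨hx, x3, i, r, hr, e⟩
    refine ⟨mem_C.1 hx, x3, fun n => ?_, (rt_sing S hx).2 fun v => ?_⟩
    · have := congrFun ((act_mem hx e).1 (n ▸ one_mem _)).2 i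
      rw [Pi.mulSingle_eq_same, Pi.one_apply] at this
      rcases hr with rfl | rfl <;> exact absurd this (by decide)
    · rw [S.N_apply, e, h.q]
      clear e
      rcases hr with rfl | rfl <;> revert i v <;> decide +kernel

theorem Rt.C {x : G} (h : Rt z x) : x ∈ centralizer ({z} : Set G) := mem_C.2 h.1

theorem P3.rt_r (h : P3 z s S) {x : G} (hx : Rt z x) {i : Fin 4} {r : Perm (Fin 3)}
    (ex : ∀ v, S.ρ x v = mo 1 (Pi.mulSingle i r) v) : r = r3 ∨ r = r3⁻¹ := by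
  obtain ⟨-, -, j, r', hr, e⟩ := h.rt_iff.1 hx
  have := congrFun (mo_inj fun v => (ex v).symm.trans (e v)).2 j
  rw [Pi.mulSingle_eq_same] at this
  by_cases f : j = i
  · rw [f, Pi.mulSingle_eq_same] at this
    exact this ▸ hr
  · rw [Pi.mulSingle_eq_of_ne f] at this
    rcases hr with rfl | rfl <;> exact absurd this (by decide)

theorem P3.exists_rt (h : P3 z s S) (i : Fin 4) :
    ∃ x, Rt z x ∧ ∀ v, S.ρ x v = mo 1 (Pi.mulSingle i r3) v := by
  obtain ⟨g, hg, e⟩ := h.rot i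
  have h3 : g ^ 3 ∈ qOf z := by
    rw [pow_three']
    refine (act_mem (mul_mem (mul_mem hg hg) hg) (act_mul (mul_mem hg hg) hg
      (act_mul hg hg e e) e)).2 ?_
    clear e
    revert i
    decide
  have e' : ∀ v, S.ρ (g ^ 4) v = mo 1 (Pi.mulSingle i r3) v := fun v => by
    rw [pow_succ', X9O.ρ_mul_mem S hg h3, e]
  exact ⟨_, h.rt_iff.2 ⟨pow_mem hg 4, by rw [← pow_mul, mul_comm, pow_mul, pow_four_Q S h3],
    i, _, .inl rfl, e'⟩, e'⟩

theorem mem_zp_of_single (S : Sh (qOf z) z V4) {c : G} (hc : c ∈ centralizer ({z} : Set G))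
    (h : ∀ q ∈ qOf z, ∀ l u, S.π q = Pi.single l u → c * q = q * c) : c = 1 ∨ c = z := by
  refine S.pre.mem_iff.1 (S.pre.cent fun q hq => ?_)
  choose y hy e using fun l => S.π_surj (Pi.single l (S.π q l))
  have k : ∀ l, y l ∈ centralizer ({c} : Set G) := fun l => mem_C.2 (h _ (hy l) l _ (e l)).symm
  refine mem_C.1 (S.mem_of_π_mem_img (mem_C.2 (mem_C.1 hc).symm) hq ?_)
  rw [show S.π q = S.π (y 0) + S.π (y 1) + S.π (y 2) + S.π (y 3) by
    simp only [e]; funext i; fin_cases i <;> simp]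
  exact add_mem (add_mem (add_mem (S.π_mem_img (k 0) (hy 0)) (S.π_mem_img (k 1) (hy 1)))
    (S.π_mem_img (k 2) (hy 2))) (S.π_mem_img (k 3) (hy 3))

theorem P3.rt_comm (h : P3 z s S) {x y : G} (hx : Rt z x) (hy : Rt z y) {i j : Fin 4} (n : i ≠ j)
    {r r' : Perm (Fin 3)} (ex : ∀ v, S.ρ x v = mo 1 (Pi.mulSingle i r) v)
    (ey : ∀ v, S.ρ y v = mo 1 (Pi.mulSingle j r') v) : x * y = y * x := by
  have _ := h
  have cx := fun {q} => comm_off (y := q) hx.C hx.2.1 ex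
  have cy := fun {q} => comm_off (y := q) hy.C hy.2.1 ey
  rcases mem_zp_of_single S (c := x⁻¹ * (y * x * y⁻¹)) (mul_mem (inv_mem hx.C)
    (mul_mem (mul_mem hy.C hx.C) (inv_mem hy.C))) (fun q hq l u e => by
      suffices y * x * y⁻¹ * q * (y * x * y⁻¹)⁻¹ = x * q * x⁻¹ by
        rw [← mul_inv_eq_iff_eq_mul, show x⁻¹ * (y * x * y⁻¹) * q * (x⁻¹ * (y * x * y⁻¹))⁻¹ =
          x⁻¹ * (y * x * y⁻¹ * q * (y * x * y⁻¹)⁻¹) * x by group, this]
        group
      rw [show y * x * y⁻¹ * q * (y * x * y⁻¹)⁻¹ = y * (x * (y⁻¹ * q * y⁻¹⁻¹) * x⁻¹) * y⁻¹ by group]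
      by_cases f : l = i
      · subst f
        rw [inv_inv, mul_assoc y⁻¹, ← cy hq (by rw [e, Pi.single_eq_of_ne n.symm]),
          inv_mul_cancel_left, cy (S.conj_mem hx.C hq) (by
            rw [← S.ρ_π x hx.C q hq, ex, e, mo_single]; exact Pi.single_eq_of_ne n.symm _),
          mul_inv_cancel_right]
      · rw [cx hq (by rw [e, Pi.single_eq_of_ne (Ne.symm f)]), cx (S.conj_mem (inv_mem hy.C) hq) (by
          rw [← S.ρ_π _ (inv_mem hy.C) q hq, act_inv hy.C ey, e, mo_single]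
          exact Pi.single_eq_of_ne (Ne.symm f) _)]
        group) with e | e
  · rw [← mul_inv_eq_iff_eq_mul.1 (inv_mul_eq_one.1 e).symm]
  · exact absurd (inv_mul_eq_iff_eq_mul.1 e)
      (not_cube S hx.C hx.2.1 (by rw [conj_pow, hx.2.1, mul_one, mul_inv_cancel]))

/-- Root elements with the same action are conjugate under `Q_i`. -/
theorem P3.rt_conj (h : P3 z s S) {x y : G} (hx : Rt z x) (hy : Rt z y) {i : Fin 4}
    {r : Perm (Fin 3)} (ex : ∀ v, S.ρ x v = mo 1 (Pi.mulSingle i r) v)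
    (ey : ∀ v, S.ρ y v = mo 1 (Pi.mulSingle i r) v) :
    ∃ q ∈ qOf z, (∃ u, S.π q = Pi.single i u) ∧ q * x * q⁻¹ = y := by
  have hq : y * x⁻¹ ∈ qOf z := by
    simpa [mul_assoc] using S.conj_mem hx.C (same_act S hx.C hy.C fun v => (ex v).trans (ey v).symm)
  have k1 : ∀ (i : Fin 4) (w : V4), (∀ l ≠ i, ∀ u, b4 w (Pi.single l u) = 0) →
      w = Pi.single i (w i) := by decide +kernel
  have e := k1 i (S.π (y * x⁻¹)) fun l n u => by
    obtain ⟨q, hq', f⟩ := S.π_surj (Pi.single l u)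
    have f' : S.π q i = 0 := by rw [f, Pi.single_eq_of_ne n.symm]
    rw [← f, ← h.b, S.b_π _ hq q hq']
    exact Commute.mul_left (comm_off hy.C hy.2.1 ey hq' f')
      (Commute.inv_left (comm_off hx.C hx.2.1 ex hq' f'))
  obtain ⟨u, hu⟩ : ∃ u : W2, act3 r u + u = S.π (y * x⁻¹) i := by
    generalize S.π (y * x⁻¹) i = w
    rcases h.rt_r hx ex with rfl | rfl <;> revert w <;> decide
  obtain ⟨q, hq', f⟩ := S.π_surj (Pi.single i u)
  refine ⟨q, hq', ⟨u, f⟩, ?_⟩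
  have hc := S.comm_mem hx.C hq'
  have := (S.π_eq_iff (inv_mem hc) hq).1 (by
    rw [S.π_inv hc, ← S.N_π hx.C hq', S.N_apply, ex, f, mo_single, e, ← hu, Pi.single_add]
    simp)
  rw [commutatorElement_inv, commutatorElement_def] at this
  refine this.elim (fun g => (mul_right_cancel g).symm) fun g => absurd ?_ (not_cube S
    (mul_mem (mul_mem (qOf_le z hq') hx.C) (inv_mem (qOf_le z hq')))
    (by rw [conj_pow, hx.2.1, mul_one, mul_inv_cancel]) hy.2.1)
  rwa [mul_assoc _ x⁻¹, mem_C.1 (inv_mem hx.C), ← mul_assoc, mul_left_inj] at g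

theorem P3.rt_orb (h : P3 z s S) {x y : G} (hx : Rt z x) (hy : Rt z y) :
    ∃ c ∈ centralizer ({z} : Set G), c * x * c⁻¹ = y := by
  obtain ⟨-, -, i, r, hr, ex⟩ := h.rt_iff.1 hx
  obtain ⟨-, -, j, r', hr', ey⟩ := h.rt_iff.1 hy
  obtain ⟨a, b, e, k1, k2⟩ : ∃ a b e, kl a b * 1 * (kl a b)⁻¹ = 1 ∧ (fun l => sg (fun _ => e) l *
      (Pi.mulSingle i r : Fin 4 → Perm (Fin 3)) ((kl a b)⁻¹ l) *
        (sg (fun _ => e) (kl a b ((kl a b * 1)⁻¹ l)))⁻¹) = Pi.mulSingle j r' := by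
    clear ex ey
    rcases hr with rfl | rfl <;> rcases hr' with rfl | rfl <;> revert i j <;> decide +kernel
  obtain ⟨c, hc, ec⟩ := h.hB' a b e
  have := hx.cj c
  rw [mem_C.1 hc.2, mul_inv_cancel_right] at this
  obtain ⟨q, hq, -, f⟩ := h.rt_conj this hy (fun v => by
    rw [act_mul (mul_mem hc.2 hx.C) (inv_mem hc.2) (act_mul hc.2 hx.C ec ex) (act_inv hc.2 ec),
      k1, k2]) ey
  exact ⟨q * c, mul_mem (qOf_le z hq) hc.2, by rw [← f]; group⟩

theorem P3.esp (h : P3 z s S) (x : G) (hx : Rt z x) : ∃ f g f' g' n, Es z f g f' g' n ∧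
    ∀ y ∈ [f, g, f', g', n], y ∈ qOf z ∧ y * x = x * y := by
  obtain ⟨-, -, i, r, -, ex⟩ := h.rt_iff.1 hx
  obtain ⟨j, l, m, k⟩ : ∃ j l m : Fin 4, i ≠ j ∧ i ≠ l ∧ i ≠ m ∧ j ≠ l ∧ j ≠ m ∧ l ≠ m := by
    clear ex; revert i; decide
  obtain ⟨f, hf, ef⟩ := S.π_surj (Pi.single j (1, 0) + Pi.single l (1, 0))
  obtain ⟨g, hg, eg⟩ := S.π_surj (Pi.single j (0, 1))
  obtain ⟨f', hf', ef'⟩ := S.π_surj (Pi.single j (0, 1) + Pi.single l (0, 1))
  obtain ⟨g', hg', eg'⟩ := S.π_surj (Pi.single j (1, 0))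
  obtain ⟨n, hn, en⟩ := S.π_surj (Pi.single m (1, 0))
  refine ⟨f, g, f', g', n, ⟨(S.q_π f hf).1 ?_, (S.q_π f' hf').1 ?_, (S.b_π_one hg hf).1 ?_,
    (S.b_π_one hg' hf').1 ?_, (S.b_π f hf f' hf').1 ?_, (S.b_π f hf g' hg').1 ?_,
    (S.b_π f hf n hn).1 ?_, (S.b_π f' hf' n hn).1 ?_, (S.q_π_one hn).1 ?_⟩, ?_⟩
  rotate_right
  · have c := fun {q} hq e => And.intro hq (comm_off (y := q) hx.C hx.2.1 ex hq e).symm
    simp only [List.mem_cons, List.not_mem_nil, or_false, forall_eq_or_imp, forall_eq]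
    refine ⟨c hf ?_, c hg ?_, c hf' ?_, c hg' ?_, c hn ?_⟩ <;> simp [*]
  all_goals
    simp only [h.q, h.b, ef, eg, ef', eg', en]
    clear ex ef eg ef' eg' en
    revert i j l m
    decide +kernel

theorem P3.cen (h : P3 z s S) (x o : G) (hx : Rt z x) (c1 : o * z = z * o) (c2 : o * x = x * o)
    (od : Odd (orderOf o)) (c3 : ∀ y ∈ qOf z, y * x = x * y → o * y = y * o) : o ∈ zpowers x := by
  obtain ⟨-, -, i, r, hr, ex⟩ := h.rt_iff.1 hx
  have ho := mem_C.2 c1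
  obtain ⟨τ, k, e⟩ := h.mono ho
  have f : ∀ l ≠ i, ∀ u : W2, (Pi.single (τ l) (act3 (k (τ l)) u) : V4) = Pi.single l u :=
    fun l n u => by
      obtain ⟨y, hy, ey⟩ := S.π_surj (Pi.single l u)
      rw [← mo_single, ← e, ← ey, S.ρ_π o ho y hy, c3 y hy (comm_off hx.C hx.2.1 ex hy (by
        rw [ey, Pi.single_eq_of_ne n.symm])).symm, mul_inv_cancel_right]
  obtain rfl : τ = 1 := by
    refine (by decide +kernel : ∀ (i : Fin 4) (τ : Perm (Fin 4)), (∀ l ≠ i, τ l = l) → τ = 1) i τ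
      fun l n => by_contra fun a => ?_
    have := congrFun (f l n (1, 0)) l
    rw [Pi.single_eq_same, Pi.single_eq_of_ne (Ne.symm a)] at this
    exact absurd this (by decide)
  have hk : k = Pi.mulSingle i (k i) := funext fun l => (eq_or_ne l i).elim
    (fun a => by rw [a, Pi.mulSingle_eq_same]) fun n => by
      rw [Pi.mulSingle_eq_of_ne n]
      exact act3_inj _ _ fun u => by simpa [act3_one] using congrFun (f l n u) l
  have sk := h.even ho e
  rw [Finset.prod_eq_single i (fun l _ n => by rw [hk, Pi.mulSingle_eq_of_ne n, map_one])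
    (by simp)] at sk
  obtain ⟨m, hm, em⟩ : ∃ m ∈ zpowers x, ∀ v, S.ρ o v = S.ρ m v := by
    have : k i = 1 ∨ k i = r ∨ k i = r * r := by
      generalize k i = a at sk
      rcases hr with rfl | rfl <;> revert a <;> decide
    rcases this with a | a | a
    · exact ⟨1, one_mem _, fun v => by rw [e, hk, a, act_one, Pi.mulSingle_one]⟩
    · exact ⟨x, mem_zpowers x, fun v => by rw [e, hk, a, ex]⟩
    · exact ⟨x * x, mul_mem (mem_zpowers x) (mem_zpowers x), fun v => by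
        rw [e, hk, a, act_mul hx.C hx.C ex ex, Pi.mulSingle_mul]; rfl⟩
  have := pow_four_Q S (same_act S ho (zpowers_le.2 hx.C hm) em)
  rw [Commute.mul_pow (Commute.inv_left (mem_C.1 (zpowers_le.2 (mem_C.2 c2.symm) hm)).symm),
    inv_pow, inv_mul_eq_one] at this
  exact zpowers_le.2 (this ▸ pow_mem hm 4) (mem_zpowers_pow_iff.2
    (Nat.Coprime.pow_left 2 (Nat.coprime_two_left.2 od)))

end Cfsg.Lib.X9P
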