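import Cfsg.Agent.X9P.M7
import Cfsg.Agent.X9P.M4

/-!
# Torus elements; isolation of `z` in the centralizer of a root element
-/

set_option autoImplicit false
set_option linter.unusedSectionVars false

universe u

namespace Cfsg.Lib.X9P

open Subgroup Cfsg.Lib.Local Cfsg.Lib.Solv Module Cfsg.Lib.Spor Cfsg.Lib.LX Equiv
open scoped Pointwise commutatorElement

variable {G : Type u} [Group G] [Finite G] {z s : G} {S : Sh (qOf z) z V4}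

open M7L

theorem M6L.zt (h : P3 z s S) {t : G} {k : Fin 4 → Perm (Fin 3)} (m : Mo S t k) (t2 : t * t = 1)
    (hk : Perm.sign (k 0) = -1) : ∃ n ∈ qOf z, n * t * n⁻¹ = z * t := by
  obtain ⟨w, hw⟩ := (by decide : ∀ g : Perm (Fin 3), Perm.sign g = -1 → ∃ w : W2,
    act3 g w + w ≠ 0) _ hk
  obtain ⟨n, hn, en⟩ := S.π_surj (Pi.single 0 (act3 (k 0) w + w))
  have vn := inverts_of S m.1 t2 hn ⟨Pi.single 0 w, by
    rw [S.N_apply, m.2, mo_single, en, Pi.single_add]; rfl⟩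
  refine ⟨n, hn, ?_⟩
  calc _ = n * (t * n * t⁻¹)⁻¹ * t := by group
    _ = _ := by rw [vn, inv_inv, sq_z h hn en hw]

theorem M6L.cz {S' : Sh (qOf s) s V4} (h' : P3 s z S') {x : G} (hx : x ∈ qOf s) :
    x ∈ centralizer ({z} : Set G) ↔ b4 (S'.π x) p4 = 0 := by
  rw [mem_C, ← S'.b_π x hx z h'.nw.mem, h'.πs, h'.b]

/-- the vectors of torus elements -/
def M6L.Wt (v : V4) : Prop := (∀ i, v i ≠ 0) ∧ (∀ i, (p4 + v) i ≠ 0) ∧ b4 v p4 = 0 ∧ ¬ InE4 v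

instance : DecidablePred M6L.Wt := fun v => by unfold M6L.Wt; infer_instance

theorem M6L.wt (h : P3 z s S) {S' : Sh (qOf s) s V4} (h' : P3 s z S') {a : G} (ha : a ∈ BB z s)
    (t : Tr z a) : M6L.Wt (S'.π a) := by
  refine ⟨h'.pt a ⟨h.nw.ps, h.nw.cj.symm.trans t.cv, ha.1, fun e => t.out (e ▸ h.nw.mem)⟩, ?_,
    (M6L.cz h' ha.1).1 ha.2, fun e => t.out ((h'.mem_E ha.1).2 e)⟩
  rw [← h'.πs, ← S'.π_mul _ h'.nw.mem _ ha.1]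
  exact h'.pt _ ⟨h.nw.ps, h.nw.cj.symm.trans t.cw, mul_mem h'.nw.mem ha.1,
    fun e => t.out ((mul_mem_cancel_left S.pre.mem).1 (e ▸ h.nw.mem))⟩

theorem P3.sp0 (h : P3 z s S) : ∃ t ∈ BB z s, Tr z t ∧ (∀ v, S.ρ t v = mo 1 (fun _ => τ3) v) ∧
    ∀ a ∈ BB z s, Tr z a → t * a ∈ qOf z := by
  obtain ⟨S', h'⟩ := h.swap
  obtain ⟨t, ht, et⟩ := h.sσ
  have n0 : ∀ {t}, Mo S t (fun _ => τ3) → t ∉ qOf z := fun m e =>
    absurd ((act_mem m.1 m.2).1 e).2 (by decide)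
  obtain ⟨w, hw, k⟩ := (by decide +kernel : ∀ v : V4, b4 v p4 = 0 → ¬ InE4 v →
    ∃ w, InE4 w ∧ ∀ i, (v + w) i ≠ 0) _ ((M6L.cz h' ht.1).1 ht.2)
    fun e => n0 ⟨ht.2, et⟩ ((h'.mem_E ht.1).2 e)
  obtain ⟨y, hy, rfl⟩ := S'.π_surj w
  have m : Mo S (t * y) fun _ => τ3 := by
    simpa using Mo.mul ⟨ht.2, et⟩ (Mo.of_mem ((h'.mem_E hy).2 hw))
  have nw := h'.nw_of (mul_mem ht.1 hy) (by rwa [S'.π_mul _ ht.1 _ hy])
  obtain ⟨n, -, e⟩ := M6L.zt h m nw.ss (by decide)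
  have c := h.nw.cj.trans nw.cj
  have tr : Tr z (t * y) := ⟨c, c.trans (isConj_iff.2 ⟨n, e⟩), (mem_C.1 m.1).symm, n0 m⟩
  refine ⟨t * y, ⟨nw.mem, m.1⟩, tr, m.2, fun a ha ta => (h'.mem_E (mul_mem nw.mem ha.1)).2 ?_⟩
  rw [S'.π_mul _ nw.mem _ ha.1]
  exact (by decide +kernel : ∀ u, M6L.Wt u → ∀ v, M6L.Wt v → InE4 (u + v)) _
    (M6L.wt h h' ⟨nw.mem, m.1⟩ tr) _ (M6L.wt h h' ha ta)

theorem P3.sp (h : P3 z s S) {v : G} (t : Tr z v) :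
    ∃ k, (∀ i, Perm.sign (k i) = -1) ∧ ∀ w, S.ρ v w = mo 1 k w := by
  obtain ⟨w, n1, n2⟩ := h.com v t.cv t.cm.symm t.out
  obtain ⟨c, hc, rfl, k, hk, ec⟩ := h.exists_c n1.mem (h.pt w n1)
  have mc : Mo S c k := ⟨LL_le z hc, ec⟩
  have ha : c⁻¹ * v * c ∈ centralizer ({z} : Set G) :=
    mul_mem (mul_mem (inv_mem mc.1) (mem_C.2 t.cm.symm)) mc.1
  obtain ⟨a, h1, -, h2, h3⟩ := h.sp0
  have k1 := h3 _ ⟨(mem_Q_cj c).1 n2.zs, ha⟩ ⟨t.cv.trans (isConj_iff.2 ⟨c⁻¹, by rw [inv_inv]⟩),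
    t.cw.trans (isConj_iff.2 ⟨c⁻¹, by
      rw [inv_inv, ← mul_assoc, mem_C.1 (inv_mem mc.1)]; group⟩),
    (mem_C.1 ha).symm, fun e => t.out (by simpa [mul_assoc] using S.conj_mem mc.1 e)⟩
  have m := (mc.mul ((Mo.inv ⟨h1.2, h2⟩).mul (Mo.of_mem k1))).mul mc.inv
  rw [show c * (a⁻¹ * (a * (c⁻¹ * v * c))) * c⁻¹ = v by group] at m
  exact ⟨_, fun i => by simp [hk i, show Perm.sign τ3 = -1 by decide], m.2⟩

theorem P3.iso (h : P3 z s S) (x d : G) (hx : Rt z x) (c : IsConj z d) (c1 : d * z = z * d)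
    (c2 : d * x = x * d) : d = z := by
  by_contra ne
  obtain ⟨x1, -, l, r, hr, ex⟩ := h.rt_iff.1 hx
  have hd := mem_C.2 c1
  have nq : d ∉ qOf z := fun e => by
    have k := congrFun (S.ρ_π x x1 d e) l
    rw [← c2, mul_inv_cancel_right, ex] at k
    simp only [mo, Pi.mulSingle_eq_same, inv_one, Perm.one_apply] at k
    exact h.pt d ⟨h.nw.pre, c, e, ne⟩ l ((by decide : ∀ (r : Perm (Fin 3)) (u : W2),
      (r = r3 ∨ r = r3⁻¹) → act3 r u = u → u = 0) r _ hr k)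
  obtain ⟨τ, k, e⟩ := h.mono hd
  obtain ⟨⟨i, j, rfl⟩, sg⟩ := (h.mem_LL hd e).1 (h.D_le c hd)
  have k1 := congrFun (mo_inj fun v => (act_mul hd x1 e ex v).symm.trans
    (c2 ▸ act_mul x1 hd ex e v)).2 l
  simp only [Pi.mulSingle_eq_same, inv_one, Perm.one_apply] at k1
  have k2 : kl i j = 1 := (by decide : ∀ i j l, (kl i j)⁻¹ l = l → kl i j = 1) i j l
    (by_contra fun n => by
      rw [Pi.mulSingle_eq_of_ne n, mul_one, eq_comm, mul_eq_right] at k1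
      exact absurd (k1 ▸ hr) (by decide))
  rw [k2] at e k1
  rw [inv_one, Perm.one_apply, Pi.mulSingle_eq_same] at k1
  have d2 : d * d = 1 := by
    obtain ⟨g, rfl⟩ := isConj_iff.1 c
    rw [conj_mul, S.pre.mul_self]; group
  have k3 := ((act_mem (mul_mem hd hd) (Mo.mul ⟨hd, e⟩ ⟨hd, e⟩).2).1 (d2 ▸ one_mem _)).2
  refine nq ((act_mem hd e).2 ⟨rfl, funext fun t => (by decide : ∀ g : Perm (Fin 3),
    Perm.sign g = 1 → g * g = 1 → g = 1) _ ((sg t l).trans ?_) (congrFun k3 t)⟩)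
  exact (by decide : ∀ r g : Perm (Fin 3), (r = r3 ∨ r = r3⁻¹) → g * r = r * g → Perm.sign g = 1)
    r _ hr k1

theorem P3.exf (h : P3 z s S) : ∃ f ∈ BB z s, f * f = 1 ∧
    (∃ i j e, kl i j ≠ 1 ∧ ∀ v, S.ρ f v = mo (kl i j) (sg fun _ => e) v) ∧
    ∃ S' : Sh (qOf s) s V4, P3 s z S' ∧ S'.π f = ![0, 0, (1, 1), (1, 1)] := by
  obtain ⟨S', h'⟩ := h.swap
  obtain ⟨f, hf, ef⟩ := S'.π_surj ![0, 0, (1, 1), (1, 1)]
  have f2 : f * f = 1 := (S'.q_π f hf).1 (by rw [h'.q, ef]; decide)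
  have hB : f ∈ BB z s := ⟨hf, (M6L.cz h' hf).2 (by rw [ef]; decide)⟩
  have nq : f ∉ qOf z := fun e => absurd ((h'.mem_E hf).1 e) (by rw [ef]; decide)
  obtain ⟨i, j, e, k⟩ := h.hB hB
  refine ⟨f, hB, f2, ⟨i, j, e, fun n => ?_, k⟩, S', h', ef⟩
  rw [n] at k
  cases e
  · exact nq ((act_mem hB.2 k).2 ⟨rfl, rfl⟩)
  obtain ⟨y, -, ey⟩ := M6L.zt h ⟨hB.2, k⟩ f2 (by decide)
  have nw := h'.nw_of (mul_mem h'.nw.mem hf) (by
    rw [S'.π_mul _ h'.nw.mem _ hf, h'.πs, ef]; decide)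
  exact h'.pt f ⟨h.nw.ps, nw.cj.trans (isConj_iff.2 ⟨y, ey⟩).symm, hf,
    fun e => nq (e ▸ h.nw.mem)⟩ 0 (by rw [ef]; rfl)

end Cfsg.Lib.X9P
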