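import Cfsg.Agent.X9P.K1
import Cfsg.Agent.X9P.M5

/-!
# The eight root groups inverted by a torus element
-/

set_option autoImplicit false
set_option linter.unusedSectionVars false

universe u

namespace Cfsg.Lib.X9P

open Subgroup Cfsg.Lib.Local Cfsg.Lib.Solv Module Cfsg.Lib.Spor Cfsg.Lib.LX Equiv
open scoped Pointwise commutatorElement

variable {G : Type u} [Group G] [Finite G]

namespace M7L

variable {z s v x y : G} {S : Sh (qOf z) z V4} {k k' : Fin 4 → Perm (Fin 3)} {i : Fin 4}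

/-- `g` centralizes `z` and acts diagonally -/
def Mo (S : Sh (qOf z) z V4) (g : G) (k : Fin 4 → Perm (Fin 3)) : Prop :=
  g ∈ centralizer ({z} : Set G) ∧ ∀ w, S.ρ g w = mo 1 k w

theorem Mo.mul (h : Mo S x k) (h' : Mo S y k') : Mo S (x * y) (k * k') :=
  ⟨mul_mem h.1 h'.1, fun w => by rw [S.ρ_mul h.1 h'.1, h.2, h'.2, mo_mul]; rfl⟩

theorem Mo.inv (h : Mo S x k) : Mo S x⁻¹ k⁻¹ :=
  ⟨inv_mem h.1, fun w => S.ρ_inj h.1 (by
    rw [S.ρ_ρ_inv h.1, h.2, mo_mul]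
    exact (mo_one w).symm.trans (congrArg (fun k => mo 1 k w) (mul_inv_cancel k).symm))⟩

theorem Mo.of_mem (h : x ∈ qOf z) : Mo S x 1 :=
  ⟨qOf_le z h, fun w => by rw [S.ρ_of_mem h, mo_one]⟩

theorem Mo.π (h : Mo S x k) (hy : y ∈ qOf z) {u : W2} (e : S.π y = Pi.single i u) :
    S.π (x * y * x⁻¹) = Pi.single i (act3 (k i) u) := by
  rw [← S.ρ_π _ h.1 _ hy, e, h.2, mo_single]; rfl

theorem rt_inv (h : P3 z s S) (hx : Rt z x) : Rt z x⁻¹ := by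
  obtain ⟨h1, h2, i, r, hr, e⟩ := h.rt_iff.1 hx
  refine h.rt_iff.2 ⟨inv_mem h1, by rw [inv_pow, h2, inv_one], i, r⁻¹, ?_, fun w => ?_⟩
  · rcases hr with rfl | rfl
    exacts [Or.inr rfl, Or.inl (inv_inv _)]
  · rw [(Mo.inv ⟨h1, e⟩).2, Pi.mulSingle_inv]

theorem rt_cj (hx : Rt z x) (hy : y ∈ centralizer ({z} : Set G)) : Rt z (y * x * y⁻¹) := by
  simpa only [mem_C.1 hy, mul_inv_cancel_right] using hx.cj y

theorem cj_eq {q q' : G} (hq : q ∈ qOf z) (hq' : q' ∈ qOf z) (e : S.π q = S.π q')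
    (hy : y ∈ centralizer ({z} : Set G)) : q * y * q⁻¹ = q' * y * q'⁻¹ := by
  rcases (S.π_eq_iff hq hq').1 e with rfl | rfl
  · rfl
  · rw [mul_assoc q z, ← mem_C.1 hy]; group

theorem fix0 (h : Mo S x (Pi.mulSingle i r3)) (hy : y ∈ qOf z) {u : W2}
    (e : S.π y = Pi.single i u) (c : y * x * y⁻¹ = x) : u = 0 := by
  have := h.π hy e
  rw [← mul_inv_eq_iff_eq_mul.1 c, mul_inv_cancel_right, e, Pi.mulSingle_eq_same] at this
  exact (by decide : ∀ u : W2, u = act3 r3 u → u = 0) u (Pi.single_injective (M := fun _ => W2) i this)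

theorem sq_z (h : P3 z s S) (hy : y ∈ qOf z) {u : W2} (e : S.π y = Pi.single i u) (n : u ≠ 0) :
    y * y = z := by
  rw [← S.q_π_one hy, h.q, e]
  exact (by decide : ∀ (i : Fin 4) (u : W2), u ≠ 0 → q4 (Pi.single i u) = 1) i u n

theorem exists_a (h : P3 z s S) (v2 : v * v = 1) (hv : Mo S v k) (hk : Perm.sign (k i) = -1) :
    ∃ a, Rt z a ∧ Mo S a (Pi.mulSingle i r3) ∧ v * a * v⁻¹ = a⁻¹ := by
  obtain ⟨x, rx, ex⟩ := h.exists_rt i
  have mx : Mo S x (Pi.mulSingle i r3) := ⟨mem_C.2 rx.1, ex⟩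
  have m' := (hv.mul mx.inv).mul hv.inv
  have e : k * (Pi.mulSingle i r3)⁻¹ * k⁻¹ = Pi.mulSingle i r3 := by
    funext j
    rcases eq_or_ne j i with rfl | n
    · simp only [Pi.mul_apply, Pi.inv_apply, Pi.mulSingle_eq_same]
      exact (by decide : ∀ g : Perm (Fin 3), Perm.sign g = -1 → g * r3⁻¹ * g⁻¹ = r3) _ hk
    · simp [n]
  rw [e] at m'
  obtain ⟨q, hq, ⟨u, eu⟩, e0⟩ := h.rt_conj rx (rt_cj (rt_inv h rx) hv.1) ex m'.2
  have vq := S.conj_mem hv.1 hq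
  have u0 := fix0 mx (mul_mem vq hq) (u := act3 (k i) u + u)
    (by rw [S.π_mul _ vq _ hq, hv.π hq eu, eu, Pi.single_add]) (by
      calc _ = v * q * (v⁻¹ * (q * x * q⁻¹) * v) * q⁻¹ * v⁻¹ := by group
        _ = v * (q * x * q⁻¹)⁻¹ * v⁻¹ := by
          nth_rw 1 [e0]; group
        _ = (v * v) * x * (v * v)⁻¹ := by rw [e0]; group
        _ = x := by rw [v2]; group)
  obtain ⟨u1, e1⟩ := (by decide : ∀ (g : Perm (Fin 3)) (u : W2), Perm.sign g = -1 →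
    act3 g u + u = 0 → ∃ w, act3 g w + u = w) _ u hk u0
  obtain ⟨p, hp, ep⟩ := S.π_surj (Pi.single i u1)
  have mp : Mo S p 1 := Mo.of_mem hp
  refine ⟨p * x * p⁻¹, rt_cj rx mp.1, by simpa using (mp.mul mx).mul mp.inv, inv_injective ?_⟩
  have vp := S.conj_mem hv.1 hp
  calc _ = v * p * v⁻¹ * (v * x⁻¹ * v⁻¹) * (v * p * v⁻¹)⁻¹ := by group
    _ = v * p * v⁻¹ * q * x * (v * p * v⁻¹ * q)⁻¹ := by rw [← e0]; group
    _ = _ := by
      rw [inv_inv, cj_eq (S := S) (mul_mem vp hq) hp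
        (by rw [S.π_mul _ vp _ hq, hv.π hp ep, eu, ← Pi.single_add, e1, ep]) mx.1]

theorem exists_aA (h : P3 z s S) (v2 : v * v = 1) (hv : Mo S v k) (hk : Perm.sign (k i) = -1) :
    ∃ a A, (Rt z a ∧ Mo S a (Pi.mulSingle i r3) ∧ v * a * v⁻¹ = a⁻¹) ∧
      (Rt z A ∧ Mo S A (Pi.mulSingle i r3⁻¹) ∧ v * A * v⁻¹ = A⁻¹) ∧
      (a * A ∈ qOf z ∧ ∃ u, u ≠ 0 ∧ S.π (a * A) = Pi.single i u) ∧
      ∀ y, Rt z y → Mo S y (Pi.mulSingle i r3) → v * y * v⁻¹ = y⁻¹ → y = a ∨ y = A⁻¹ := by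
  obtain ⟨a, ra, ma, ia⟩ := exists_a h v2 hv hk
  obtain ⟨u, u0, ⟨w, ew⟩, hu⟩ := (by decide : ∀ g : Perm (Fin 3), Perm.sign g = -1 → ∃ u : W2,
    u ≠ 0 ∧ (∃ w, act3 g w + w = u) ∧ ∀ w, w + act3 g w = 0 → w = 0 ∨ w = u) _ hk
  obtain ⟨n, hn, en⟩ := S.π_surj (Pi.single i u)
  have mn : Mo S n 1 := Mo.of_mem hn
  have vn := inverts_of S hv.1 v2 hn ⟨Pi.single i w, by
    rw [S.N_apply, hv.2, mo_single, en, ← ew, Pi.single_add]; rfl⟩
  have an := S.conj_mem ma.1 hn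
  refine ⟨a, n * a⁻¹ * n⁻¹, ⟨ra, ma, ia⟩, ⟨rt_cj (rt_inv h ra) mn.1,
    by simpa [Pi.mulSingle_inv] using (mn.mul ma.inv).mul mn.inv, ?_⟩,
    ⟨by simpa only [mul_assoc] using mul_mem an (inv_mem hn), act3 r3 u + u,
      (by decide : ∀ u : W2, u ≠ 0 → act3 r3 u + u ≠ 0) u u0, ?_⟩, fun y ry my iy => ?_⟩
  · calc _ = v * n * v⁻¹ * (v * a * v⁻¹)⁻¹ * (v * n * v⁻¹)⁻¹ := by group
      _ = n * a * n⁻¹ := by
        rw [vn, ia, inv_inv a, cj_eq (S := S) (inv_mem hn) hn (S.π_inv hn) ma.1]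
      _ = _ := by group
  · rw [← mul_assoc, ← mul_assoc, S.π_mul _ an _ (inv_mem hn), ma.π hn en, S.π_inv hn, en,
      Pi.mulSingle_eq_same, Pi.single_add]
  obtain ⟨q, hq, ⟨t, et⟩, rfl⟩ := h.rt_conj ra ry ma.2 my.2
  have vq := S.conj_mem hv.1 hq
  rcases hu t (fix0 ma (mul_mem (inv_mem hq) vq)
    (by rw [S.π_mul _ (inv_mem hq) _ vq, S.π_inv hq, hv.π hq et, et, Pi.single_add])
    (inv_injective (by
      calc _ = q⁻¹ * (v * q * v⁻¹) * a⁻¹ * (v * q * v⁻¹)⁻¹ * q := by group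
        _ = q⁻¹ * (v * (q * a * q⁻¹) * v⁻¹) * q := by rw [← ia]; group
        _ = _ := by rw [iy]; group))) with rfl | rfl
  · left
    rw [cj_eq (S := S) hq (one_mem _) (by rw [et, S.π_one, Pi.single_zero]) ma.1]; group
  · right
    rw [cj_eq (S := S) hq hn (by rw [et, en]) ma.1]; group

end M7L

open M7L in
theorem P3.f0 {z s v : G} {S : Sh (qOf z) z V4} (h : P3 z s S) (v2 : v * v = 1)
    (hv : v ∈ centralizer ({z} : Set G)) {k : Fin 4 → Perm (Fin 3)} (hk : ∀ i, Perm.sign (k i) = -1)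
    (e : ∀ w, S.ρ v w = mo 1 k w) : ∃ a A, F0 S v a A := by
  choose a A h1 h2 h3 h4 using fun i => exists_aA h v2 ⟨hv, e⟩ (hk i)
  have sq : ∀ i, a i * A i * (a i * A i) = z := fun i =>
    let ⟨_, n, e⟩ := (h3 i).2
    sq_z h (h3 i).1 e n
  have ma : ∀ i, a i ∈ closure (Set.range a ∪ Set.range A) := fun i =>
    subset_closure (Or.inl ⟨i, rfl⟩)
  have mA : ∀ i, a i * A i ∈ closure (Set.range a ∪ Set.range A) := fun i =>
    mul_mem (ma i) (subset_closure (Or.inr ⟨i, rfl⟩))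
  have le : qOf z ≤ closure (Set.range a ∪ Set.range A) := fun q hq => by
    refine S.mem_of_π_mem_img (sq 0 ▸ mul_mem (mA 0) (mA 0)) hq ?_
    rw [← Finset.univ_sum_single (S.π q)]
    refine Submodule.sum_mem _ fun i _ => ?_
    obtain ⟨u, n, e⟩ := (h3 i).2
    have k1 := S.π_mem_img (mA i) (h3 i).1
    have k2 := S.π_mem_img (mul_mem (mul_mem (ma i) (mA i)) (inv_mem (ma i)))
      (S.conj_mem (h1 i).2.1.1 (h3 i).1)
    rw [(h1 i).2.1.π (h3 i).1 e, Pi.mulSingle_eq_same] at k2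
    rw [e] at k1
    rcases (by decide : ∀ u w : W2, u ≠ 0 → w = 0 ∨ w = u ∨ w = act3 r3 u ∨ w = u + act3 r3 u)
      u (S.π q i) n with t | t | t | t <;> rw [t]
    · rw [Pi.single_zero]; exact zero_mem _
    · exact k1
    · exact k2
    · rw [Pi.single_add]; exact add_mem k1 k2
  have cs : ∀ x, Rt z x → ∃ i, Mo S x (Pi.mulSingle i r3) ∨ Mo S x⁻¹ (Pi.mulSingle i r3) :=
    fun x rx => by
      obtain ⟨k1, -, i, r, rfl | rfl, e⟩ := h.rt_iff.1 rx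
      · exact ⟨i, Or.inl ⟨k1, e⟩⟩
      · exact ⟨i, Or.inr (by simpa [Pi.mulSingle_inv] using Mo.inv ⟨k1, e⟩)⟩
  have gn : ∀ x i, Rt z x → Mo S x (Pi.mulSingle i r3) → x ∈ closure (Set.range a ∪ Set.range A) :=
    fun x i rx mx => by
      obtain ⟨q, hq, -, rfl⟩ := h.rt_conj (h1 i).1 rx (h1 i).2.1.2 mx.2
      exact mul_mem (mul_mem (le hq) (ma i)) (inv_mem (le hq))
  refine ⟨a, A, ⟨fun i => (h1 i).1, fun i => (h2 i).1, fun i => (h1 i).2.2, fun i => (h2 i).2.2, sq,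
    fun i j n => h.rt_comm (h1 i).1 (h1 j).1 n (h1 i).2.1.2 (h1 j).2.1.2,
    fun i j n => h.rt_comm (h1 i).1 (h2 j).1 n (h1 i).2.1.2 (h2 j).2.1.2,
    fun i j n => h.rt_comm (h2 i).1 (h2 j).1 n (h2 i).2.1.2 (h2 j).2.1.2,
    fun x rx ix => ?_, fun x rx => ?_⟩, fun i => (h1 i).2.1.2, fun i => (h2 i).2.1.2, le⟩
  · obtain ⟨i, m | m⟩ := cs x rx
    · exact ⟨i, (h4 i x rx m ix).imp id fun e => Or.inr (Or.inr e)⟩
    · refine ⟨i, Or.inr ((h4 i _ (rt_inv h rx) m (by rw [← conj_inv, ix])).imp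
        (fun e => by rw [← e, inv_inv]) fun e => Or.inl (inv_injective e))⟩
  · obtain ⟨i, m | m⟩ := cs x rx
    · exact gn x i rx m
    · exact inv_mem_iff.1 (gn _ i (rt_inv h rx) m)

end Cfsg.Lib.X9P
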