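import Cfsg.Agent.X9P.M9

/-!
# Odd order subgroups inverted by a torus element; conjugates of a torus element
-/

set_option autoImplicit false
set_option linter.unusedSectionVars false

universe u

namespace Cfsg.Lib.X9P

open Subgroup Cfsg.Lib.Local Cfsg.Lib.Solv Module Cfsg.Lib.Spor Cfsg.Lib.LX Equiv
open scoped Pointwise commutatorElement

variable {G : Type u} [Group G] [Finite G]

namespace M8L

open M7L M9L

variable {z s v r : G} {S : Sh (qOf z) z V4} {k : Fin 4 → Perm (Fin 3)} {a A : Fin 4 → G}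

theorem odd1 {H : Type*} [Group H] {t : H} {n : ℕ} (o : Odd n) (h1 : t * t = 1) (h2 : t ^ n = 1) :
    t = 1 := by
  obtain ⟨m, rfl⟩ := o
  rwa [pow_succ, pow_mul, sq, h1, one_pow, one_mul] at h2

theorem eq_one' (h : Mo S r 1) {n : ℕ} (o : Odd n) (h2 : r ^ n = 1) : r = 1 := by
  have hx := (act_mem h.1 h.2).2 ⟨rfl, rfl⟩
  refine odd1 o (odd1 o ?_ (by rw [(Commute.refl r).mul_pow, h2, one_mul])) h2
  rcases (S.π_eq_zero' (mul_mem hx hx)).1 (by rw [S.π_mul _ hx _ hx, add_self']) with e | e <;>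
    rw [e]
  exacts [one_mul _, S.pre.mul_self]

theorem diag (h : P3 z s S) (hv : Mo S v k) (hr : r ∈ centralizer ({z} : Set G)) {n : ℕ} (o : Odd n)
    (h2 : r ^ n = 1) (i : v * r * v⁻¹ = r⁻¹) : ∃ k', Mo S r k' ∧ ∀ j, Perm.sign (k' j) = 1 := by
  obtain ⟨τ, k', e⟩ := h.mono hr
  have pw : ∀ m : ℕ, ∃ k', ∀ w, S.ρ (r ^ m) w = mo (τ ^ m) k' w := fun m => by
    induction m with
    | zero => exact ⟨1, fun w => by rw [pow_zero, pow_zero, S.ρ_one, mo_one]⟩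
    | succ m ih =>
      obtain ⟨k', ih⟩ := ih
      exact ⟨_, fun w => by rw [pow_succ, S.ρ_mul (pow_mem hr m) hr, e, ih, mo_mul, pow_succ]⟩
  obtain rfl : τ = 1 := by
    obtain ⟨k', e2⟩ := pw n
    have e3 := (mo_inj fun w => (act_mul (mul_mem hv.1 hr) (inv_mem hv.1) (act_mul hv.1 hr hv.2 e)
      hv.inv.2 w).symm.trans (i ▸ act_inv hr e w)).1
    rw [one_mul, mul_one] at e3
    exact odd1 o (by nth_rw 1 [e3]; exact inv_mul_cancel τ)
      (mo_inj (k' := 1) fun w => by rw [← e2, h2, S.ρ_one, mo_one]).1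
  have e3 : k' ^ n = 1 := Mo_eq (Mo_pow ⟨hr, e⟩ _) (h2 ▸ Mo.of_mem (one_mem _))
  exact ⟨k', ⟨hr, e⟩, fun j => odd1 o (Int.units_mul_self _) (by
    rw [← map_pow, show k' j ^ n = 1 from congrFun e3 j, map_one])⟩

theorem odd (h : P3 z s S) (hv : Mo S v k) (F : F0 S v a A) (R : Subgroup G)
    (hR : R ≤ centralizer ({z} : Set G)) (o : Odd (Nat.card R)) (i : ∀ r ∈ R, v * r * v⁻¹ = r⁻¹) :
    Nat.card R ∣ 81 ∧ (Nat.card R = 81 → ∀ i, a i ∈ R ∨ A i ∈ R) := by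
  have pw : ∀ r : R, (r : G) ^ Nat.card R = 1 := fun r => by
    rw [← coe_pow, pow_card_eq_one', coe_one]
  choose κ m sg using fun r : R => diag h hv (hR r.2) o (pw r) (i r r.2)
  let φ : R →* (Fin 4 → alternatingGroup (Fin 3)) :=
    MonoidHom.mk' (fun r j => ⟨κ r j, sg r j⟩) fun r r' => funext fun j =>
      Subtype.ext (congrFun (Mo_eq (m (r * r')) ((m r).mul (m r'))) j)
  have inj : Function.Injective φ := (injective_iff_map_eq_one φ).2 fun r e =>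
    Subtype.ext (eq_one' ((funext fun j => congrArg Subtype.val (congrFun e j) : κ r = 1) ▸ m r)
      o (pw r))
  have c : Nat.card (Fin 4 → alternatingGroup (Fin 3)) = 81 := by
    rw [Nat.card_fun, nat_card_alternatingGroup]; simp [Nat.factorial]
  refine ⟨c ▸ card_dvd_of_injective φ inj, fun e j => ?_⟩
  obtain ⟨r, hr⟩ := (inj.bijective_of_nat_card_le (by rw [c, e])).2
    (Pi.mulSingle j ⟨r3, Perm.mem_alternatingGroup.2 (by decide)⟩)
  have e1 : κ r = Pi.mulSingle j r3 := funext fun t =>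
    (congrArg Subtype.val (congrFun hr t)).trans (by clear hr; revert j t; decide)
  have mr := e1 ▸ m r
  have ma : ∀ t, Mo S (a t) (Pi.mulSingle t r3) := fun t => ⟨mem_C.2 (F.ra t).1, F.ρa t⟩
  have mA : ∀ t, Mo S (A t) (Pi.mulSingle t r3⁻¹) := fun t => ⟨mem_C.2 (F.rA t).1, F.ρA t⟩
  have r3' : (r : G) ^ 3 = 1 := eq_one' ((by clear hr e1 mr; revert j; decide :
    Pi.mulSingle j r3 ^ 3 = (1 : Fin 4 → Perm (Fin 3))) ▸ Mo_pow mr 3) o
      (by rw [← pow_mul, mul_comm, pow_mul, pw, one_pow])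
  obtain ⟨t, e2 | e2 | e2 | e2⟩ := F.un r (h.rt_iff.2 ⟨mr.1, r3', j, r3, Or.inl rfl, mr.2⟩) (i r r.2)
  · obtain rfl := (by decide : ∀ j t : Fin 4, (Pi.mulSingle j r3 : Fin 4 → Perm (Fin 3)) =
      Pi.mulSingle t r3 → j = t) j t (Mo_eq mr (e2 ▸ ma t))
    exact Or.inl (e2 ▸ r.2)
  · exact absurd (Mo_eq mr (e2 ▸ (ma t).inv)) (by clear hr e1 mr e2; revert j t; decide)
  · exact absurd (Mo_eq mr (e2 ▸ mA t)) (by clear hr e1 mr e2; revert j t; decide)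
  · obtain rfl := (by decide : ∀ j t : Fin 4, (Pi.mulSingle j r3 : Fin 4 → Perm (Fin 3)) =
      (Pi.mulSingle t r3⁻¹)⁻¹ → j = t) j t (Mo_eq mr (e2 ▸ (mA t).inv))
    exact Or.inr (inv_mem_iff.1 (e2 ▸ r.2))

theorem cjQ (h : P3 z s S) {v' : G} (hv : Mo S v k) (hv' : Mo S v' k) (v2 : v * v = 1)
    (v2' : v' * v' = 1) (hk : ∀ i, Perm.sign (k i) = -1) : ∃ x ∈ qOf z, x * v * x⁻¹ = v' := by
  have vi := inv_eq_of_mul_eq_one_right v2
  have m := hv.inv.mul hv'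
  rw [inv_mul_cancel] at m
  have hq := (act_mem m.1 m.2).2 ⟨rfl, rfl⟩
  generalize e : v⁻¹ * v' = q at hq
  obtain rfl : v' = v * q := by rw [← e, mul_inv_cancel_left]
  have k1 := S.π_mul _ (S.conj_mem hv.1 hq) _ hq
  rw [vi, mul_assoc (v * q), v2', S.π_one, ← vi, vi, ← show v * q * v⁻¹ = v * q * v by rw [vi],
    ← S.ρ_π _ hv.1 _ hq, hv.2] at k1
  choose w hw using fun i => (by decide : ∀ (g : Perm (Fin 3)) (u : W2), Perm.sign g = -1 →
    0 = act3 g u + u → ∃ w, act3 g w + w = u) (k i) (S.π q i) (hk i) (congrFun k1 i)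
  obtain ⟨x, hx, rfl⟩ := S.π_surj w
  have vx := S.conj_mem hv.1 hx
  rcases (S.π_eq_iff (mul_mem vx (inv_mem hx)) hq).1 (by
    rw [S.π_mul _ vx _ (inv_mem hx), S.π_inv hx, ← S.ρ_π _ hv.1 _ hx, hv.2]
    exact funext hw) with rfl | rfl
  · exact ⟨x, hx, by rw [vi, ← mul_assoc, ← mul_assoc, ← mul_assoc, v2, one_mul]⟩
  · obtain ⟨n, hn, en⟩ := M6L.zt h hv v2 (hk 0)
    refine ⟨x * n, mul_mem hx hn, ?_⟩
    calc _ = x * (n * v * n⁻¹) * x⁻¹ := by group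
      _ = x * v * (z * x⁻¹) := by rw [en, ← mem_C.1 hv.1]; group
      _ = v * v * x * v * x⁻¹ * z := by
        rw [← S.pre.central _ (inv_mem hx), v2]; group
      _ = _ := by rw [vi]; group

theorem cj (h : P3 z s S) (hv : Mo S v k) (v2 : v * v = 1) (hk : ∀ i, Perm.sign (k i) = -1)
    (F : F0 S v a A) (c : G) (hc : c ∈ centralizer ({z} : Set G)) :
    ∃ y ∈ closure (Set.range a ∪ Set.range A), y * v * y⁻¹ = c * v * c⁻¹ := by
  obtain ⟨τ, kc, e⟩ := h.mono hc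
  have e1 := act_mul (mul_mem hc hv.1) (inv_mem hc) (act_mul hc hv.1 e hv.2) (act_inv hc e)
  simp only [mul_one, mul_inv_cancel, ← Perm.mul_apply, Perm.one_apply] at e1
  choose m hm using fun i => (by decide : ∀ g g' : Perm (Fin 3), Perm.sign g = -1 →
    Perm.sign g' = -1 → ∃ m : Fin 3, r3 ^ m.1 * g * (r3 ^ m.1)⁻¹ = g') (k i)
      (kc i * k (τ⁻¹ i) * (kc i)⁻¹) (hk i) (by simp [hk])
  have ma : ∀ t, Mo S (a t ^ (m t).1) (Pi.mulSingle t r3 ^ (m t).1) := fun t =>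
    Mo_pow ⟨mem_C.2 (F.ra t).1, F.ρa t⟩ _
  have my := ((ma 0).mul (ma 1)).mul ((ma 2).mul (ma 3))
  have hy : ∀ t, a t ^ (m t).1 ∈ closure (Set.range a ∪ Set.range A) := fun t =>
    pow_mem (Subgroup.subset_closure (Set.mem_union_left _ (Set.mem_range_self t))) _
  have hy' := mul_mem (mul_mem (hy 0) (hy 1)) (mul_mem (hy 2) (hy 3))
  generalize a 0 ^ (m 0).1 * a 1 ^ (m 1).1 * (a 2 ^ (m 2).1 * a 3 ^ (m 3).1) = y at my hy'
  rw [show Pi.mulSingle 0 r3 ^ (m 0).1 * Pi.mulSingle 1 r3 ^ (m 1).1 *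
    (Pi.mulSingle 2 r3 ^ (m 2).1 * Pi.mulSingle 3 r3 ^ (m 3).1) = fun t => r3 ^ (m t).1 by
      funext t; fin_cases t <;> simp] at my
  obtain ⟨x, hx, ex⟩ := cjQ h ((my.mul hv).mul my.inv)
    ⟨mul_mem (mul_mem hc hv.1) (inv_mem hc), fun w => (e1 w).trans
      (congrArg (fun k => mo 1 k w) (funext hm).symm)⟩ (by rw [conj_mul, v2]; group)
    (by rw [conj_mul, v2]; group) (fun i => by simp [hk])
  exact ⟨x * y, mul_mem (F.le hx) hy', by rw [← ex]; group⟩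

end M8L

theorem P3.fr {z s v : G} {S : Sh (qOf z) z V4} (h : P3 z s S) (v2 : v * v = 1)
    (hv : v ∈ centralizer ({z} : Set G)) {k : Fin 4 → Perm (Fin 3)} (hk : ∀ i, Perm.sign (k i) = -1)
    (e : ∀ w, S.ρ v w = mo 1 k w) {a A : Fin 4 → G} (F : F0 S v a A) : Fr z v a A :=
  ⟨F.toFr0, M8L.odd h ⟨hv, e⟩ F, M8L.cj h ⟨hv, e⟩ v2 hk F⟩

end Cfsg.Lib.X9P
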