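import Cfsg.Agent.X9P.M6

/-!
# The centralizer of a root element is not contained in `C(z)`
-/

set_option autoImplicit false
set_option linter.unusedSectionVars false

universe u

namespace Cfsg.Lib.X9P

open Subgroup Cfsg.Lib.Local Cfsg.Lib.Solv Module Cfsg.Lib.Spor Cfsg.Lib.LX Equiv
open scoped Pointwise commutatorElement

variable {G : Type u} [Group G] [Finite G]

namespace M9L

open M7L

variable {z s x y f g : G} {S : Sh (qOf z) z V4} {k : Fin 4 → Perm (Fin 3)}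

theorem one_of_odd {H : Type*} [Group H] {t : H} {n : ℕ} (h1 : t * t = 1) (h2 : t ^ 3 ^ n = 1) :
    t = 1 := by
  obtain ⟨m, hm⟩ : Odd (3 ^ n) := Odd.pow (by decide)
  rwa [hm, pow_succ, pow_mul, sq, h1, one_pow, one_mul] at h2

theorem Mo_pow (h : Mo S x k) (n : ℕ) : Mo S (x ^ n) (k ^ n) := by
  induction n with
  | zero => rw [pow_zero, pow_zero]; exact Mo.of_mem (one_mem _)
  | succ n ih => rw [pow_succ, pow_succ]; exact ih.mul h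

theorem Mo_eq {k' : Fin 4 → Perm (Fin 3)} (h : Mo S x k) (h' : Mo S x k') : k = k' :=
  (mo_inj fun w => (h.2 w).symm.trans (h'.2 w)).2

theorem eq_one (h : Mo S x 1) {n : ℕ} (h2 : x ^ 3 ^ n = 1) : x = 1 := by
  have hx := S.mem_of_ρ h.1 fun w => by rw [h.2, mo_one]
  refine one_of_odd (one_of_odd (n := n) ?_ (by rw [(Commute.refl x).mul_pow, h2, one_mul])) h2
  rcases (S.π_eq_zero' (mul_mem hx hx)).1 (by rw [S.π_mul _ hx _ hx, add_self']) with e | e <;>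
    rw [e]
  exacts [one_mul _, S.pre.mul_self]

theorem shape (h : P3 z s S) (hf : f ∈ qOf z) (ef : S.π f = ![0, 0, (1, 1), (1, 1)])
    (hg : g ∈ centralizer ({z} : Set G)) (c : g * f = f * g) {n : ℕ} (h2 : g ^ 3 ^ n = 1) :
    ∃ k, Mo S g k ∧ Perm.sign (k 0) = 1 ∧ Perm.sign (k 1) = 1 ∧ k 2 = 1 ∧ k 3 = 1 := by
  obtain ⟨τ, k, e⟩ := h.mono hg
  have e1 := S.ρ_π g hg f hf
  rw [c, mul_inv_cancel_right, e, ef] at e1
  have pw : ∀ m : ℕ, ∃ k', ∀ w, S.ρ (g ^ m) w = mo (τ ^ m) k' w := fun m => by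
    induction m with
    | zero => exact ⟨1, fun w => by rw [pow_zero, pow_zero, S.ρ_one, mo_one]⟩
    | succ m ih =>
      obtain ⟨k', ih⟩ := ih
      exact ⟨_, fun w => by rw [pow_succ, S.ρ_mul (pow_mem hg m) hg, e, ih, mo_mul, pow_succ]⟩
  obtain rfl : τ = 1 := by
    obtain ⟨k', e2⟩ := pw (3 ^ n)
    refine one_of_odd ((by decide : ∀ τ : Perm (Fin 4), (∀ i,
      (![0, 0, (1, 1), (1, 1)] : V4) (τ⁻¹ i) = 0 ↔ (![0, 0, (1, 1), (1, 1)] : V4) i = 0) →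
        τ * τ = 1) τ fun i => ?_)
      (mo_inj (k' := 1) fun w => by rw [← e2, h2, S.ρ_one, mo_one]).1
    rw [← congrFun e1 i]
    exact (by decide : ∀ (g : Perm (Fin 3)) (u : W2), u = 0 ↔ act3 g u = 0) _ _
  have e3 : k ^ 3 ^ n = 1 := Mo_eq (Mo_pow ⟨hg, e⟩ _) (h2 ▸ Mo.of_mem (one_mem _))
  have sg : ∀ i, Perm.sign (k i) = 1 := fun i => one_of_odd (n := n) (Int.units_mul_self _) (by
    rw [← map_pow, show k i ^ 3 ^ n = 1 from congrFun e3 i, map_one])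
  have fx : ∀ g : Perm (Fin 3), Perm.sign g = 1 → act3 g ((1, 1) : W2) = (1, 1) → g = 1 := by decide
  exact ⟨k, ⟨hg, e⟩, sg 0, sg 1, fx _ (sg 2) (congrFun e1 2), fx _ (sg 3) (congrFun e1 3)⟩

set_option synthInstance.maxSize 1000 in
theorem lin : ∀ α β γ δ : Perm (Fin 3), Perm.sign α = 1 → Perm.sign β = 1 → Perm.sign γ = 1 →
    Perm.sign δ = 1 → ∃ a b : Fin 3, β ^ a.1 * δ ^ b.1 = 1 ∧
      (α ^ a.1 * γ ^ b.1 = r3 ∨ α ^ a.1 * γ ^ b.1 = 1 ∧ ¬ (a = 0 ∧ b = 0)) := by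
  decide +kernel

/-- the action of a product of two interchanged root elements -/
def kp (π : Perm (Fin 4)) (e : Bool) (l : Fin 4) : Fin 4 → Perm (Fin 3) :=
  Pi.mulSingle l r3 * Pi.mulSingle (π l) (cond e r3⁻¹ r3)

theorem pick : ∀ i j e : Bool, kl i j ≠ 1 → (∀ l, l ≠ kl i j l) ∧ ∃ m, (0 ≠ m ∧ 0 ≠ kl i j m ∧
    kl i j 0 ≠ m ∧ kl i j 0 ≠ kl i j m) ∧ ∀ a b : Fin 3,
      (kp (kl i j) e 0 ^ a.1 * kp (kl i j) e m ^ b.1 = 1 → a = 0 ∧ b = 0) ∧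
      ∀ t, kp (kl i j) e 0 ^ a.1 * kp (kl i j) e m ^ b.1 ≠ Pi.mulSingle t r3 ∧
        kp (kl i j) e 0 ^ a.1 * kp (kl i j) e m ^ b.1 ≠ Pi.mulSingle t r3⁻¹ := by
  decide +kernel

theorem Mo_cj (hf : f ∈ centralizer ({z} : Set G)) (f2 : f * f = 1) {i j e : Bool}
    (ef : ∀ v, S.ρ f v = mo (kl i j) (sg fun _ => e) v) {l : Fin 4}
    (h : Mo S x (Pi.mulSingle l r3)) :
    Mo S (f * x * f⁻¹) (Pi.mulSingle (kl i j l) (cond e r3⁻¹ r3)) := by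
  refine ⟨mul_mem (mul_mem hf h.1) (inv_mem hf), fun w => ?_⟩
  rw [inv_eq_of_mul_eq_one_right f2, S.ρ_mul (mul_mem hf h.1) hf, S.ρ_mul hf h.1, ef, h.2, ef,
    mo_mul, mo_mul]
  congr 1
  · clear ef; revert i j; decide
  · clear ef h; revert i j e l; decide +kernel

theorem pz {p : G} (h : p ^ 3 = 1) : IsPGroup 3 (zpowers p) := by
  rintro ⟨_, n, rfl⟩
  refine ⟨1, Subtype.ext ?_⟩
  change (p ^ n) ^ 3 ^ 1 = 1
  rw [pow_one, ← zpow_natCast, ← zpow_mul, mul_comm, zpow_mul, zpow_natCast, h, one_zpow]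

theorem uniq (h : P3 z s S) (hx : Rt z x) (H : ∀ c, c * x = x * c → c * z = z * c) {d d' : G}
    (hd : IsConj z d) (hd' : IsConj z d') (hy : Rt d y) (c : d' * y = y * d') : d' = d := by
  obtain ⟨g, rfl⟩ := isConj_iff.1 hd
  have r := hy.cj g⁻¹
  simp only [mul_assoc, inv_mul_cancel_left, inv_inv, inv_mul_cancel, mul_one] at r
  obtain ⟨a, ha, e⟩ := h.rt_orb hx r
  have k1 : g⁻¹ * d' * g * (g⁻¹ * (y * g)) = g⁻¹ * (y * g) * (g⁻¹ * d' * g) := by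
    calc _ = g⁻¹ * (d' * y) * g := by group
      _ = _ := by rw [c]; group
  have k2 := H (a⁻¹ * (g⁻¹ * d' * g) * a) (by
    calc _ = a⁻¹ * (g⁻¹ * d' * g * (a * x * a⁻¹)) * a := by group
      _ = a⁻¹ * (a * x * a⁻¹ * (g⁻¹ * d' * g)) * a := by rw [e, k1]
      _ = _ := by group)
  have k3 := mul_mem (mul_mem ha (mem_C.2 k2)) (inv_mem ha)
  simp only [mul_assoc a⁻¹, mul_inv_cancel_left, mul_inv_cancel_right] at k3
  rw [← h.iso _ _ r (hd'.trans (isConj_iff.2 ⟨g⁻¹, by rw [inv_inv]⟩)) (mem_C.1 k3) k1]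
  group

end M9L

open M7L M9L in
theorem P3.nle {z s : G} {S : Sh (qOf z) z V4} (h : P3 z s S) (x : G) (hx : Rt z x) :
    ∃ c, c * x = x * c ∧ c * z ≠ z * c := by
  have : Fact (Nat.Prime 3) := ⟨Nat.prime_three⟩
  by_contra H
  push Not at H
  obtain ⟨f, hf, f2, ⟨i, j, e, n1, ef⟩, S', h', πf⟩ := h.exf
  obtain ⟨y, ry, ey⟩ := h'.exists_rt 0
  have my : Mo S' y (Pi.mulSingle 0 r3) := ⟨mem_C.2 ry.1, ey⟩
  have yf : y * f = f * y := comm_of_odd S' my.1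
    (Odd.of_dvd_nat (by decide) (orderOf_dvd_of_pow_eq_one ry.2.1)) hf.1 (by rw [ey, πf]; decide)
  have cs : ∀ g : G, IsConj z (g * s * g⁻¹) := fun g => h.nw.cj.trans (isConj_iff.2 ⟨g, rfl⟩)
  obtain ⟨P, hP, yP⟩ := Block.exists_isSylowIn_ge (pz ry.2.1)
    (H := centralizer ({f} : Set G) ⊓ centralizer ({s} : Set G)) (zpowers_le.2 ⟨mem_C.2 yf, my.1⟩)
  have yP := yP (mem_zpowers y)
  have hP' : Block.IsSylowIn 3 P (centralizer ({f} : Set G)) :=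
    Block.IsSylowIn.of_inf_normalizer (hP.of_le (le_inf (hP.le.trans inf_le_left) le_normalizer)
      fun g hg => ⟨hg.1, mem_C.2 (mul_inv_eq_iff_eq_mul.1 (uniq h hx H (cs g) h.nw.cj (ry.cj g)
        (mem_C.1 (hP.le ((mem_normalizer_iff.1 hg.2 y).1 yP)).2).symm).symm)⟩)
  have p3 : ∀ g ∈ P, ∃ n, g ^ 3 ^ n = 1 := fun g hg =>
    (hP.isPGroup ⟨g, hg⟩).imp fun _ e => congrArg Subtype.val e
  have sh : ∀ g ∈ P, ∃ k, Mo S' g k ∧ Perm.sign (k 0) = 1 ∧ Perm.sign (k 1) = 1 ∧ k 2 = 1 ∧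
      k 3 = 1 := fun g hg =>
    let ⟨_, hn⟩ := p3 g hg
    shape h' hf.1 πf (hP.le hg).2 (mem_C.1 (hP.le hg).1) hn
  obtain ⟨n2, m, ⟨d1, d2, d3, d4⟩, hk⟩ := pick i j e n1
  choose X rX eX using h.exists_rt
  have mX : ∀ l, Mo S (X l) (Pi.mulSingle l r3) := fun l => ⟨mem_C.2 (rX l).1, eX l⟩
  have mY := fun l => Mo_cj hf.2 f2 ef (mX l)
  have rY := fun l => rt_cj (rX l) hf.2
  have c0 : ∀ l, Commute (X l) (f * X l * f⁻¹) := fun l =>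
    h.rt_comm (rX l) (rY l) (n2 l) (eX l) (mY l).2
  have mp : ∀ l, Mo S (X l * (f * X l * f⁻¹)) (kp (kl i j) e l) := fun l => (mX l).mul (mY l)
  have q3 : ∀ l, (X l * (f * X l * f⁻¹)) ^ 3 = 1 := fun l => by
    rw [(c0 l).mul_pow, (rX l).2.1, (rY l).2.1, one_mul]
  have pf : ∀ l, X l * (f * X l * f⁻¹) ∈ centralizer ({f} : Set G) := fun l => mem_C.2 (by
    nth_rw 2 [(c0 l).eq]
    rw [inv_eq_of_mul_eq_one_right f2]
    simp only [← mul_assoc, f2, one_mul]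
    rw [mul_assoc _ f f, f2, mul_one])
  have cc : Commute (X 0 * (f * X 0 * f⁻¹)) (X m * (f * X m * f⁻¹)) :=
    (Commute.mul_right (h.rt_comm (rX 0) (rX m) d1 (eX 0) (eX m))
      (h.rt_comm (rX 0) (rY m) d2 (eX 0) (mY m).2)).mul_left
      (Commute.mul_right (h.rt_comm (rY 0) (rX m) d3 (mY 0).2 (eX m))
        (h.rt_comm (rY 0) (rY m) d4 (mY 0).2 (mY m).2))
  have m0 := mp 0
  have m1 := mp m
  obtain ⟨c, -, hc⟩ := hP'.exists_conj_le (IsPGroup.to_sup_of_normal_right' (pz (q3 0)) (pz (q3 m))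
    (zpowers_le.2 (centralizer_le_normalizer _ (mem_centralizer_iff.2 fun _ ⟨n, e⟩ =>
      e ▸ (cc.symm.zpow_left n).eq)))) (sup_le (zpowers_le.2 (pf 0)) (zpowers_le.2 (pf m)))
  generalize X 0 * (f * X 0 * f⁻¹) = p at m0 hc
  generalize X m * (f * X m * f⁻¹) = p' at m1 hc
  have g0 : c * p * c⁻¹ ∈ P := hc ⟨p, mem_sup_left (mem_zpowers p), rfl⟩
  have g1 : c * p' * c⁻¹ ∈ P := hc ⟨p', mem_sup_right (mem_zpowers p'), rfl⟩
  obtain ⟨k, mk, s0, s1, s2, s3⟩ := sh _ g0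
  obtain ⟨k', mk', t0, t1, t2, t3⟩ := sh _ g1
  obtain ⟨a, b, e1, e0⟩ := lin _ _ _ _ s0 s1 t0 t1
  have mw := (Mo_pow mk a).mul (Mo_pow mk' b)
  have hw := mul_mem (pow_mem g0 a) (pow_mem g1 b)
  have mz := (Mo_pow m0 a).mul (Mo_pow m1 b)
  rw [conj_pow, conj_pow, conj_mul] at mw hw
  have ek : k ^ a.1 * k' ^ b.1 = Pi.mulSingle 0 (k 0 ^ a.1 * k' 0 ^ b.1) := by
    funext t
    fin_cases t <;> simp [e1, s2, s3, t2, t3]
  generalize p ^ a.1 * p' ^ b.1 = w at mw hw mz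
  rcases e0 with e0 | ⟨e0, ab⟩
  · rw [ek, e0] at mw
    obtain ⟨n, hn⟩ := p3 _ (mul_mem hw (inv_mem yP))
    have e2 := eq_one (by simpa using mw.mul my.inv) hn
    have r := ry.cj c⁻¹
    rw [← mul_inv_eq_one.1 e2, show c⁻¹ * (c * w * c⁻¹) * c⁻¹⁻¹ = w by group] at r
    rw [← uniq h hx H (cs c⁻¹) (IsConj.refl z) r (mem_C.1 mz.1).symm] at r
    obtain ⟨k1, -, t, r', rfl | rfl, e3⟩ := h.rt_iff.1 r
    · exact ((hk a b).2 t).1 (Mo_eq mz ⟨k1, e3⟩)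
    · exact ((hk a b).2 t).2 (Mo_eq mz ⟨k1, e3⟩)
  · rw [ek, e0, Pi.mulSingle_one] at mw
    obtain ⟨n, hn⟩ := p3 _ hw
    obtain rfl : w = 1 := by simpa using eq_one mw hn
    exact ab ((hk a b).1 (Mo_eq mz (Mo.of_mem (one_mem _))))

end Cfsg.Lib.X9P
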