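import Cfsg.Agent.X9P.Defs

/-!
# An extraspecial group acting on a commutative group of odd order
-/

set_option autoImplicit false

universe u

namespace Cfsg.Lib.X9P

open Subgroup Equiv

section U1
variable {A Γ : Type*} [CommGroup A] [Finite A] [Group Γ] (φ : Γ →* MulAut A)

omit [Finite A] in
theorem U1.sq_one (o : Odd (Nat.card A)) {d : A} (h : d * d = 1) : d = 1 := by
  have h1 : orderOf d ∣ 2 := orderOf_dvd_of_pow_eq_one (by rw [pow_two, h])
  have h2 : orderOf d ∣ Nat.card A := orderOf_dvd_natCard d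
  have : orderOf d ∣ Nat.gcd 2 (Nat.card A) := Nat.dvd_gcd h1 h2
  rw [(Nat.coprime_two_left.2 o : Nat.gcd 2 _ = 1)] at this
  exact orderOf_eq_one_iff.1 (Nat.dvd_one.1 this)

/-- An invariant subgroup splits into the fixed and the inverted part. -/
theorem U1.split (o : Odd (Nat.card A)) (σ : MulAut A) (hσ : ∀ a, σ (σ a) = a) (B : Subgroup A)
    (hB : ∀ a ∈ B, σ a ∈ B) : Nat.card B =
      Nat.card {a // a ∈ B ∧ σ a = a} * Nat.card {a // a ∈ B ∧ σ a = a⁻¹} := by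
  rw [← Nat.card_prod]
  refine (Nat.card_eq_of_bijective
    (fun p : {a // a ∈ B ∧ σ a = a} × {a // a ∈ B ∧ σ a = a⁻¹} =>
      (⟨p.1.1 * p.2.1, B.mul_mem p.1.2.1 p.2.2.1⟩ : B)) ⟨?_, ?_⟩).symm
  · rintro ⟨⟨b, _, hb⟩, c, _, hc⟩ ⟨⟨b', _, hb'⟩, c', _, hc'⟩ e
    have e1 : b * c = b' * c' := congrArg Subtype.val e
    have e2 : b * c⁻¹ = b' * c'⁻¹ := by simpa [hb, hc, hb', hc'] using congrArg σ e1
    have e3 : b * b'⁻¹ * (b * b'⁻¹) = 1 := by
      calc b * b'⁻¹ * (b * b'⁻¹) = (b * c) * (b * c⁻¹) * b'⁻¹ * b'⁻¹ := by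
            simp [mul_comm, mul_left_comm, mul_assoc]
        _ = 1 := by rw [e1, e2]; simp [mul_comm, mul_left_comm, mul_assoc]
    have e4 : b = b' := mul_inv_eq_one.1 (U1.sq_one o e3)
    subst e4
    have e5 : c = c' := mul_left_cancel e1
    subst e5
    rfl
  · rintro ⟨a, ha⟩
    obtain ⟨k, hk⟩ := o
    have hs : a ^ (k + 1) * a ^ (k + 1) = a := by
      rw [← pow_add, show k + 1 + (k + 1) = 2 * k + 1 + 1 by ring, ← hk, pow_succ,
        pow_card_eq_one', one_mul]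
    have m : a ^ (k + 1) ∈ B := B.pow_mem ha _
    generalize a ^ (k + 1) = s at hs m
    refine ⟨(⟨s * σ s, B.mul_mem m (hB s m), by simp [hσ, mul_comm]⟩,
      ⟨s * (σ s)⁻¹, B.mul_mem m (B.inv_mem (hB s m)), by simp [hσ, mul_comm]⟩), Subtype.ext ?_⟩
    simp only
    rw [← hs]
    simp [mul_left_comm, mul_assoc]

theorem split2 (o : Odd (Nat.card A)) {z v : Γ} (hz : ∀ a, φ z a = a⁻¹) (hv : v * v = 1) :
    Nat.card A = Nat.card {a // φ v a = a} * Nat.card {a // φ (z * v) a = a} := by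
  have := U1.split o (φ v) (fun a => by rw [← MulAut.mul_apply, ← map_mul, hv, map_one]; rfl) ⊤
    (fun _ _ => mem_top _)
  rw [card_top] at this
  rw [this]
  congr 1
  · exact Nat.card_congr (Equiv.subtypeEquivRight fun a => by simp)
  · exact Nat.card_congr (Equiv.subtypeEquivRight fun a => by
      simp only [mem_top, true_and, map_mul, MulAut.mul_apply, hz]
      exact ⟨fun h => by rw [h, inv_inv], fun h => inv_eq_iff_eq_inv.1 h⟩)

/-- The fixed points of an automorphism. -/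
def U1.fx (σ : MulAut A) : Subgroup A where
  carrier := {a | σ a = a}
  mul_mem' {a b} ha hb := by simp only [Set.mem_ofPred_eq] at *; rw [map_mul, ha, hb]
  one_mem' := map_one σ
  inv_mem' {a} ha := by simp only [Set.mem_ofPred_eq] at *; rw [map_inv, ha]

theorem U1.fx_eq_1' : type_of% @U1.fx.eq_1 := @U1.fx.eq_1

omit [Finite A] in
theorem U1.mem_fx {σ : MulAut A} {a : A} : a ∈ U1.fx σ ↔ σ a = a := Iff.rfl

/-- The square of an invariant subgroup. -/
theorem U1.half (o : Odd (Nat.card A)) {z f g : Γ} (hz : ∀ a, φ z a = a⁻¹) (ff : f * f = 1)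
    (gf : g * f * g⁻¹ = z * f) (B : Subgroup A) (hf : ∀ a ∈ B, φ f a ∈ B)
    (hg : ∀ a, φ g a ∈ B ↔ a ∈ B) : Nat.card B = Nat.card ↥(B ⊓ U1.fx (φ f)) ^ 2 := by
  rw [U1.split o (φ f) (fun a => by rw [← MulAut.mul_apply, ← map_mul, ff, map_one]; rfl) B hf,
    pow_two]
  congr 1
  refine (Nat.card_congr (Equiv.subtypeEquiv (φ g).toEquiv fun a => ?_)).symm
  have e : ∀ a, φ f (φ g a) = (φ g (φ f a))⁻¹ := fun a => by
    have : f * g = z⁻¹ * (g * f) := by
      rw [eq_inv_mul_iff_mul_eq, ← mul_assoc, ← gf, inv_mul_cancel_right]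
    have h2 : ∀ b, φ z⁻¹ b = b⁻¹ := fun b => by
      rw [map_inv, MulAut.inv_apply, MulEquiv.symm_apply_eq, hz, inv_inv]
    rw [← MulAut.mul_apply, ← map_mul, this, map_mul, MulAut.mul_apply, h2, map_mul,
      MulAut.mul_apply]
  simp only [mem_inf, U1.mem_fx, MulEquiv.toEquiv_eq_coe, EquivLike.coe_coe, hg, e, inv_inj,
    EmbeddingLike.apply_eq_iff_eq]

theorem pow4 (o : Odd (Nat.card A)) {z f g f' g' n : Γ} (E : Es z f g f' g' n)
    (hz : ∀ a, φ z a = a⁻¹) : ∃ m, Nat.card A = m ^ 4 ∧ m % 4 = 1 := by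
  classical
  have cm : ∀ {x y : Γ}, x * y = y * x → ∀ a, φ y a ∈ U1.fx (φ x) ↔ a ∈ U1.fx (φ x) :=
    fun {x y} h a => by
      rw [U1.mem_fx, U1.mem_fx, ← MulAut.mul_apply, ← map_mul, h, map_mul, MulAut.mul_apply,
        EmbeddingLike.apply_eq_iff_eq]
  have h1 := U1.half φ o hz E.ff E.gf ⊤ (fun _ _ => mem_top _) (fun _ => by simp)
  rw [card_top, top_inf_eq] at h1
  have h2 := U1.half φ o hz E.ff' E.gf' (U1.fx (φ f)) (fun a ha => (cm E.c1 a).2 ha) (cm E.c2)
  set B := U1.fx (φ f) ⊓ U1.fx (φ f') with hB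
  have e : Nat.card A = Nat.card B ^ 4 := by rw [h1, h2]; ring
  refine ⟨_, e, ?_⟩
  have om : Odd (Nat.card B) := by
    rw [e] at o
    exact (Nat.odd_pow_iff (by decide)).1 o
  let _ := Fintype.ofFinite B
  let ψ : Perm B := Equiv.subtypeEquiv (φ n).toEquiv fun a => by
    simp only [hB, mem_inf, MulEquiv.toEquiv_eq_coe, EquivLike.coe_coe, cm E.c3, cm E.c4]
  have hψ : ∀ a : B, (ψ * ψ) a = a⁻¹ := fun a => Subtype.ext (by
    change φ n (φ n a) = _
    rw [← MulAut.mul_apply, ← map_mul, E.nn, hz]; rfl)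
  have s := Perm.sign_of_pow_two_eq_one (σ := ψ * ψ) (by
    ext a; rw [pow_two, Perm.mul_apply, hψ, hψ, inv_inv]; rfl)
  have c1 : Fintype.card (Function.fixedPoints (ψ * ψ : Perm B)) = 1 := by
    rw [Fintype.card_eq_one_iff]
    refine ⟨⟨1, by rw [Function.mem_fixedPoints_iff, hψ, inv_one]⟩, fun ⟨a, ha⟩ => Subtype.ext ?_⟩
    rw [Function.mem_fixedPoints_iff, hψ] at ha
    exact U1.sq_one om (d := a) (by nth_rewrite 1 [← ha]; exact inv_mul_cancel a)
  rw [c1, map_mul, Int.units_mul_self, ← Nat.card_eq_fintype_card] at s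
  have ev : Even ((Nat.card B - 1) / 2) := by
    by_contra h
    rw [(Nat.not_even_iff_odd.1 h).neg_one_pow] at s
    exact absurd s (by decide)
  obtain ⟨k, hk⟩ := om
  obtain ⟨l, hl⟩ := ev
  omega

end U1

end Cfsg.Lib.X9P
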