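import Cfsg.Agent.X9P.Defs
import Cfsg.Agent.Block.ZStar

/-!
# The odd core of the centraliser of a root element
-/

set_option autoImplicit false

universe u

namespace Cfsg.Lib.X9P

open Subgroup Cfsg.Lib.Local Cfsg.Lib.Solv Cfsg.Lib.Spor Cfsg.Lib.LX
open scoped Pointwise commutatorElement

variable {G : Type u} [Group G] [Finite G]

omit [Finite G] in
theorem U2.ord {z x : G} (r : Rt z x) : orderOf x = 3 :=
  haveI : Fact (Nat.Prime 3) := ⟨Nat.prime_three⟩
  orderOf_eq_prime r.2.1 r.2.2.1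

theorem exists_core {z x : G} (H : Lc z) (r : Rt z x) : ∃ O : Subgroup G,
    O ≤ centralizer ({x} : Set G) ∧ Odd (Nat.card O) ∧ x ∈ O ∧ ¬ O ≤ zpowers x ∧
    normalizer (zpowers x : Set G) ≤ normalizer (O : Set G) ∧
    ∀ o ∈ O, o * z = z * o → o ∈ zpowers x := by
  set Y := centralizer ({x} : Set G) with hY
  have mY : ∀ {a}, a ∈ Y ↔ a * x = x * a := mem_centralizer_singleton_iff
  have hz : z ∈ Y := mY.2 r.1.symm
  have co := coprime_card_map_pPrimeCore 2 Y
  have od : Odd (Nat.card ((pPrimeCore 2 Y).map Y.subtype)) := Nat.coprime_two_right.1 co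
  have nr : normalizer (zpowers x : Set G) ≤
      normalizer (((pPrimeCore 2 Y).map Y.subtype : Subgroup G) : Set G) := by
    refine le_trans ?_ (normalizer_le_normalizer_map_pPrimeCore 2 Y)
    rw [hY, ← centralizer_zpowers_eq_sing]
    exact Solv.normalizer_le_normalizer_centralizer _
  have Yn : Y ≤ normalizer (zpowers x : Set G) := by
    rw [hY, ← centralizer_zpowers_eq_sing]
    exact centralizer_le_normalizer _
  refine ⟨(pPrimeCore 2 Y).map Y.subtype, map_subtype_le _, od, ?_, fun le => ?_, nr,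
    fun o ho c => ?_⟩
  · refine le_map_pPrimeCore (N := zpowers x) (zpowers_le.2 (mY.2 rfl)) Yn ?_ (mem_zpowers x)
    rw [Nat.card_zpowers, U2.ord r]; decide
  · obtain ⟨c, c1, c2⟩ := H.nle x r
    have iso : IsIsolatedInvolution (⟨z, hz⟩ : Y) := by
      refine ⟨by rw [← H.pre.ord, orderOf_mk], fun g cg => Subtype.ext ?_⟩
      exact H.iso x _ r (isConj_iff.2 ⟨g, rfl⟩) (congrArg Subtype.val cg.eq).symm
        (mY.1 (g * ⟨z, hz⟩ * g⁻¹).2)
    have k : z * c * z⁻¹ * c⁻¹ ∈ zpowers x :=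
      le (mem_map_of_mem Y.subtype (Block.Princ.zstar iso ⟨c, mY.2 c1⟩))
    obtain ⟨n, hn⟩ := mem_zpowers_iff.1 k
    have cz : Commute (x ^ n) z := Commute.zpow_left r.1 n
    have e1 : c * z * c⁻¹ = z * x ^ n := by
      rw [hn, H.pre.inv_eq, ← mul_assoc, ← mul_assoc, ← mul_assoc, H.pre.mul_self, one_mul]
    have e2 : x ^ n * x ^ n = 1 := by
      have : c * z * c⁻¹ * (c * z * c⁻¹) = 1 := by rw [conj_mul, H.pre.mul_self]; simp
      rwa [e1, mul_assoc, ← mul_assoc (x ^ n), cz.eq, ← mul_assoc, ← mul_assoc, H.pre.mul_self,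
        one_mul] at this
    have e3 : (x ^ n) ^ 3 = 1 := by
      rw [← zpow_natCast, ← zpow_mul, mul_comm, zpow_mul, zpow_natCast, r.2.1, one_zpow]
    rw [pow_succ, pow_two, e2, one_mul] at e3
    rw [e3, mul_one, mul_inv_eq_iff_eq_mul] at e1
    exact c2 e1
  · have oY : o ∈ Y := map_subtype_le _ ho
    refine H.cen x o r c (mY.1 oY) (od.of_dvd_nat (orderOf_dvd_natCard _ ho)) fun y hy yx => ?_
    have b := inf_eq_bot_of_isPGroup_of_coprime H.pre.isPGroup co
    have m : o * y * o⁻¹ * y⁻¹ ∈ qOf z ⊓ (pPrimeCore 2 Y).map Y.subtype := by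
      refine mem_inf.2 ⟨mul_mem ((mem_normalizer_iff.1
        (H.pre.norm (mem_centralizer_singleton_iff.2 c)) y).1 hy) (inv_mem hy), ?_⟩
      rw [mul_assoc, mul_assoc, ← mul_assoc y]
      exact mul_mem ho ((mem_normalizer_iff.1 (nr (Yn (mY.2 yx))) _).1 (inv_mem ho))
    rwa [b, mem_bot, mul_inv_eq_one, mul_inv_eq_iff_eq_mul] at m

end Cfsg.Lib.X9P
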