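import Cfsg.Agent.X9P.U1
import Cfsg.Agent.X9P.U2

/-!
# The group `3^{1+8}` centralising a root element
-/

set_option autoImplicit false

universe u

namespace Cfsg.Lib.X9P

open Subgroup Cfsg.Lib.Local Cfsg.Lib.Solv Cfsg.Lib.Spor Cfsg.Lib.LX
open scoped Pointwise commutatorElement

variable {G : Type u} [Group G] [Finite G]

omit [Finite G] in
/-- The action of the normaliser on a section. -/
theorem U3.act {N O : Subgroup G} [(N.subgroupOf O).Normal]
    (h : normalizer (N : Set G) ≤ normalizer (O : Set G)) :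
    ∃ φ : normalizer (N : Set G) →* MulAut (O ⧸ N.subgroupOf O),
      ∀ (g : normalizer (N : Set G)) (o o' : O),
      (g : G) * o * (g : G)⁻¹ = o' → φ g (QuotientGroup.mk o) = QuotientGroup.mk o' := by
  let ψ : normalizer (N : Set G) →* MulAut O := (normalizerMonoidHom O).comp (inclusion h)
  have e : ∀ g (o : O), (ψ g o : G) = g * o * (g : G)⁻¹ := fun _ _ => rfl
  have k : ∀ g, (N.subgroupOf O).map (ψ g : O →* O) = N.subgroupOf O := fun g => by
    ext o
    refine mem_map_equiv.trans ?_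
    rw [← MulAut.inv_def, ← map_inv, mem_subgroupOf, mem_subgroupOf, e]
    exact (mem_normalizer_iff.1 (g⁻¹).2 _).symm
  refine ⟨MonoidHom.mk' (fun g => QuotientGroup.congr _ _ (ψ g) (k g)) fun g g' => ?_,
    fun g o o' r => ?_⟩
  · ext a
    induction a using QuotientGroup.induction_on with
    | H a => simp
  · simp only [MonoidHom.mk'_apply, QuotientGroup.congr_mk]
    exact congrArg _ (Subtype.ext r)

omit [Finite G] in
theorem U3.cube {x k : G} (h : x ^ 3 = 1) (m : k ∈ zpowers x) : k * k * k = 1 := by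
  obtain ⟨n, rfl⟩ := mem_zpowers_iff.1 m
  rw [← pow_two, ← pow_succ, ← zpow_natCast, ← zpow_mul, mul_comm, zpow_mul, zpow_natCast, h,
    one_zpow]

theorem big {z v x : G} (H : La z) (t : Tr z v) (r : Rt z x) (i : v * x * v⁻¹ = x⁻¹) :
    ∃ O : Subgroup G, O ≤ centralizer ({x} : Set G) ∧ (∀ a ∈ O, ∀ b ∈ O, ⁅a, b⁆ ∈ zpowers x) ∧
      (∀ w, w = v ∨ w = z * v → Nat.card ↥(O ⊓ centralizer ({w} : Set G)) = 81 ∧
        ∀ a ∈ O ⊓ centralizer ({w} : Set G), z * a * z⁻¹ = a⁻¹) ∧ 3 ^ 9 ∣ Nat.card G := by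
  obtain ⟨O, le, od, xO, nle, nr, fz⟩ := exists_core H.self r
  have pre := H.self.pre
  have cN : ∀ {g}, g * x = x * g → g ∈ normalizer (zpowers x : Set G) := fun h =>
    centralizer_le_normalizer _ (by
      rw [centralizer_zpowers_eq_sing]; exact mem_centralizer_singleton_iff.2 h)
  have nK : ((zpowers x).subgroupOf O).Normal := normal_subgroupOf_of_le_normalizer
    fun o ho => cN (mem_centralizer_singleton_iff.1 (le ho))
  obtain ⟨φ, hφ⟩ := U3.act (N := zpowers x) (O := O) nr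
  have cj : ∀ (g : normalizer (zpowers x : Set G)) (o : O), (g : G) * o * (g : G)⁻¹ ∈ O :=
    fun g o => (mem_normalizer_iff.1 (nr g.2) _).1 o.2
  have fx : ∀ (w : normalizer (zpowers x : Set G)), (w : G) * w = 1 → ∀ a, φ w a = a →
      ∃ o : O, (w : G) * o * (w : G)⁻¹ = o ∧ QuotientGroup.mk o = a := fun w ww a ha => by
    induction a using QuotientGroup.induction_on with
    | H o =>
    rw [hφ w o ⟨_, cj w o⟩ rfl, eq_comm, QuotientGroup.eq, mem_subgroupOf] at ha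
    simp only [coe_mul, coe_inv] at ha
    obtain ⟨k, hk⟩ : ∃ k, k = (o : G)⁻¹ * (w * o * (w : G)⁻¹) := ⟨_, rfl⟩
    rw [← hk] at ha
    have e1 : (w : G) * o * (w : G)⁻¹ = o * k := by rw [hk]; group
    have wi : (w : G)⁻¹ = w := inv_eq_of_mul_eq_one_right ww
    have e2 : (w : G) * k⁻¹ * (w : G)⁻¹ = k := by
      rw [hk, wi]
      calc (w : G) * ((o : G)⁻¹ * (w * o * w))⁻¹ * w = w * (w : G)⁻¹ * (o : G)⁻¹ * (w : G)⁻¹ * o * w
            := by group
        _ = _ := by rw [mul_inv_cancel, one_mul, wi]; group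
    have kO : k ∈ O := zpowers_le.2 xO ha
    refine ⟨o * ⟨k, kO⟩⁻¹, ?_, ?_⟩
    · simp only [coe_mul, coe_inv]
      rw [← conj_mul, e1, e2, mul_assoc, eq_inv_of_mul_eq_one_left (U3.cube r.2.1 ha)]
    · rw [QuotientGroup.eq, mem_subgroupOf]
      simpa using ha
  let Z : normalizer (zpowers x : Set G) := ⟨z, cN r.1.symm⟩
  have ZZ : Z * Z = 1 := Subtype.ext pre.mul_self
  have fp : MonoidHom.FixedPointFree (φ Z) := fun a ha => by
    obtain ⟨o, h1, rfl⟩ := fx Z pre.mul_self a ha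
    exact (QuotientGroup.eq_one_iff _).2 (fz o o.2 (mul_inv_eq_iff_eq_mul.1 h1).symm)
  have iv : Function.Involutive (φ Z) := fun a => by
    rw [← MulAut.mul_apply, ← map_mul, ZZ, map_one]; rfl
  have hz : ∀ a, φ Z a = a⁻¹ := fun a => congrFun (fp.coe_eq_inv_of_involutive iv) a
  have cm : ∀ a b : O ⧸ (zpowers x).subgroupOf O, a * b = b * a :=
    fun a b => (fp.commute_all_of_involutive iv a b).eq
  let _ : CommGroup (O ⧸ (zpowers x).subgroupOf O) := { mul_comm := cm }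
  have cO : Nat.card O = Nat.card (O ⧸ (zpowers x).subgroupOf O) * 3 := by
    rw [card_eq_card_quotient_mul_card_subgroup ((zpowers x).subgroupOf O),
      Nat.card_congr (subgroupOfEquivOfLe (zpowers_le.2 xO)).toEquiv, Nat.card_zpowers, U2.ord r]
  have oA : Odd (Nat.card (O ⧸ (zpowers x).subgroupOf O)) := od.of_dvd_nat ⟨3, cO⟩
  have key : ∀ w : normalizer (zpowers x : Set G), Tr z w → (w : G) * x * (w : G)⁻¹ = x⁻¹ →
      Nat.card ↥(O ⊓ centralizer ({(w : G)} : Set G)) = Nat.card {a // φ w a = a} ∧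
      Nat.card ↥(O ⊓ centralizer ({(w : G)} : Set G)) ∣ 81 ∧
      ∀ a ∈ O ⊓ centralizer ({(w : G)} : Set G), z * a * z⁻¹ = a⁻¹ := fun w tw iw => by
    have bt : ∀ k ∈ zpowers x, k * w = w * k → k = 1 := fun k hk c => by
      obtain ⟨n, rfl⟩ := mem_zpowers_iff.1 hk
      have e : (w : G) * x ^ n * (w : G)⁻¹ = (x ^ n)⁻¹ := by rw [← conj_zpow, iw, inv_zpow]
      rw [← c, mul_inv_cancel_right] at e
      have := U3.cube r.2.1 hk
      rwa [mul_eq_one_iff_eq_inv.2 e, one_mul] at this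
    have inv : ∀ a ∈ O ⊓ centralizer ({(w : G)} : Set G), z * a * z⁻¹ = a⁻¹ := fun a ha => by
      have h1 := (hφ Z ⟨a, ha.1⟩ ⟨_, cj Z ⟨a, ha.1⟩⟩ rfl).symm.trans (hz _)
      rw [← QuotientGroup.mk_inv, eq_comm, QuotientGroup.eq, mem_subgroupOf] at h1
      have c1 : Commute a w := mem_centralizer_singleton_iff.1 ha.2
      have c2 : Commute z w := tw.cm
      have h2 := bt _ h1 (by
        simpa using (c1.mul_left ((c2.mul_left c1).mul_left c2.inv_left)).eq)
      exact eq_inv_of_mul_eq_one_right (by simpa using h2)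
    refine ⟨Nat.card_eq_of_bijective (fun o => ⟨QuotientGroup.mk ⟨o.1, o.2.1⟩, hφ w ⟨o.1, o.2.1⟩ ⟨o.1, o.2.1⟩
      (mul_inv_eq_iff_eq_mul.2 (mem_centralizer_singleton_iff.1 o.2.2).symm)⟩) ⟨?_, ?_⟩, ?_, inv⟩
    · intro o o' e
      have e1 := QuotientGroup.eq.1 (congrArg Subtype.val e)
      have m := (O ⊓ centralizer ({(w : G)} : Set G)).mul_mem (inv_mem o.2) o'.2
      exact Subtype.ext (inv_mul_eq_one.1 (bt _ e1 (mem_centralizer_singleton_iff.1 m.2)))
    · rintro ⟨a, ha⟩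
      obtain ⟨o, h1, rfl⟩ := fx w (tw.vv pre) a ha
      exact ⟨⟨o, o.2, mem_centralizer_singleton_iff.2 (mul_inv_eq_iff_eq_mul.1 h1).symm⟩, rfl⟩
    · obtain ⟨a, A, F⟩ := (H _ tw.cv).fr z (tw.symm pre)
      exact (F.odd _ inf_le_right (od.of_dvd_nat (card_dvd_of_le inf_le_left)) inv).1
  have vN : v ∈ normalizer (zpowers x : Set G) := by
    refine mem_normalizer_fintype fun n hn => ?_
    obtain ⟨n, rfl⟩ := mem_zpowers_iff.1 hn
    rw [← conj_zpow, i]
    exact zpow_mem (inv_mem (mem_zpowers x)) n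
  let V : normalizer (zpowers x : Set G) := ⟨v, vN⟩
  obtain ⟨a1, a2, a3⟩ := key V t i
  obtain ⟨b1, b2, b3⟩ := key (Z * V) (t.mul pre) (by
    change z * v * x * (z * v)⁻¹ = _
    rw [mul_inv_rev, show z * v * x * (v⁻¹ * z⁻¹) = z * (v * x * v⁻¹) * z⁻¹ by group, i,
      mul_inv_eq_iff_eq_mul]
    exact (Commute.inv_left r.1).eq.symm)
  have sp := split2 φ oA hz (v := V) (Subtype.ext (t.vv pre))
  obtain ⟨f, g, f', g', n, E, hy⟩ := H.self.esp x r
  obtain ⟨m, hm, m4⟩ := pow4 φ oA (z := Z) (f := ⟨f, cN (hy f (by simp)).2⟩)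
    (g := ⟨g, cN (hy g (by simp)).2⟩) (f' := ⟨f', cN (hy f' (by simp)).2⟩)
    (g' := ⟨g', cN (hy g' (by simp)).2⟩) (n := ⟨n, cN (hy n (by simp)).2⟩)
    ⟨Subtype.ext E.ff, Subtype.ext E.ff', Subtype.ext E.gf, Subtype.ext E.gf', Subtype.ext E.c1,
      Subtype.ext E.c2, Subtype.ext E.c3, Subtype.ext E.c4, Subtype.ext E.nn⟩ hz
  rw [← a1, ← b1] at sp
  have m9 : m ∣ 3 ^ 2 := (Nat.pow_dvd_pow_iff (n := 4) (by decide)).1 (by
    rw [← hm, sp]; exact (Nat.mul_dvd_mul a2 b2 : _ ∣ 81 * 81))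
  have m1 : m ≠ 1 := by
    rintro rfl
    refine nle (eq_of_le_of_card_ge (zpowers_le.2 xO) ?_).ge
    rw [cO, hm, Nat.card_zpowers, U2.ord r]; rfl
  obtain ⟨j, hj, rfl⟩ := (Nat.dvd_prime_pow Nat.prime_three).1 m9
  have : j = 2 := by
    interval_cases j
    · exact absurd rfl m1
    · exact absurd m4 (by decide)
    · rfl
  subst this
  have l1 := Nat.le_of_dvd (by decide) a2
  have l2 := Nat.le_of_dvd (by decide) b2
  rw [hm] at sp cO
  have ar : ∀ {p q : ℕ}, p ≤ 81 → q ≤ 81 → (3 ^ 2) ^ 4 = p * q → p = 81 ∧ q = 81 :=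
    fun h1 h2 h3 => ⟨by nlinarith, by nlinarith⟩
  refine ⟨O, le, fun a ha b hb => ?_, ?_, ?_⟩
  · have := cm (QuotientGroup.mk ⟨a, ha⟩) (QuotientGroup.mk ⟨b, hb⟩)
    rw [← commutatorElement_eq_one_iff_mul_comm, ← QuotientGroup.mk'_apply,
      ← QuotientGroup.mk'_apply, ← map_commutatorElement, QuotientGroup.mk'_apply,
      QuotientGroup.eq_one_iff] at this
    exact this
  · rintro w (rfl | rfl)
    · exact ⟨(ar l1 l2 sp).1, a3⟩
    · exact ⟨(ar l1 l2 sp).2, b3⟩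
  · exact (show 3 ^ 9 = Nat.card O by rw [cO]; rfl) ▸ card_subgroup_dvd_card O

end Cfsg.Lib.X9P
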