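import Cfsg.Agent.X9P.Defs

/-!
# Six root elements of order three: the relations of `SL₃(3)`
-/

set_option autoImplicit false

universe u

namespace Cfsg.Lib.X9P

open Subgroup
open scoped commutatorElement

variable {G : Type u} [Group G]

namespace U4

theorem inv3 {x : G} (h : x ^ 3 = 1) : x⁻¹ = x * x :=
  inv_eq_of_mul_eq_one_right (by rw [← h, pow_succ', pow_two])

theorem mem3 {x y : G} (h : x ^ 3 = 1) (m : y ∈ zpowers x) (n : y ≠ 1) : y = x ∨ y = x⁻¹ := by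
  obtain ⟨k, rfl⟩ := mem_zpowers_iff.1 m
  have e : x ^ k = x ^ (k % 3) := by
    conv_lhs => rw [← Int.mul_ediv_add_emod k 3, zpow_add, zpow_mul]
    rw [show x ^ (3 : ℤ) = 1 from by rw [← h]; exact zpow_natCast x 3, one_zpow, one_mul]
  rw [e] at n ⊢
  rcases (by omega : k % 3 = 0 ∨ k % 3 = 1 ∨ k % 3 = 2) with r | r | r <;> rw [r] at n ⊢
  · exact absurd (zpow_zero x) n
  · exact .inl (zpow_one x)
  · exact .inr (by rw [inv3 h, zpow_two])

theorem pw_add {x : G} (h : x ^ 3 = 1) (t u : ZMod 3) : pw x t * pw x u = pw x (t + u) := by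
  rw [pw, pw, pw, ← pow_add, ZMod.val_add, ← pow_eq_pow_mod _ h]

theorem pow_comm {x y w : G} (e : ⁅x, y⁆ = w) (cx : Commute w x) (cy : Commute w y) (i j : ℕ) :
    x ^ i * y ^ j = w ^ (i * j) * y ^ j * x ^ i := by
  have e1 : x * y = w * y * x := by rw [← e, commutatorElement_def]; group
  have e2 : ∀ j : ℕ, x * y ^ j = w ^ j * y ^ j * x := fun j => by
    induction j with
    | zero => simp
    | succ j ih =>
      rw [pow_succ, ← mul_assoc, ih, mul_assoc, e1, pow_succ w, mul_assoc (w ^ j) w,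
        ← mul_assoc w, (cy.pow_right j).eq]
      simp only [mul_assoc]
  induction i with
  | zero => simp
  | succ i ih =>
    rw [pow_succ', mul_assoc, ih, ← mul_assoc, ← mul_assoc, ← (cx.pow_left (i * j)).eq,
      mul_assoc _ x, e2, add_mul, one_mul, pow_add]
    simp only [mul_assoc]

theorem pw_comm {x y w : G} (h : w ^ 3 = 1) (e : ⁅x, y⁆ = w) (cx : Commute w x)
    (cy : Commute w y) (t u : ZMod 3) : pw x t * pw y u = pw w (t * u) * pw y u * pw x t := by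
  rw [pw, pw, pw, ZMod.val_mul, ← pow_eq_pow_mod _ h, pow_comm e cx cy]

theorem inv_mem' {X w y : G} (c : Commute w y) (m : ⁅X, w⁆ ∈ zpowers y) :
    ⁅X, w⁻¹⁆ ∈ zpowers y := by
  obtain ⟨k, hk⟩ := mem_zpowers_iff.1 m
  have : ⁅X, w⁻¹⁆ = w⁻¹ * ⁅X, w⁆⁻¹ * w := by simp only [commutatorElement_def]; group
  rw [this, ← hk, mul_assoc, ← (c.zpow_right k).inv_right.eq, inv_mul_cancel_left]
  exact inv_mem (zpow_mem (mem_zpowers y) k)

theorem flip {X w y : G} (c : Commute w y) (e : ⁅X, w⁻¹⁆ = y) : ⁅w, X⁆ = y := by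
  have : ⁅w, X⁆ = w * ⁅X, w⁻¹⁆ * w⁻¹ := by simp only [commutatorElement_def]; group
  rw [this, e, c.eq, mul_inv_cancel_right]

theorem swap4 {x X : G} (h : (x * X) ^ 4 = 1) : (X * x) ^ 4 = 1 := by
  have : X * x = X * (x * X) * X⁻¹ := by group
  rw [this, conj_pow, h]; simp

/-- The sign of the second commutator is determined. -/
theorem sign {x X y w : G} (y3 : y ^ 3 = 1) (h4 : (x * X) ^ 4 = 1) (e : ⁅x, y⁆ = w)
    (xw : Commute x w) (wy : Commute w y) (yX : Commute y X) (m : ⁅X, w⁆ ∈ zpowers y)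
    (n : ¬ Commute X w) : ⁅X, w⁆ = y := by
  rcases mem3 y3 m (fun k => n (commutatorElement_eq_one_iff_commute.1 k)) with k | k
  · exact k
  exfalso
  have a1 : x * y * x⁻¹ = w * y := by rw [← e, commutatorElement_def]; group
  have a2 : X * w * X⁻¹ = y⁻¹ * w := by rw [← k, commutatorElement_def]; group
  have b1 : x * X * y * (x * X)⁻¹ = w * y := by
    rw [← a1, mul_assoc x, ← yX.eq]; group
  have b2 : x * X * w * (x * X)⁻¹ = y⁻¹ := by
    calc x * X * w * (x * X)⁻¹ = x * (X * w * X⁻¹) * x⁻¹ := by group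
      _ = (x * y * x⁻¹)⁻¹ * (x * w * x⁻¹) := by rw [a2]; group
      _ = y⁻¹ := by rw [a1, xw.eq]; group
  generalize x * X = g at h4 b1 b2
  have c2 : g * (w * y) * g⁻¹ = w := by
    rw [← conj_mul, b1, b2, wy.eq, inv_mul_cancel_left]
  have c4 : y = (w * y)⁻¹ := by
    calc y = g ^ 4 * y * (g ^ 4)⁻¹ := by rw [h4]; simp
      _ = g * (g * (g * (g * y * g⁻¹) * g⁻¹) * g⁻¹) * g⁻¹ := by
        simp only [pow_succ, pow_zero, one_mul, mul_inv_rev, mul_assoc]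
      _ = (g * y * g⁻¹)⁻¹ := by rw [b1, c2, b2, ← b1]; group
      _ = _ := by rw [b1]
  have : w = y := by
    have h := mul_eq_one_iff_eq_inv.2 c4
    rw [← mul_assoc, ← wy.eq, mul_assoc, ← inv3 y3, mul_inv_eq_one] at h
    exact h
  exact n (this ▸ yX.symm)

theorem hex0 {a A b B c C : G} (a3 : a ^ 3 = 1) (A3 : A ^ 3 = 1) (b3 : b ^ 3 = 1) (B3 : B ^ 3 = 1)
    (c3 : c ^ 3 = 1) (C3 : C ^ 3 = 1) (aA : (a * A) ^ 4 = 1) (bB : (b * B) ^ 4 = 1)
    (ac : Commute a c) (cb : Commute c b) (bA : Commute b A) (AC : Commute A C) (CB : Commute C B)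
    (Ba : Commute B a) (ab : ⁅a, b⁆ = c) (BA : ⁅B, A⁆ = C) (Ac : ⁅A, c⁆ ∈ zpowers b)
    (Bc : ⁅B, c⁆ ∈ zpowers a) (aC : ⁅a, C⁆ ∈ zpowers B) (bC : ⁅b, C⁆ ∈ zpowers A)
    (n3 : ¬ Commute A c) (n4 : ¬ Commute B c)
    (n5 : ¬ Commute a C) (n6 : ¬ Commute b C) : Ed a A b B := by
  have s1 : ⁅A, c⁆ = b := sign b3 aA ab ac cb bA Ac n3
  have s2 : ⁅c, B⁆ = a := flip ac.symm (sign a3 bB (by rw [← ab, commutatorElement_inv])
    cb.symm.inv_right ac.symm.inv_left Ba.symm (inv_mem' ac.symm Bc)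
    fun k => n4 (by simpa using k.inv_right))
  have s3 : ⁅C, a⁆ = B := flip CB (sign B3 (swap4 aA) (by rw [← BA, commutatorElement_inv])
    AC.inv_right CB.inv_left Ba (inv_mem' CB aC) fun k => n5 (by simpa using k.inv_right))
  have s4 : ⁅b, C⁆ = A := sign A3 (swap4 bB) BA CB.symm AC.symm bA.symm bC n6
  refine ⟨fun i j => pw (![![1, a, c], ![A, 1, b], ![C, B, 1]] i j), ⟨?_, ?_, ?_⟩,
    rfl, rfl, rfl, rfl⟩
  · intro i j _
    refine pw_add ?_
    fin_cases i <;> fin_cases j <;> first | assumption | exact one_pow 3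
  · intro i j k h1 h2 h3
    fin_cases i <;> fin_cases j <;> fin_cases k <;> first | exact absurd rfl h1 | exact absurd rfl h2 | exact absurd rfl h3 | skip
    · exact pw_comm c3 ab ac.symm cb
    · exact pw_comm a3 s2 ac Ba.symm
    · exact pw_comm b3 s1 bA cb.symm
    · exact pw_comm A3 s4 bA.symm AC
    · exact pw_comm B3 s3 CB.symm Ba
    · exact pw_comm C3 BA CB AC.symm
  · intro i j k l h1 h2 h3 h4 t u
    refine Commute.pow_pow ?_ _ _
    fin_cases i <;> fin_cases j <;> fin_cases k <;> fin_cases l <;>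
      first | exact absurd rfl h1 | exact absurd rfl h2 | exact absurd rfl h3 | exact absurd rfl h4 | exact Commute.refl _ | assumption | (apply Commute.symm; assumption)

end U4

open U4

theorem hex {a A b B c C : G} (a3 : a ^ 3 = 1) (A3 : A ^ 3 = 1) (b3 : b ^ 3 = 1) (B3 : B ^ 3 = 1)
    (c3 : c ^ 3 = 1) (C3 : C ^ 3 = 1) (aA : (a * A) ^ 4 = 1) (bB : (b * B) ^ 4 = 1)
    (ac : Commute a c) (cb : Commute c b) (bA : Commute b A) (AC : Commute A C) (CB : Commute C B)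
    (Ba : Commute B a)
    (ab : ⁅a, b⁆ ∈ zpowers c) (AB : ⁅A, B⁆ ∈ zpowers C) (Ac : ⁅A, c⁆ ∈ zpowers b)
    (Bc : ⁅B, c⁆ ∈ zpowers a) (aC : ⁅a, C⁆ ∈ zpowers B) (bC : ⁅b, C⁆ ∈ zpowers A)
    (n1 : ¬ Commute a b) (n2 : ¬ Commute A B) (n3 : ¬ Commute A c) (n4 : ¬ Commute B c)
    (n5 : ¬ Commute a C) (n6 : ¬ Commute b C) : Ed a A b B := by
  have i3 : ∀ {x : G}, x ^ 3 = 1 → x⁻¹ ^ 3 = 1 := fun h => by rw [inv_pow, h, inv_one]
  have ni : ∀ {x y : G}, ¬ Commute x y → ¬ Commute x y⁻¹ := fun h k => h (by simpa using k.inv_right)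
  have BA : ⁅B, A⁆ ∈ zpowers C := by rw [← commutatorElement_inv]; exact inv_mem AB
  rcases mem3 c3 ab (fun k => n1 (commutatorElement_eq_one_iff_commute.1 k)) with e | e <;>
  rcases mem3 C3 BA (fun k => n2 (commutatorElement_eq_one_iff_commute.1 k).symm) with E | E
  · exact hex0 a3 A3 b3 B3 c3 C3 aA bB ac cb bA AC CB Ba e E Ac Bc aC bC n3 n4 n5 n6
  · exact hex0 a3 A3 b3 B3 c3 (i3 C3) aA bB ac cb bA AC.inv_right CB.inv_left Ba e E Ac Bc
      (inv_mem' CB aC) (inv_mem' AC.symm bC) n3 n4 (ni n5) (ni n6)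
  · exact hex0 a3 A3 b3 B3 (i3 c3) C3 aA bB ac.inv_right cb.inv_left bA AC CB Ba e E
      (inv_mem' cb Ac) (inv_mem' ac.symm Bc) aC bC (ni n3) (ni n4) n5 n6
  · exact hex0 a3 A3 b3 B3 (i3 c3) (i3 C3) aA bB ac.inv_right cb.inv_left bA AC.inv_right
      CB.inv_left Ba e E (inv_mem' cb Ac) (inv_mem' ac.symm Bc)
      (inv_mem' CB aC) (inv_mem' AC.symm bC) (ni n3) (ni n4) (ni n5) (ni n6)

/-- `SL₂(3)`: the Weyl element. -/
theorem weyl {a A u v : G} (a3 : a ^ 3 = 1) (A3 : A ^ 3 = 1) (sq : a * A * (a * A) = u)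
    (uu : u * u = 1) (ua : a * u = u * a) (ia : v * a * v⁻¹ = a⁻¹) (iA : v * A * v⁻¹ = A⁻¹) :
    let n := a * A⁻¹ * a
    n * n = u ∧ n * a * n⁻¹ = A⁻¹ ∧ n * A * n⁻¹ = a⁻¹ ∧ n * v * n⁻¹ = u * v ∧ n * u = u * n ∧
      A * a * (A * a) = u ∧ A * a⁻¹ * A = n⁻¹ := by
  intro n
  have s2 : A * a * (A * a) = u := by
    calc A * a * (A * a) = a⁻¹ * (a * A * (a * A)) * a := by group
      _ = u := by rw [sq, mul_assoc, ← ua, inv_mul_cancel_left]
  have ui : u⁻¹ = u := inv_eq_of_mul_eq_one_right uu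
  have uA : A * u = u * A := by
    nth_rewrite 1 [← sq]; rw [← s2]; group
  have ca : Commute a u := ua
  have cA : Commute A u := uA
  have e1 : a * A = u * (A⁻¹ * a⁻¹) := by rw [← sq]; group
  have e2 : A * a = u * (a⁻¹ * A⁻¹) := by rw [← s2]; group
  have e3 : n = A⁻¹ * a * A⁻¹ := by
    calc n = a * A * (A * a) := by simp only [n, inv3 A3, mul_assoc]
      _ = u * (A⁻¹ * a⁻¹ * u) * (a⁻¹ * A⁻¹) := by rw [e1, e2]; group
      _ = A⁻¹ * (a * a)⁻¹ * A⁻¹ := by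
        rw [(cA.inv_left.mul_left ca.inv_left).eq, ← mul_assoc u, uu]; group
      _ = _ := by rw [← inv3 a3, inv_inv]
  have e4 : A⁻¹ * a⁻¹ * A⁻¹ = u * a := by rw [← ui, ← sq]; group
  have nn : n * n = u := by
    calc n * n = a * (A⁻¹ * (a * a) * A⁻¹) * a := by simp only [n]; group
      _ = u * a ^ 3 := by rw [← inv3 a3, e4, ← mul_assoc, ua]; simp [pow_succ, mul_assoc]
      _ = u := by rw [a3, mul_one]
  have vn : v * n⁻¹ * v⁻¹ = n := by
    calc v * n⁻¹ * v⁻¹ = (v * a * v⁻¹)⁻¹ * (v * A * v⁻¹) * (v * a * v⁻¹)⁻¹ := by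
          simp only [n]; group
      _ = n := by rw [ia, iA, inv_inv]
  refine ⟨nn, ?_, ?_, ?_, by rw [← nn]; exact (mul_assoc n n n).symm, s2, by rw [e3]; group⟩
  · rw [mul_inv_eq_iff_eq_mul]
    nth_rewrite 1 [e3]
    simp only [n, mul_assoc]
  · rw [mul_inv_eq_iff_eq_mul]
    nth_rewrite 1 [e3]
    simp only [n]; group
  · calc n * v * n⁻¹ = n * (v * n⁻¹ * v⁻¹) * v := by group
      _ = _ := by rw [vn, nn]

theorem Ed.conj {a A b B : G} (h : Ed a A b B) :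
    (a * A⁻¹ * a) * b * (a * A⁻¹ * a)⁻¹ = ⁅a, b⁆ ∧ (a * A⁻¹ * a) * B * (a * A⁻¹ * a)⁻¹ = ⁅B, A⁆ ∧
      (b * B⁻¹ * b) * a * (b * B⁻¹ * b)⁻¹ = ⁅a, b⁆⁻¹ ∧
      (b * B⁻¹ * b) * A * (b * B⁻¹ * b)⁻¹ = ⁅B, A⁆⁻¹ := by
  obtain ⟨e, s, h1, h2, h3, h4⟩ := h
  have p : ∀ x : G, pw x 1 = x := fun x => pow_one x
  have k1 : a = e 0 1 1 := by rw [h1, p]
  have k2 : A = e 1 0 1 := by rw [h2, p]
  have k3 : b = e 1 2 1 := by rw [h3, p]
  have k4 : B = e 2 1 1 := by rw [h4, p]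
  have w1 : a * A⁻¹ * a = Chev.stW e 0 1 1 := by
    rw [Chev.stW, k1, k2, s.inv (by decide), inv_one]
  have w2 : b * B⁻¹ * b = Chev.stW e 1 2 1 := by
    rw [Chev.stW, k3, k4, s.inv (by decide), inv_one]
  have c1 : ⁅a, b⁆ = e 0 2 1 := by
    rw [k1, k3, commutatorElement_def, ← s.eq_comm (by decide) (by decide) (by decide), mul_one]
  have c2 : ⁅B, A⁆ = e 2 0 1 := by
    rw [k2, k4, commutatorElement_def, ← s.eq_comm (by decide) (by decide) (by decide), mul_one]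
  rw [w1, w2, c1, c2, s.inv (by decide), s.inv (by decide), k1, k2, k3, k4,
    s.stW_bc (by decide) (by decide) (by decide) one_ne_zero,
    s.stW_cb (by decide) (by decide) (by decide) one_ne_zero,
    s.stW_ca (by decide) (by decide) (by decide) one_ne_zero,
    s.stW_ac (by decide) (by decide) (by decide) one_ne_zero]
  simp

end Cfsg.Lib.X9P
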