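import Cfsg.Agent.X9P.U3
import Cfsg.Agent.X9P.U4

/-!
# Root groups at two commuting involutions generate `SL₃(3)`
-/

set_option autoImplicit false

universe u

namespace Cfsg.Lib.X9P

open Subgroup Cfsg.Lib.Local Cfsg.Lib.Solv Cfsg.Lib.Spor Cfsg.Lib.LX
open scoped Pointwise commutatorElement

variable {G : Type u} [Group G] [Finite G]

namespace U5

section
omit [Finite G]
variable {u v w x y : G} {a A : Fin 4 → G}

theorem not_inv (r : Rt u x) (i : w * x * w⁻¹ = x⁻¹) : ¬ Commute x w := fun c => by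
  rw [← c.eq, mul_inv_cancel_right] at i
  have := r.2.1
  rw [pow_succ, pow_two, mul_eq_one_iff_eq_inv.2 i, one_mul] at this
  exact r.2.2.1 this

theorem not_both {p q : G} (r : Rt u x) (i : w * x * w⁻¹ = x⁻¹) (s : p * q * (p * q) = w)
    (c : Commute x p) (c' : Commute x q) : False :=
  not_inv r i (s ▸ (c.mul_right c').mul_right (c.mul_right c'))

theorem inv_mul (c : Commute x u) (i : v * x * v⁻¹ = x⁻¹) : u * v * x * (u * v)⁻¹ = x⁻¹ := by
  rw [show u * v * x * (u * v)⁻¹ = u * (v * x * v⁻¹) * u⁻¹ by group, i, ← c.inv_left.eq,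
    mul_inv_cancel_right]

theorem mul_inv' (c : Commute x v) (i : u * x * u⁻¹ = x⁻¹) : u * v * x * (u * v)⁻¹ = x⁻¹ := by
  rw [show u * v * x * (u * v)⁻¹ = u * (v * x * v⁻¹) * u⁻¹ by group, ← c.eq,
    mul_inv_cancel_right, i]

theorem swap0 (F : Fr0 u v a A) : Fr0 u v A a where
  ra := F.rA
  rA := F.ra
  ia := F.iA
  iA := F.ia
  sq i := by
    calc A i * a i * (A i * a i) = (a i)⁻¹ * (a i * A i * (a i * A i)) * a i := by group
      _ = u := by rw [F.sq, mul_assoc, ← (F.ra i).1, inv_mul_cancel_left]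
  aa := F.AA
  aA i j h := (F.aA j i h.symm).symm
  AA := F.aa
  un x r i := (F.un x r i).imp fun _ h => by tauto
  gen x r := Set.union_comm _ _ ▸ F.gen x r

theorem swap (F : Fr u v a A) : Fr u v A a where
  toFr0 := swap0 F.toFr0
  odd R h1 h2 h3 := (F.odd R h1 h2 h3).imp_right fun k e i => (k e i).symm
  cj c hc := Set.union_comm _ _ ▸ F.cj c hc

theorem nc (p : PreLX (qOf u) u) (F : Fr0 u v a A) (i : Fin 4) : ¬ Commute (a i) (A i) := fun c => by
  have h3 : (a i * A i) ^ 3 = 1 := by rw [c.mul_pow, (F.ra i).2.1, (F.rA i).2.1, one_mul]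
  have h4 : (a i * A i) ^ 4 = 1 := by
    rw [show 4 = 2 * 2 from rfl, pow_mul, pow_two, pow_two, F.sq, p.mul_self]
  rw [pow_succ, h3, one_mul] at h4
  exact p.ne_one (by rw [← F.sq i, h4, one_mul])

theorem four (p : PreLX (qOf u) u) (F : Fr0 u v a A) (i : Fin 4) : (a i * A i) ^ 4 = 1 := by
  rw [show 4 = 2 * 2 from rfl, pow_mul, pow_two, pow_two, F.sq, p.mul_self]

theorem wy (p : PreLX (qOf u) u) (F : Fr0 u v a A) (i : Fin 4) :
    let n := a i * (A i)⁻¹ * a i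
    n * n = u ∧ n * a i * n⁻¹ = (A i)⁻¹ ∧ n * A i * n⁻¹ = (a i)⁻¹ ∧ n * v * n⁻¹ = u * v ∧
      n * u = u * n ∧ A i * a i * (A i * a i) = u ∧ A i * (a i)⁻¹ * A i = n⁻¹ :=
  weyl (F.ra i).2.1 (F.rA i).2.1 (F.sq i) p.mul_self (F.ra i).1 (F.ia i) (F.iA i)

/-- The Weyl elements move root elements at `v` to root elements at `u v`. -/
theorem nb {n : G} (e : n * v * n⁻¹ = u * v) (c : n * u = u * n) (r : Rt v y)
    (i : u * y * u⁻¹ = y⁻¹) :
    Rt (u * v) (n * y * n⁻¹) ∧ u * (n * y * n⁻¹) * u⁻¹ = (n * y * n⁻¹)⁻¹ := by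
  refine ⟨e ▸ r.cj n, ?_⟩
  calc u * (n * y * n⁻¹) * u⁻¹ = u * n * y * (u * n)⁻¹ := by group
    _ = n * (u * y * u⁻¹) * n⁻¹ := by rw [← c]; group
    _ = _ := by rw [i]; group

theorem cj_comm {n p q : G} : Commute (n * p * n⁻¹) (n * q * n⁻¹) ↔ Commute p q :=
  ⟨fun h => by simpa [mul_assoc] using h.conj n⁻¹, fun h => h.conj n⟩

end

theorem mem_of {u w x y : G} {O : Subgroup G} (H : La u) (t : Tr u w) (r : Rt u x)
    (i : w * x * w⁻¹ = x⁻¹) (le : O ≤ centralizer ({x} : Set G))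
    (k : Nat.card ↥(O ⊓ centralizer ({w} : Set G)) = 81 ∧
      ∀ a ∈ O ⊓ centralizer ({w} : Set G), u * a * u⁻¹ = a⁻¹)
    (ry : Rt w y) (iy : u * y * u⁻¹ = y⁻¹) (c : Commute x y) : y ∈ O := by
  obtain ⟨b, B, F⟩ := (H _ t.cv).fr u (t.symm H.self.pre)
  have o := (F.odd _ inf_le_right (by rw [k.1]; decide) k.2).2 k.1
  have m : ∀ {q}, q ∈ O ⊓ centralizer ({w} : Set G) → Commute x q := fun h =>
    (mem_centralizer_singleton_iff.1 (le h.1)).symm
  obtain ⟨j, rfl | rfl | rfl | rfl⟩ := F.un y ry iy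
  · exact (o j).elim (fun h => h.1) fun h => (not_both r i (F.sq j) c (m h)).elim
  · exact (o j).elim (fun h => inv_mem (mem_inf.1 h).1) fun h =>
      (not_both r i (F.sq j) (by simpa using c) (m h)).elim
  · exact (o j).elim (fun h => (not_both r i (F.sq j) (m h) c).elim) fun h => h.1
  · exact (o j).elim (fun h => (not_both r i (F.sq j) (m h) (by simpa using c)).elim)
      fun h => inv_mem (mem_inf.1 h).1

end U5

open U5

theorem one_of {u v x : G} {b B : Fin 4 → G} (H : La u) (t : Tr u v) (F : Fr v u b B) (r : Rt u x)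
    (i : v * x * v⁻¹ = x⁻¹) (j : Fin 4) : Commute x (b j) ↔ ¬ Commute x (B j) := by
  obtain ⟨O, le, -, k, -⟩ := big H t r i
  obtain ⟨k1, k2⟩ := k v (.inl rfl)
  refine ⟨fun c c' => not_both r i (F.sq j) c c', fun n => ?_⟩
  rcases (F.odd _ inf_le_right (by rw [k1]; decide) k2).2 k1 j with h | h
  · exact (mem_centralizer_singleton_iff.1 (le h.1)).symm
  · exact absurd (mem_centralizer_singleton_iff.1 (le h.1)).symm n

theorem comm_in {u v x y y' : G} (H : La u) (t : Tr u v) (r : Rt u x) (i : v * x * v⁻¹ = x⁻¹)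
    (ry : Rt v y ∨ Rt (u * v) y) (iy : u * y * u⁻¹ = y⁻¹) (c : Commute x y)
    (ry' : Rt v y' ∨ Rt (u * v) y') (iy' : u * y' * u⁻¹ = y'⁻¹) (c' : Commute x y') :
    ⁅y, y'⁆ ∈ zpowers x := by
  obtain ⟨O, le, cm, k, -⟩ := big H t r i
  have m : ∀ {y}, Rt v y ∨ Rt (u * v) y → u * y * u⁻¹ = y⁻¹ → Commute x y → y ∈ O :=
    fun ry iy c => ry.elim (fun h => mem_of H t r i le (k v (.inl rfl)) h iy c) fun h =>
      mem_of H (t.mul H.self.pre) r (inv_mul r.1 i) le (k _ (.inr rfl)) h iy c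
  exact cm _ (m ry iy c) _ (m ry' iy' c')

theorem U5.comm_nb {u v y : G} {a A : Fin 4 → G} (H : La u) (t : Tr u v) (F : Fr u v a A)
    (i : Fin 4) (r : Rt v y) (iy : u * y * u⁻¹ = y⁻¹) :
    Commute (a i * (A i)⁻¹ * a i * y * (a i * (A i)⁻¹ * a i)⁻¹) y := by
  have pre := H.self.pre
  obtain ⟨-, -, -, w4, w5, -⟩ := wy pre F.toFr0 i
  obtain ⟨rc, ic⟩ := nb w4 w5 r iy
  have key : ∀ l, l ≠ i → ∃ δ, (δ = a l ∨ δ = A l) ∧
      ⁅a i * (A i)⁻¹ * a i * y * (a i * (A i)⁻¹ * a i)⁻¹, y⁆ ∈ zpowers δ := fun l hl => by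
    have : ∃ δ, (δ = a l ∨ δ = A l) ∧ Commute δ y ∧ Rt u δ ∧ v * δ * v⁻¹ = δ⁻¹ ∧
        Commute δ (a i) ∧ Commute δ (A i) := by
      by_cases c : Commute y (A l)
      · exact ⟨_, .inr rfl, c.symm, F.rA l, F.iA l, (F.aA i l hl.symm).symm, F.AA l i hl⟩
      · exact ⟨_, .inl rfl, ((one_of (H.at t.cv) (t.symm pre) F r iy l).2 c).symm, F.ra l, F.ia l,
          F.aa l i hl, F.aA l i hl⟩
    obtain ⟨δ, h, c, rd, id, c1, c2⟩ := this
    have cn := (c1.mul_right c2.inv_right).mul_right c1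
    exact ⟨δ, h, comm_in H t rd id (.inr rc) ic ((cn.mul_right c).mul_right cn.inv_right)
      (.inl r) iy c⟩
  obtain ⟨l, l', h1, h2, h3⟩ :=
    (by decide : ∀ i : Fin 4, ∃ l l' : Fin 4, l ≠ i ∧ l' ≠ i ∧ l' ≠ l) i
  obtain ⟨δ, e, m⟩ := key l h1
  obtain ⟨δ', e', m'⟩ := key l' h2
  by_contra n
  have n' := mt commutatorElement_eq_one_iff_commute.1 n
  have c : Commute δ' (a l) ∧ Commute δ' (A l) := by
    rcases e' with rfl | rfl
    · exact ⟨F.aa _ _ h3, F.aA _ _ h3⟩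
    · exact ⟨(F.aA _ _ h3.symm).symm, F.AA _ _ h3⟩
  obtain ⟨k, hk⟩ := mem_zpowers_iff.1 m'
  have c1 := hk ▸ c.1.zpow_left k
  have c2 := hk ▸ c.2.zpow_left k
  apply nc pre F.toFr0 l
  rcases e with rfl | rfl
  · rcases U4.mem3 (F.ra l).2.1 m n' with q | q <;> rw [q] at c2
    · exact c2
    · simpa using c2
  · rcases U4.mem3 (F.rA l).2.1 m n' with q | q <;> rw [q] at c1
    · exact c1.symm
    · simpa using c1.symm

theorem U5.edge0 {u v : G} {a A b B : Fin 4 → G} (H : La u) (t : Tr u v) (F : Fr u v a A)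
    (F' : Fr v u b B) (i j : Fin 4) (n1 : ¬ Commute (a i) (b j)) : Ed (a i) (A i) (b j) (B j) := by
  have pre := H.self.pre
  have Hv := H.at t.cv
  have tv := t.symm pre
  have Hw := H.at t.cw
  have tw := (t.mul pre).symm pre
  have bA : Commute (b j) (A i) := by
    by_contra h
    exact n1 ((one_of Hv tv F (F'.ra j) (F'.ia j) i).2 h).symm
  have aB : Commute (a i) (B j) := by
    by_contra h
    exact n1 ((one_of H t F' (F.ra i) (F.ia i) j).2 h)
  have n2 : ¬ Commute (A i) (B j) := (one_of H t F' (F.rA i) (F.iA i) j).1 bA.symm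
  obtain ⟨-, w2, w3, w4, w5, -⟩ := wy pre F.toFr0 i
  have cb := U5.comm_nb H t F i (F'.ra j) (F'.ia j)
  have CB := U5.comm_nb H t F i (F'.rA j) (F'.iA j)
  obtain ⟨rc, ic⟩ := nb w4 w5 (F'.ra j) (F'.ia j)
  obtain ⟨rC, iC⟩ := nb w4 w5 (F'.rA j) (F'.iA j)
  generalize a i * (A i)⁻¹ * a i = n at w2 w3 w4 w5 cb CB rc ic rC iC
  have sq : n * b j * n⁻¹ * (n * B j * n⁻¹) * (n * b j * n⁻¹ * (n * B j * n⁻¹)) = u * v := by
    rw [conj_mul, conj_mul, F'.sq, w4]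
  have ac : Commute (a i) (n * b j * n⁻¹) := by simpa [w3] using cj_comm (n := n).2 bA.symm
  have AC : Commute (A i) (n * B j * n⁻¹) := by simpa [w2] using cj_comm (n := n).2 aB
  have n3 : ¬ Commute (A i) (n * b j * n⁻¹) := fun h => n1 (cj_comm (n := n).1 (by simpa [w2]))
  have n5 : ¬ Commute (a i) (n * B j * n⁻¹) := fun h => n2 (cj_comm (n := n).1 (by simpa [w3]))
  generalize n * b j * n⁻¹ = c at cb rc ic sq ac n3
  generalize n * B j * n⁻¹ = C at CB rC iC sq AC n5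
  have ib := mul_inv' (F'.ra j).1 (F'.ia j)
  have iB := mul_inv' (F'.rA j).1 (F'.iA j)
  have ia := inv_mul (F.ra i).1 (F.ia i)
  have iA := inv_mul (F.rA i).1 (F.iA i)
  have n6 : ¬ Commute (b j) C := fun h => not_both (F'.ra j) ib sq cb.symm h
  have n4 : ¬ Commute (B j) c := fun h => not_both (F'.rA j) iB sq h CB.symm
  have e1 : u * v * u = v := by rw [mul_assoc, ← t.cm, ← mul_assoc, pre.mul_self, one_mul]
  have e2 : u * (u * v) = v := by rw [← mul_assoc, pre.mul_self, one_mul]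
  have vc : v * c * v⁻¹ = c⁻¹ := e2 ▸ mul_inv' rc.1 ic
  have vC : v * C * v⁻¹ = C⁻¹ := e2 ▸ mul_inv' rC.1 iC
  exact hex (F.ra i).2.1 (F.rA i).2.1 (F'.ra j).2.1 (F'.rA j).2.1 rc.2.1 rC.2.1
    (four pre F.toFr0 i) (four Hv.self.pre F'.toFr0 j) ac cb bA AC CB aB.symm
    (comm_in Hw tw rc ic (.inl (F.ra i)) ia ac.symm (.inr (e1.symm ▸ F'.ra j)) ib cb)
    (comm_in Hw tw rC iC (.inl (F.rA i)) iA AC.symm (.inr (e1.symm ▸ F'.rA j)) iB CB)
    (comm_in Hv tv (F'.ra j) (F'.ia j) (.inl (F.rA i)) (F.iA i) bA (.inr (t.cm ▸ rc)) vc cb.symm)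
    (comm_in H t (F.ra i) (F.ia i) (.inl (F'.rA j)) (F'.iA j) aB (.inr rc) ic ac)
    (comm_in Hv tv (F'.rA j) (F'.iA j) (.inl (F.ra i)) (F.ia i) aB.symm (.inr (t.cm ▸ rC)) vC
      CB.symm)
    (comm_in H t (F.rA i) (F.iA i) (.inl (F'.ra j)) (F'.ia j) bA.symm (.inr rC) iC AC)
    n1 n2 n3 n4 n5 n6

theorem edge {u v : G} {a A b B : Fin 4 → G} (H : La u) (t : Tr u v) (F : Fr u v a A)
    (F' : Fr v u b B) (i j : Fin 4) : Ed (a i) (A i) (b j) (B j) ∨ Ed (A i) (a i) (b j) (B j) := by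
  by_cases c : Commute (a i) (b j)
  · exact .inr (U5.edge0 H t (swap F) F' i j fun h =>
      (one_of (H.at t.cv) (t.symm H.self.pre) F (F'.ra j) (F'.ia j) i).1 c.symm h.symm)
  · exact .inl (U5.edge0 H t F F' i j c)

end Cfsg.Lib.X9P
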