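import Cfsg.Agent.X9P.U5

/-!
# Four of the twelve `SL₂(3)` generate all of them
-/

set_option autoImplicit false

universe u

namespace Cfsg.Lib.X9P

open Subgroup Cfsg.Lib.Local Cfsg.Lib.Solv Cfsg.Lib.Spor Cfsg.Lib.LX
open scoped Pointwise commutatorElement

variable {G : Type u} [Group G] [Finite G]

namespace U6

open U5

omit [Finite G] in
theorem same {w u x X : G} {c C : Fin 4 → G} (F : Fr0 w u c C) (r : Rt w x) (i : u * x * u⁻¹ = x⁻¹)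
    (R : Rt w X) (I : u * X * u⁻¹ = X⁻¹) (n : ¬ Commute x X) :
    ∃ l, ∀ K : Subgroup G, x ∈ K ∧ X ∈ K ↔ c l ∈ K ∧ C l ∈ K := by
  obtain ⟨l, h⟩ := F.un x r i
  obtain ⟨l', h'⟩ := F.un X R I
  by_cases e : l = l'
  · subst e
    refine ⟨l, fun K => ?_⟩
    rcases h with rfl | rfl | rfl | rfl <;> rcases h' with rfl | rfl | rfl | rfl <;>
      first | (exfalso; apply n; simp; done) | simp [and_comm]
  · have c1 := F.aa _ _ e
    have c2 := F.aA _ _ e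
    have c3 := (F.aA _ _ (Ne.symm e)).symm
    have c4 := F.AA _ _ e
    rcases h with rfl | rfl | rfl | rfl <;> rcases h' with rfl | rfl | rfl | rfl <;>
      exact absurd (by simpa) n

omit [Finite G] in
theorem inj {u v n : G} {b B : Fin 4 → G} (p : PreLX (qOf v) v) (F : Fr0 v u b B) {j j' : Fin 4}
    (h : ∀ K : Subgroup G, n * b j * n⁻¹ ∈ K ∧ n * B j * n⁻¹ ∈ K →
      n * b j' * n⁻¹ ∈ K ∧ n * B j' * n⁻¹ ∈ K) : j = j' := by
  by_contra e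
  refine nc p F j' (cj_comm (n := n).1 (Commute.symm (mem_centralizer_singleton_iff.1 (h _ ⟨?_, ?_⟩).2)))
  · exact mem_centralizer_singleton_iff.2 (cj_comm.2 (F.aa _ _ e))
  · exact mem_centralizer_singleton_iff.2 (cj_comm.2 (F.aA _ _ (Ne.symm e)).symm)

omit [Finite G] in
theorem cj_iff {K : Subgroup G} {p P x : G} (h : p ∈ K ∧ P ∈ K) :
    p * P⁻¹ * p * x * (p * P⁻¹ * p)⁻¹ ∈ K ↔ x ∈ K := by
  have m : p * P⁻¹ * p ∈ K := mul_mem (mul_mem h.1 (inv_mem h.2)) h.1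
  rw [mul_mem_cancel_right (inv_mem m), mul_mem_cancel_left m]

theorem kappa {u v : G} {a A b B c C : Fin 4 → G} (H : La u) (t : Tr u v) (F : Fr u v a A)
    (F' : Fr v u b B) (F'' : Fr (u * v) u c C) (i j : Fin 4) : ∃ l,
      (∀ K : Subgroup G, a i * (A i)⁻¹ * a i * b j * (a i * (A i)⁻¹ * a i)⁻¹ ∈ K ∧
        a i * (A i)⁻¹ * a i * B j * (a i * (A i)⁻¹ * a i)⁻¹ ∈ K ↔ c l ∈ K ∧ C l ∈ K) ∧
      (∀ K : Subgroup G, b j * (B j)⁻¹ * b j * a i * (b j * (B j)⁻¹ * b j)⁻¹ ∈ K ∧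
        b j * (B j)⁻¹ * b j * A i * (b j * (B j)⁻¹ * b j)⁻¹ ∈ K ↔ c l ∈ K ∧ C l ∈ K) := by
  have pre := H.self.pre
  obtain ⟨w1, -, -, w4, w5, -, w7⟩ := wy pre F.toFr0 i
  obtain ⟨rc, ic⟩ := nb w4 w5 (F'.ra j) (F'.ia j)
  obtain ⟨rC, iC⟩ := nb w4 w5 (F'.rA j) (F'.iA j)
  obtain ⟨l, hl⟩ := same F''.toFr0 rc ic rC iC
    fun h => nc (H _ t.cv).pre F'.toFr0 j (cj_comm.1 h)
  refine ⟨l, hl, fun K => Iff.trans ?_ (hl K)⟩
  rcases edge H t F F' i j with h | h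
  · obtain ⟨e1, e2, e3, e4⟩ := h.conj
    rw [e1, e2, e3, e4, inv_mem_iff, inv_mem_iff]
  · obtain ⟨e1, e2, e3, e4⟩ := h.conj
    rw [e3, e4, ← e1, ← e2, w7]
    generalize a i * (A i)⁻¹ * a i = n at w1
    have k : ∀ y, u * y * u⁻¹ = y⁻¹ → (n⁻¹ * y * n⁻¹⁻¹)⁻¹ = n * y * n⁻¹ := fun y h => by
      calc (n⁻¹ * y * n⁻¹⁻¹)⁻¹ = n⁻¹ * y⁻¹ * n := by group
        _ = _ := by rw [← h, ← w1]; group
    rw [k _ (F'.ia j), k _ (F'.iA j), and_comm]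

end U6

open U6

theorem gen {u v : G} {a A b B : Fin 4 → G} (H : La u) (t : Tr u v) (F : Fr u v a A)
    (F' : Fr v u b B) : GS u v ≤ closure {a 0, A 0, a 1, A 1, a 2, A 2, b 0, B 0} := by
  have pre := H.self.pre
  obtain ⟨c, C, F''⟩ := (H _ t.cw).fr u ((t.mul pre).symm pre)
  choose κ h1 h2 using U6.kappa H t F F' F''
  have i1 : ∀ i, Function.Injective (κ i) := fun i j j' e =>
    inj (H _ t.cv).pre F'.toFr0 fun K h => (h1 i j' K).2 (e ▸ (h1 i j K).1 h)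
  have i2 : ∀ j, Function.Injective (κ · j) := fun j i i' e =>
    inj pre F.toFr0 fun K h => (h2 i' j K).2 ((show κ i j = κ i' j from e) ▸ (h2 i j K).1 h)
  generalize hK : closure {a 0, A 0, a 1, A 1, a 2, A 2, b 0, B 0} = K
  have m : ∀ x ∈ ({a 0, A 0, a 1, A 1, a 2, A 2, b 0, B 0} : Set G), x ∈ K :=
    fun x hx => hK ▸ subset_closure hx
  have P : ∀ i, i ≠ 3 → a i ∈ K ∧ A i ∈ K := fun i hi => by
    fin_cases i
    · exact ⟨m _ (by simp), m _ (by simp)⟩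
    · exact ⟨m _ (by simp), m _ (by simp)⟩
    · exact ⟨m _ (by simp), m _ (by simp)⟩
    · exact absurd rfl hi
  have Q0 : b 0 ∈ K ∧ B 0 ∈ K := ⟨m _ (by simp), m _ (by simp)⟩
  have k1 : ∀ i j, a i ∈ K ∧ A i ∈ K → (b j ∈ K ∧ B j ∈ K ↔ c (κ i j) ∈ K ∧ C (κ i j) ∈ K) :=
    fun i j h => by rw [← h1, cj_iff h, cj_iff h]
  have k2 : ∀ i j, b j ∈ K ∧ B j ∈ K → (a i ∈ K ∧ A i ∈ K ↔ c (κ i j) ∈ K ∧ C (κ i j) ∈ K) :=
    fun i j h => by rw [← h2, cj_iff h, cj_iff h]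
  obtain ⟨j, hj⟩ := Finite.injective_iff_surjective.1 (i1 1) (κ 0 0)
  have j0 : j ≠ 0 := by
    rintro rfl
    exact absurd (i2 0 hj) (by decide)
  have Qj : b j ∈ K ∧ B j ∈ K := (k1 1 j (P 1 (by decide))).2 (hj ▸ (k1 0 0 (P 0 (by decide))).1 Q0)
  have R : ∀ l, c l ∈ K ∧ C l ∈ K := fun l => by
    obtain ⟨i, rfl⟩ := Finite.injective_iff_surjective.1 (i2 0) l
    by_cases hi : i = 3
    · obtain ⟨i', e⟩ := Finite.injective_iff_surjective.1 (i2 j) (κ i 0)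
      have : i' ≠ 3 := by
        rintro rfl
        subst hi
        exact j0 (i1 _ e)
      have k := (k1 i' j (P i' this)).1 Qj
      rw [show κ i' j = κ i 0 from e] at k
      exact k
    · exact (k1 i 0 (P i hi)).1 Q0
  have le : ∀ {p q : Fin 4 → G}, (∀ i, p i ∈ K ∧ q i ∈ K) →
      closure (Set.range p ∪ Set.range q) ≤ K := fun h => (closure_le _).2 (by
    rintro _ (⟨i, rfl⟩ | ⟨i, rfl⟩)
    exacts [(h i).1, (h i).2])
  refine (closure_le _).2 ?_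
  rintro x (r | r | r)
  · exact le (fun i => (k2 i 0 Q0).2 (R _)) (F.gen x r)
  · exact le (fun j => (k1 0 j (P 0 (by decide))).2 (R _)) (F'.gen x r)
  · exact le R (F''.gen x r)

end Cfsg.Lib.X9P
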